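/-
Project NP (S4340, S4338): simple groups with fewer than p^2 Sylow p-subgroups. Interface.
-/
import Cfsg.Agent.Inv.PBSelf
import Cfsg.Agent.Fgs.SylSmall

set_option autoImplicit false

namespace CL.NP

open Finset CL.Inv.PO CL.Blk CL.Char Cfsg Subgroup
open scoped Classical commutatorElement

universe u

/-! ### Group side -/

/-- `C(Q)` for a Sylow subgroup `Q`. -/
abbrev CQ {G : Type*} [Group G] {p : ℕ} (Q : Sylow p G) : Subgroup G :=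
  centralizer ((Q : Subgroup G) : Set G)

/-- Standing group hypotheses. -/
structure GH (G : Type*) [Group G] (p : ℕ) : Prop where
  simple : IsSimpleGroup G
  perf : commutator G = ⊤
  five : 5 ≤ p
  card : ∀ Q : Sylow p G, Nat.card Q = p
  lt : Nat.card (Sylow p G) < p ^ 2
  ne : Nat.card (Sylow p G) ≠ 1

/-- an element centralizing one Sylow subgroup and normalizing another centralizes it -/
def K0 (G : Type*) [Group G] (p : ℕ) : Prop :=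
  ∀ (P Q : Sylow p G) (y : G), y ∈ CQ P → P ≠ Q → y • Q = Q → y ∈ CQ Q

/-- centralizers of distinct Sylow subgroups meet trivially -/
def K1 (G : Type*) [Group G] (p : ℕ) : Prop :=
  ∀ P Q : Sylow p G, P ≠ Q → CQ P ⊓ CQ Q = ⊥

/-- the Sylow subgroups centralized by `D` -/
def Fx {G : Type*} [Group G] (p : ℕ) (D : Subgroup G) : Set (Sylow p G) := {Q | D ≤ CQ Q}

/-- `D ≠ 1` is an intersection `C(P) ⊓ C(Q)` of maximal order -/
structure Mx {G : Type*} [Group G] (p : ℕ) (D : Subgroup G) : Prop where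
  ne : D ≠ ⊥
  ex : ∃ P Q : Sylow p G, P ≠ Q ∧ D = CQ P ⊓ CQ Q
  max : ∀ P Q : Sylow p G, P ≠ Q → Nat.card (CQ P ⊓ CQ Q : Subgroup G) ≤ Nat.card D

/-- the basic facts on a maximal intersection -/
structure Dl {G : Type*} [Group G] (p : ℕ) (D : Subgroup G) : Prop where
  mx : Mx p D
  cop : ¬ p ∣ Nat.card D
  card : (Fx p D).ncard = p + 1
  inf : ∀ P ∈ Fx p D, ∀ Q ∈ Fx p D, P ≠ Q → CQ P ⊓ CQ Q = D
  out : ∃ Q : Sylow p G, Q ∉ Fx p D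
  compl : (Fx p D)ᶜ.ncard ≤ p * (p - 2)
  smul : ∀ g ∈ normalizer (D : Set G), ∀ Q ∈ Fx p D, g • Q ∈ Fx p D
  semi : ∀ z ∈ normalizer (D : Set G), ¬ p ∣ orderOf z → ∀ Q ∈ Fx p D, z ∈ CQ Q → z ∈ D

/-- outside the fixed set, `C(D) ⊓ C(Q) ≤ D` -/
def Out {G : Type*} [Group G] (p : ℕ) (D : Subgroup G) : Prop :=
  ∀ Q : Sylow p G, Q ∉ Fx p D → centralizer (D : Set G) ⊓ CQ Q ≤ D

/-- `Z(D)` -/
abbrev ZD {G : Type*} [Group G] (D : Subgroup G) : Subgroup G := D ⊓ centralizer (D : Set G)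

/-- the structure of `J = Z(D) ⟨Q | Q ∈ Fx D⟩` modulo `Z(D)` -/
def Str {G : Type*} [Group G] (p : ℕ) (D : Subgroup G) : Prop :=
  ∃ J : Subgroup G, J ≤ centralizer (D : Set G) ∧ ZD D ≤ J ∧
    (∀ Q ∈ Fx p D, (Q : Subgroup G) ≤ J) ∧
    ((∀ z ∈ J, ¬ p ∣ orderOf z → ∀ m : ℕ, (∀ k : ℕ, z ^ k ∈ D → m ∣ k) →
        m * (p * (p - 2)) * Nat.card (ZD D) < Nat.card J) ∨
      (Nat.card J = p * (p + 1) * Nat.card (ZD D) ∧
        ∀ z ∈ J, ∀ w ∈ J, ¬ p ∣ orderOf z → ¬ p ∣ orderOf w → z * z ∈ D ∧ ⁅z, w⁆ ∈ D))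

/-- groups with `p + 1` self-centralizing Sylow subgroups that generate -/
def KL : Prop :=
  ∀ (H : Type u) [Group H] [Finite H] (p : ℕ) [Fact p.Prime] (x : H), 5 ≤ p → orderOf x = p →
    centralizer ({x} : Set H) = zpowers x → Nat.card (Sylow p H) = p + 1 →
    normalClosure ({x} : Set H) = ⊤ →
    (∀ z : H, ¬ p ∣ orderOf z → orderOf z * (p * (p - 2)) < Nat.card H) ∨
      (Nat.card H = p * (p + 1) ∧
        ∀ z w : H, ¬ p ∣ orderOf z → ¬ p ∣ orderOf w → z * z = 1 ∧ z * w = w * z)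

/-! ### Character side -/

/-- The setting: principal block data and the numbers `a, b`. -/
structure St (G : Type*) [Group G] [Fintype G] (p : ℕ) [Fact p.Prime] where
  x : G
  C : Subgroup G
  K : Ctx p x C
  B : Set (IrrCharacter G)
  D : Data K (irrOne C) B
  h1 : irrOne G ∈ D.X
  s1 : D.s (irrOne G) = 1
  gh : GH G p
  a : ℕ
  b : ℕ
  hab : a * b + 1 = p
  hb : 2 ≤ b
  hba : b ≤ a
  hn : (Nz x).index = (p - a) * (p + b)

/-- degree of an irreducible character -/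
noncomputable abbrev dg {G : Type*} [Group G] (χ : IrrCharacter G) : ℕ := charDegree (χ : G → ℂ)

namespace St

variable {G : Type*} [Group G] [Fintype G] {p : ℕ} [Fact p.Prime] (S : St G p)

/-- `e = |N : C|` -/
noncomputable def e : ℕ := S.K.f
/-- the number of exceptional characters -/
noncomputable def t : ℕ := (S.K.E (irrOne S.C)).index
/-- the degree of the exceptional characters -/
noncomputable def θ : ℕ := dg (S.D.μ 1)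
/-- the four possible degrees -/
def d1 : ℕ := (p - S.a) * (p + S.b)
def d2 : ℕ := S.b * (p - S.a)
def d3 : ℕ := S.a * S.b
def d4 : ℕ := S.a * (p + S.b)
/-- the number of non-exceptional characters of degree `d` -/
noncomputable def m (d : ℕ) : ℕ := (S.D.X.filter fun χ => dg χ = d).card
/-- the `p'`-part of `C` -/
def Kp : Subgroup G := S.C ⊓ S.K.H
/-- `C(P) = P` -/
def Self : Prop := S.C ≤ zpowers S.x

theorem t_mul_e : S.t * S.e = S.a * S.b := by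
  have h := S.K.index_E_one
  have h2 := S.hab
  unfold t e
  omega

theorem mem_Kp {v : G} : v ∈ S.Kp ↔ v ∈ S.C ∧ ¬ p ∣ orderOf v :=
  ⟨fun h => ⟨h.1, (S.K.mem_H_iff ⟨v, h.1⟩).1 h.2⟩, fun h => ⟨h.1, (S.K.mem_H_iff ⟨v, h.1⟩).2 h.2⟩⟩

theorem card_G (h : S.Self) : Nat.card G = p * S.e * S.d1 := by
  rw [S.K.card_G h, S.hn]; rfl

theorem m_pos {d : ℕ} : 0 < S.m d ↔ ∃ χ ∈ S.D.X, dg χ = d := by
  simp [m, card_pos, filter_nonempty_iff]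

/-- the degrees in the principal block -/
structure Deg : Prop where
  X : ∀ χ ∈ S.D.X, χ ≠ irrOne G → S.t * dg χ ∣ S.d1 * S.d3 ∧
    ((S.D.s χ = 1 ∧ (dg χ = S.d1 ∨ dg χ = S.d2)) ∨ (S.D.s χ = -1 ∧ (dg χ = S.d3 ∨ dg χ = S.d4)))
  sg : ∀ χ ∈ S.D.X, (dg χ = S.d1 ∨ dg χ = S.d2 → S.D.s χ = 1) ∧
    (dg χ = S.d3 ∨ dg χ = S.d4 → S.D.s χ = -1)
  μ : (S.D.ε = -1 ∧ (S.t * S.θ = S.d1 ∨ S.t * S.θ = S.d2) ∧
      1 + S.m S.d1 * S.d1 + S.m S.d2 * S.d2 + S.θ = S.m S.d3 * S.d3 + S.m S.d4 * S.d4) ∨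
    (S.D.ε = 1 ∧ (S.t * S.θ = S.d3 ∨ S.t * S.θ = S.d4) ∧
      1 + S.m S.d1 * S.d1 + S.m S.d2 * S.d2 = S.m S.d3 * S.d3 + S.m S.d4 * S.d4 + S.θ)
  cnt : S.m S.d1 + S.m S.d2 + S.m S.d3 + S.m S.d4 + 1 = S.e

/-- no prime divides both `e` and the order of the `p'`-part of `C` -/
def K2 : Prop := ∀ l : ℕ, l.Prime → l ∣ S.e → ¬ l ∣ Nat.card S.Kp

/-- the central character of the sum of the conjugates of `Kp` -/
def C4 : Prop := ∀ (χ : IrrCharacter G) (z : ℤ), ∑ v : S.Kp, (χ : G → ℂ) v = z →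
  (dg χ : ℤ) ∣ (S.d1 : ℤ) * z

/-- `l` has defect zero for a character of degree `d` -/
def DZ (l d : ℕ) : Prop := l.Prime ∧ ¬ l * d ∣ p * S.e * S.d1

/-- an element of `N \ P` cannot be a zero of all nonprincipal characters -/
def Kill : Prop := ∀ k : ℕ, k ∣ S.e → 1 < k →
  (0 < S.m S.d1 → ∃ l, l ∣ k ∧ S.DZ l S.d1) → (0 < S.m S.d2 → ∃ l, l ∣ k ∧ S.DZ l S.d2) →
  (0 < S.m S.d4 → ∃ l, l ∣ k ∧ S.DZ l S.d4) → (∃ l, l ∣ k ∧ S.DZ l S.θ) → False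

/-- family (i) -/
structure F1 : Prop where
  self : S.Self
  card : Nat.card G = p * (p + 1) * (p + 2)
  e : S.e = 2
  ε : S.D.ε = 1
  θ : S.θ = p + 2
  X : ∃ χ : IrrCharacter G, χ ≠ irrOne G ∧ S.D.X = {irrOne G, χ} ∧ S.D.s χ = 1 ∧ dg χ = p + 1

/-- family (ii) -/
structure F2 : Prop where
  self : S.Self
  three : 3 ≤ S.b
  hp : p = S.b ^ 2 + S.b + 1
  card : Nat.card G = p * S.b ^ 3 * (S.b + 1) ^ 2
  n : (Nz S.x).index = S.b ^ 2 * (S.b + 1) ^ 2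
  e : S.e = S.b
  t : S.t = S.b + 1
  ε : S.D.ε = 1
  θ : S.θ = (S.b + 1) ^ 2
  X : ∃ (χ : IrrCharacter G) (Ψ : Finset (IrrCharacter G)), χ ≠ irrOne G ∧ χ ∉ Ψ ∧ irrOne G ∉ Ψ ∧
    S.D.X = insert (irrOne G) (insert χ Ψ) ∧ S.D.s χ = 1 ∧ dg χ = S.b ^ 3 ∧ Ψ.card + 2 = S.b ∧
    ∀ ψ ∈ Ψ, S.D.s ψ = -1 ∧ dg ψ = S.b * (S.b + 1)

/-- products of two characters of degree `p - 1` have no exceptional constituent -/
def Orth : Prop := ∀ ψ ∈ S.D.X, ∀ ψ' ∈ S.D.X, dg ψ = S.b * (S.b + 1) → dg ψ' = S.b * (S.b + 1) →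
  ∀ k, classInner (fun g => (ψ : G → ℂ) g * (starRingEnd ℂ) ((ψ' : G → ℂ) g)) (S.D.μ k : G → ℂ) = 0

end St

/-! ### Arithmetic -/

/-- the divisors `≡ ± 1` of `n (p - 1)` -/
def DA : Prop := ∀ p a b d : ℕ, p.Prime → a * b + 1 = p → 2 ≤ b → b ≤ a →
  d ∣ (p - a) * (p + b) * (a * b) →
  ((d : ℤ) ≡ 1 [ZMOD p] → d = 1 ∨ d = (p - a) * (p + b) ∨ d = b * (p - a)) ∧
    ((d : ℤ) ≡ -1 [ZMOD p] → d = (p - a) * (p + b) * (a * b) ∨ d = a * b ∨ d = a * (p + b))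

/-- the numerical data of the case `C(P) = P` -/
structure AriH (p a b A B e t θ m2 m3 m4 : ℕ) : Prop where
  hp : p.Prime
  hab : a * b + 1 = p
  hb : 2 ≤ b
  hba : b ≤ a
  hA : A + a = p
  hB : B = p + b
  hte : t * e = a * b
  hm : m2 + m3 + m4 + 1 = e
  hj : (t * θ = b * A ∧ 1 + m2 * (b * A) + θ = m3 * (a * b) + m4 * (a * B)) ∨
    (t * θ = a * B ∧ 1 + m2 * (b * A) = m3 * (a * b) + m4 * (a * B) + θ)
  h2 : 0 < m2 → t ∣ a * B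
  h3 : 0 < m3 → Even t ∧ t ∣ A * B
  h4 : 0 < m4 → t ∣ b * A
  kill : ∀ k : ℕ, k ∣ e → 1 < k →
    (0 < m2 → ∃ l, l ∣ k ∧ l.Prime ∧ ¬ l * (b * A) ∣ p * e * (A * B)) →
    (0 < m4 → ∃ l, l ∣ k ∧ l.Prime ∧ ¬ l * (a * B) ∣ p * e * (A * B)) →
    (∃ l, l ∣ k ∧ l.Prime ∧ ¬ l * θ ∣ p * e * (A * B)) → False
  cyc : 2 ∣ e → 2 ∣ A * B

/-- the case `m3 = 0` -/
def Ari0 : Prop := ∀ p a b A B e t θ m2 m4 : ℕ, AriH p a b A B e t θ m2 0 m4 →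
  b = 2 ∧ t = a ∧ e = 2 ∧ t * θ = a * B ∧ m2 = 1 ∧ m4 = 0

/-- the case `m3 > 0` -/
def Ari3 : Prop := ∀ p a b A B e t θ m2 m3 m4 : ℕ, AriH p a b A B e t θ m2 m3 m4 → 0 < m3 →
  a = b + 1 ∧ t = a ∧ e = b ∧ 3 ≤ b ∧ t * θ = a * B ∧ m2 = 1 ∧ m3 + 2 = b ∧ m4 = 0

/-- `G` is isomorphic to `PSL(n, F)` with `|F| = q` -/
def IsL (n q : ℕ) (G : Type*) [Group G] : Prop :=
  ∃ (F : Type) (_ : Field F) (_ : Fintype F), Fintype.card F = q ∧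
    Nonempty (G ≃* Matrix.ProjectiveSpecialLinearGroup (Fin n) F)

/-- the list of S4340 -/
def Lst (G : Type*) [Group G] (p : ℕ) : Prop :=
  IsL 2 p G ∨ (p = 13 ∧ IsL 3 3 G) ∨ (3 < p ∧ (∃ k : ℕ, p = 2 ^ k + 1) ∧ IsL 2 (p - 1) G) ∨
    (3 < p ∧ (∃ k : ℕ, p + 1 = 2 ^ k) ∧ IsL 2 (p + 1) G)

/-- the forward direction of S4340 -/
def Main : Prop :=
  ∀ (G : Type u) [Group G] [Finite G] [IsSimpleGroup G], ¬ IsMulCommutative G →
    ∀ (p : ℕ) [Fact p.Prime], p ∣ Nat.card G → Nat.card (Sylow p G) < p ^ 2 → Lst G p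

end CL.NP
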