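/-
Project NP: the arithmetic of the case `m3 = 0`.
-/
import Cfsg.Agent.NP.Defs

set_option autoImplicit false

namespace CL.NP

namespace ARI0

theorem nd {p l X Y Z g : ℕ} (hl : l.Prime) (hlp : ¬ l ∣ p) (hc : X.Coprime Y) (hX : l ∣ X) (hX0 : 0 < X)
    (hZ : X ∣ Z) (hg : g = X * (p * Y)) : ¬ l * Z ∣ g := by
  intro h
  have h1 : X * l ∣ X * (p * Y) := by
    rw [← hg, mul_comm X l]
    exact (Nat.mul_dvd_mul_left l hZ).trans h
  rcases (Nat.Prime.dvd_mul hl).1 (Nat.dvd_of_mul_dvd_mul_left hX0 h1) with h2 | h2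
  · exact hlp h2
  · exact hl.one_lt.ne' (Nat.eq_one_of_dvd_coprimes hc hX h2)

theorem cop {x y u v : ℕ} (h : 1 + u * x = v * y) : x.Coprime y := by
  refine Nat.coprime_of_dvd fun l hl h1 h2 => hl.one_lt.ne' (Nat.dvd_one.1 ?_)
  exact (Nat.dvd_add_left (h1.mul_left u)).1 (h ▸ h2.mul_left v)

end ARI0

open ARI0 in
theorem ari0 : Ari0 := by
  intro p a b A B e t θ m2 m4 H
  obtain ⟨hp, hab, hb, hba, hA, hB, hte, hm, hj, h2, -, h4, kill, cyc⟩ := H
  have hnp : ∀ l : ℕ, l.Prime → l ∣ a * b → ¬ l ∣ p := fun l hl h1 h2 =>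
    hl.one_lt.ne' (Nat.dvd_one.1 ((Nat.dvd_add_right h1).1 (hab ▸ h2)))
  have ha : 2 ≤ a := hb.trans hba
  obtain ⟨c, hc⟩ : ∃ c, b = c + 1 := ⟨b - 1, by omega⟩
  have hA' : 1 + c * a = 1 * A := by
    have : a * b = c * a + a := by rw [hc]; ring
    omega
  have caA : a.Coprime A := cop hA'
  have cbB : b.Coprime B := cop (u := a + 1) (v := 1) (by rw [hB, ← hab]; ring)
  have A0 : 0 < A := by omega
  have B0 : 0 < B := by omega
  have ht0 : 0 < t := Nat.pos_of_ne_zero fun h => by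
    rw [h, zero_mul] at hte
    exact absurd hte.symm (Nat.mul_ne_zero (by omega) (by omega))
  simp only [zero_mul, zero_add, add_zero] at hj hm
  rcases hj with ⟨hθ, hj⟩ | ⟨hθ, hj⟩
  · exfalso
    have htb : t ∣ b := by
      have := Nat.dvd_gcd (show t ∣ b * a from ⟨e, by rw [hte, mul_comm]⟩) (show t ∣ b * A from ⟨θ, hθ.symm⟩)
      rwa [Nat.gcd_mul_left, caA, mul_one] at this
    obtain ⟨b', hb'⟩ := htb
    have he : e = a * b' := Nat.eq_of_mul_eq_mul_left ht0 (by rw [hte, hb']; ring)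
    have hθ' : θ = b' * A := Nat.eq_of_mul_eq_mul_left ht0 (by rw [hθ, hb']; ring)
    have hcp : (b' * A).Coprime (a * B) := cop (u := m2 * t + 1) (v := m4) (by rw [← hj, hθ', hb']; ring)
    have b0 : 0 < b' := Nat.pos_of_ne_zero fun h => by rw [h, mul_zero] at hb'; omega
    have h1 : b' = 1 := by
      by_contra h1
      obtain ⟨l, hl, hla⟩ := Nat.exists_prime_and_dvd (n := a) (by omega)
      obtain ⟨l', hl', hlb⟩ := Nat.exists_prime_and_dvd h1
      have n1 := hnp l hl (hla.mul_right b)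
      have n2 := hnp l' hl' (((hlb.mul_left t).trans (dvd_of_eq hb'.symm)).mul_left a)
      refine kill (l * l') (he ▸ Nat.mul_dvd_mul hla hlb) (Nat.one_lt_mul_iff.2 ⟨hl.pos, hl'.pos, Or.inl hl.one_lt⟩)
        (fun _ => ⟨l', dvd_mul_left _ _, hl', nd hl' n2 hcp (hlb.mul_right A) (Nat.mul_pos b0 A0)
          ⟨t, by rw [hb']; ring⟩ (by rw [he]; ring)⟩)
        (fun _ => ⟨l, dvd_mul_right _ _, hl, nd hl n1 hcp.symm (hla.mul_right B) (Nat.mul_pos (by omega) B0)
          dvd_rfl (by rw [he]; ring)⟩)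
        ⟨l', dvd_mul_left _ _, hl', nd hl' n2 hcp (hlb.mul_right A) (Nat.mul_pos b0 A0)
          (dvd_of_eq hθ'.symm) (by rw [he]; ring)⟩
    subst h1
    rw [mul_one] at hb' he
    rw [one_mul] at hθ'
    subst hb' he hθ'
    have key : m2 * (e + b) + 2 = e * e := by
      refine Nat.eq_of_mul_eq_mul_left hp.pos ?_
      zify at hab hA hB hm hj ⊢
      have e1 : (θ : ℤ) = p - e := by linarith
      have e2 : (m4 : ℤ) = e - 1 - m2 := by linarith
      rw [e1, e2, hB] at hj
      linear_combination hj + (e - 1) * hab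
    have m0 : 0 < m2 := Nat.pos_of_ne_zero fun h => by
      rw [h] at key
      nlinarith
    have hbe : b ∣ e := cbB.dvd_of_dvd_mul_right (h2 m0)
    have hb2 : b ∣ 2 := (Nat.dvd_add_right (((Nat.dvd_add_left dvd_rfl).2 hbe).mul_left m2)).1
      (key ▸ hbe.mul_left e)
    have hb2' : b = 2 := le_antisymm (Nat.le_of_dvd two_pos hb2) hb
    obtain ⟨d, rfl⟩ : ∃ d, e = d + 2 := ⟨e - 2, by omega⟩
    have h5 : d + 4 ∣ 2 := by
      refine (Nat.dvd_add_right (dvd_mul_left (d + 4) d)).1 ⟨m2, ?_⟩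
      rw [hb2'] at key
      linarith
    have := Nat.le_of_dvd two_pos h5
    omega
  · have hta : t ∣ a := by
      have := Nat.dvd_gcd (show t ∣ a * b from ⟨e, hte.symm⟩) (show t ∣ a * B from ⟨θ, hθ.symm⟩)
      rwa [Nat.gcd_mul_left, cbB, mul_one] at this
    obtain ⟨a', ha'⟩ := hta
    have he : e = a' * b := Nat.eq_of_mul_eq_mul_left ht0 (by rw [hte, ha']; ring)
    have hθ' : θ = a' * B := Nat.eq_of_mul_eq_mul_left ht0 (by rw [hθ, ha']; ring)
    have hcp : (b * A).Coprime (a' * B) := cop (u := m2) (v := m4 * t + 1) (by rw [hj, hθ', ha']; ring)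
    have a0 : 0 < a' := Nat.pos_of_ne_zero fun h => by rw [h, mul_zero] at ha'; omega
    have h1 : a' = 1 := by
      by_contra h1
      obtain ⟨l, hl, hla⟩ := Nat.exists_prime_and_dvd h1
      obtain ⟨l', hl', hlb⟩ := Nat.exists_prime_and_dvd (n := b) (by omega)
      have n1 := hnp l hl (((hla.mul_left t).trans (dvd_of_eq ha'.symm)).mul_right b)
      have n2 := hnp l' hl' (hlb.mul_left a)
      refine kill (l * l') (he ▸ Nat.mul_dvd_mul hla hlb) (Nat.one_lt_mul_iff.2 ⟨hl.pos, hl'.pos, Or.inl hl.one_lt⟩)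
        (fun _ => ⟨l', dvd_mul_left _ _, hl', nd hl' n2 hcp (hlb.mul_right A) (Nat.mul_pos (by omega) A0)
          dvd_rfl (by rw [he]; ring)⟩)
        (fun _ => ⟨l, dvd_mul_right _ _, hl, nd hl n1 hcp.symm (hla.mul_right B) (Nat.mul_pos a0 B0)
          ⟨t, by rw [ha']; ring⟩ (by rw [he]; ring)⟩)
        ⟨l, dvd_mul_right _ _, hl, nd hl n1 hcp.symm (hla.mul_right B) (Nat.mul_pos a0 B0)
          (dvd_of_eq hθ'.symm) (by rw [he]; ring)⟩
    subst h1
    rw [mul_one] at ha'
    rw [one_mul] at hθ' he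
    subst ha' he hθ'
    have m0 : m4 = 0 := by
      by_contra h0
      have hae : a ∣ e := caA.dvd_of_dvd_mul_right (h4 (Nat.pos_of_ne_zero h0))
      have hae' : a = e := le_antisymm (Nat.le_of_dvd (by omega) hae) hba
      subst hae'
      have hodd : Odd p := hp.odd_of_ne_two (by nlinarith)
      have hev : 2 ∣ a := by
        rw [← hab, Nat.odd_add_one, Nat.not_odd_iff_even, Nat.even_mul, or_self] at hodd
        exact hodd.two_dvd
      rcases (Nat.Prime.dvd_mul Nat.prime_two).1 (cyc hev) with h | h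
      · exact absurd (Nat.eq_one_of_dvd_coprimes caA hev h) (by decide)
      · exact absurd (Nat.eq_one_of_dvd_coprimes cbB hev h) (by decide)
    subst m0
    have hmc : m2 = c := by omega
    subst hmc
    have key : m2 * A = a + 1 := by
      refine Nat.eq_of_mul_eq_mul_left (show 0 < e by omega) ?_
      have : 1 + m2 * (e * A) = a * e + 1 + e := by rw [hj, hB, hab]; ring
      linarith
    have h1 : m2 = 1 := by
      by_contra h1
      have h5 : 2 ≤ m2 := by omega
      have h6 : 2 * a + 1 ≤ A := by nlinarith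
      nlinarith
    exact ⟨by omega, rfl, by omega, hθ, h1, rfl⟩

end CL.NP
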