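/-
Project NP (S4340, S4338): arithmetic of the case `m3 > 0`.
-/
import Cfsg.Agent.NP.Defs

set_option autoImplicit false

namespace CL.NP

namespace ARI3x

theorem cop {x y : ℕ} (h : ∀ d, d ∣ x → d ∣ y → d ∣ 1) : x.Coprime y :=
  Nat.eq_one_of_dvd_one (h _ (Nat.gcd_dvd_left x y) (Nat.gcd_dvd_right x y))

theorem not_dvd {x y l c : ℕ} (h : x.Coprime y) (hl : l.Prime) (hx : l ∣ x) (hc : 0 < c) : ¬ l * c ∣ y * c := fun k =>
  hl.one_lt.ne' (Nat.eq_one_of_dvd_coprimes h hx (Nat.dvd_of_mul_dvd_mul_right hc k))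

end ARI3x

open ARI3x in
theorem ari3 : Ari3 := by
  intro p a b A B e t θ m2 m3 m4 h h3
  obtain ⟨-, hab, hb, hba, hA, hB, hte, hm, hj, h2, h3', h4, kill, -⟩ := h
  obtain ⟨tev, tAB⟩ := h3' h3
  subst hab hB
  have cA : a.Coprime A := cop fun d h1 h2 =>
    (Nat.dvd_add_right (h1.mul_right b)).1 (hA ▸ dvd_add h2 h1)
  have cB : b.Coprime (a * b + 1 + b) := cop fun d h1 h2 =>
    (Nat.dvd_add_right (h1.mul_left a)).1 ((Nat.dvd_add_left h1).1 h2)
  have tab : t ∣ a * b := Dvd.intro _ hte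
  have t1 : t ≠ 1 := by rintro rfl; exact Nat.not_even_one tev
  have t0 : 0 < t := Nat.pos_of_dvd_of_pos tab (Nat.mul_pos (by omega) (by omega))
  have A0 : 0 < A := by nlinarith
  rcases hj with ⟨e1, e2⟩ | ⟨e1, e2⟩
  · exfalso
    have tb : t ∣ b := by
      have := Nat.dvd_gcd (mul_comm a b ▸ tab) (Dvd.intro _ e1)
      rwa [Nat.gcd_mul_left, cA, mul_one] at this
    have cB' : t.Coprime (a * b + 1 + b) := cB.coprime_dvd_left tb
    have tA : t ∣ A := cB'.dvd_of_dvd_mul_right tAB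
    have ca : t.Coprime a := cA.symm.coprime_dvd_left tA
    have m20 : m2 = 0 := by
      by_contra n
      exact t1 ((Nat.Coprime.mul_right ca cB').eq_one_of_dvd (h2 (by omega)))
    obtain ⟨c, rfl⟩ : ∃ c, a = c + 1 := ⟨a - 1, by omega⟩
    have tc : t ∣ c := (Nat.dvd_add_right tA).1 (by rw [show A + c = (c + 1) * b by omega]; exact tab)
    have c2 : 2 ≤ c := (show 2 ≤ t by omega).trans (Nat.le_of_dvd (by omega) tc)
    have tb' := Nat.le_of_dvd (by omega) tb
    subst m20 hm
    have k1 : (m3 + m4) * ((c + 1) * b) ≤ 1 + θ := by nlinarith [Nat.zero_le (m4 * ((c + 1) * b))]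
    have k2 : t * (m3 + m4) * ((c + 1) * b) ≤ t + b * A := by
      rw [← e1, mul_assoc]; nlinarith [Nat.mul_le_mul_left t k1]
    have k3 : c * b ≤ t * (m3 + m4) := by nlinarith
    have k4 : c * b * ((c + 1) * b) ≤ b + b * A := (Nat.mul_le_mul_right _ k3).trans (k2.trans (by omega))
    have k5 : c * ((c + 1) * b) ≤ 1 + A := Nat.le_of_mul_le_mul_left (c := b) (by nlinarith) (by omega)
    nlinarith [Nat.mul_le_mul_right ((c + 1) * b) c2]
  · have ta : t ∣ a := by
      have := Nat.dvd_gcd tab (Dvd.intro _ e1)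
      rwa [Nat.gcd_mul_left, cB, mul_one] at this
    have cA' : t.Coprime A := cA.coprime_dvd_left ta
    have tB : t ∣ a * b + 1 + b := cA'.dvd_of_dvd_mul_left tAB
    have tb : t ∣ 1 + b := (Nat.dvd_add_right tab).1 (add_assoc (a * b) 1 b ▸ tB)
    have cb : t.Coprime b := cop fun d h1 h2 => (Nat.dvd_add_left h2).1 (h1.trans tb)
    have m40 : m4 = 0 := by
      by_contra n
      exact t1 ((Nat.Coprime.mul_right cb cA').eq_one_of_dvd (h4 (by omega)))
    obtain ⟨c, hc⟩ := ta
    have ee : e = c * b := Nat.eq_of_mul_eq_mul_left t0 (by rw [hte, ← mul_assoc, ← hc])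
    have eθ : θ = c * (a * b + 1 + b) := Nat.eq_of_mul_eq_mul_left t0 (by rw [e1, ← mul_assoc, ← hc])
    have ca : c ∣ a := Dvd.intro_left _ hc.symm
    subst m40
    have ccb : c.Coprime b := cop fun d h1 h2 => by
      refine (Nat.dvd_add_left ((h2.mul_right A).mul_left m2)).1 ?_
      rw [e2, zero_mul, add_zero, eθ]
      exact dvd_add ((h2.mul_left a).mul_left m3) (h1.mul_right _)
    have c0 : c ≠ 0 := by rintro rfl; omega
    have c1 : c = 1 := by
      by_contra n
      have pl := Nat.minFac_prime n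
      have pl' := Nat.minFac_prime (show b ≠ 1 by omega)
      refine kill (c.minFac * b.minFac) (ee ▸ Nat.mul_dvd_mul c.minFac_dvd b.minFac_dvd)
        (Nat.one_lt_mul_iff.2 ⟨pl.pos, pl'.pos, .inl pl.one_lt⟩) (fun _ => ⟨_, dvd_mul_left _ _, pl', ?_⟩)
        (fun k => (lt_irrefl _ k).elim) ⟨_, dvd_mul_right _ _, pl, ?_⟩
      · rw [ee, show (a * b + 1) * (c * b) * (A * (a * b + 1 + b)) = (a * b + 1) * c * (a * b + 1 + b) * (b * A) by ring]
        exact not_dvd (Nat.Coprime.mul_right (Nat.Coprime.mul_right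
          (cop fun d h1 h2 => (Nat.dvd_add_right (h1.mul_left a)).1 h2) ccb.symm) cB) pl' b.minFac_dvd
          (Nat.mul_pos (by omega) A0)
      · rw [ee, eθ, show (a * b + 1) * (c * b) * (A * (a * b + 1 + b)) =
          (a * b + 1) * b * A * (c * (a * b + 1 + b)) by ring]
        exact not_dvd (Nat.Coprime.mul_right (Nat.Coprime.mul_right
          (cop fun d h1 h2 => (Nat.dvd_add_right ((h1.trans ca).mul_right b)).1 h2) ccb) (cA.coprime_dvd_left ca))
          pl c.minFac_dvd (Nat.mul_pos (by omega) (by omega))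
    subst c1
    rw [mul_one] at hc
    rw [one_mul] at ee eθ
    subst hc
    have le := Nat.le_of_dvd (by omega) tb
    have ne : a ≠ b := by
      rintro rfl
      have := Nat.le_of_dvd one_pos ((Nat.dvd_add_left dvd_rfl).1 tb)
      omega
    obtain rfl : a = b + 1 := by omega
    have b3 : 3 ≤ b := by obtain ⟨r, hr⟩ := tev; omega
    obtain rfl : A = b * b := by nlinarith
    have m21 : m2 = 1 := by
      refine Nat.eq_of_mul_eq_mul_right (m := b * (b * b) + (b + 1) * b) (by positivity) ?_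
      have k : (m2 + m3 + 1) * ((b + 1) * b) = b * ((b + 1) * b) := by rw [show m2 + m3 + 1 = b by omega]
      rw [eθ] at e2
      nlinarith
    exact ⟨rfl, rfl, ee, b3, e1, m21, by omega, rfl⟩

end CL.NP
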