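/-
Project NP: the central character of the sum of the conjugates of `Kp`.
-/
import Cfsg.Agent.NP.Defs

set_option autoImplicit false

namespace CL.NP

open Finset CL.Inv.PO CL.Blk CL.Char Cfsg Subgroup
open scoped Classical commutatorElement

universe u

namespace C4

theorem int_sum {G : Type u} [Group G] [Fintype G] (N : Subgroup G) (χ : IrrCharacter G) (s : Finset G)
    (hs : ∀ n ∈ N, ∀ v ∈ s, n * v * n⁻¹ ∈ s) :
    IsIntegral ℤ ((N.index : ℂ) * (∑ v ∈ s, (χ : G → ℂ) v) / (χ : G → ℂ) 1) := by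
  let _ : MulAction N G := MulAction.compHom G (MulAut.conj.comp N.subtype)
  have sm : ∀ (n : N) (v : G), n • v = n * v * (n : G)⁻¹ := fun _ _ => rfl
  rw [← sum_fiberwise s (Quotient.mk (MulAction.orbitRel N G)), mul_sum, sum_div]
  refine IsIntegral.sum _ fun j _ => ?_
  rcases (s.filter fun i => Quotient.mk (MulAction.orbitRel N G) i = j).eq_empty_or_nonempty with e | ⟨v, hv⟩
  · rw [e, sum_empty, mul_zero, zero_div]
    exact isIntegral_zero
  obtain ⟨hv', rfl⟩ := mem_filter.1 hv
  have e : ((s.filter fun i => Quotient.mk (MulAction.orbitRel N G) i = Quotient.mk _ v : Finset G) : Set G) =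
      MulAction.orbit N v := Set.ext fun w => by
    rw [coe_filter, Set.mem_ofPred_eq, Quotient.eq, MulAction.orbitRel_apply]
    exact and_iff_right_of_imp (by rintro ⟨n, rfl⟩; exact hs n n.2 v hv')
  have st : MulAction.stabilizer N v = (centralizer {v}).subgroupOf N := Subgroup.ext fun n => by
    rw [MulAction.mem_stabilizer_iff, sm, mem_subgroupOf, mem_centralizer_singleton_iff, mul_inv_eq_iff_eq_mul]
  have c : N.index * (s.filter fun i => Quotient.mk (MulAction.orbitRel N G) i = Quotient.mk _ v).card =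
      N.relIndex (centralizer {v}) * (centralizer {v} : Subgroup G).index := by
    rw [← Set.ncard_coe_finset, e, ← MulAction.index_stabilizer, st, ← relIndex, ← inf_relIndex_right, mul_comm,
      relIndex_mul_index inf_le_right, ← inf_relIndex_left, relIndex_mul_index inf_le_left]
  rw [sum_congr rfl (g := fun _ => (χ : G → ℂ) v) fun w hw => by
      obtain ⟨n, rfl⟩ : w ∈ MulAction.orbit N v := e ▸ mem_coe.2 hw
      exact χ.2.isClassFunction v n,
    sum_const, nsmul_eq_mul, ← mul_assoc, ← Nat.cast_mul, c, Nat.cast_mul, mul_assoc, mul_div_assoc]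
  exact (isIntegral_natCast _).mul (isIrr_isIntegral_central χ.2 v)

end C4

variable {G : Type u} [Group G] [Fintype G] {p : ℕ} [Fact p.Prime] (S : St G p)

theorem c4 : S.C4 := by
  intro χ z hz
  have h := C4.int_sum (Nz S.x) χ (univ.filter (· ∈ S.Kp)) fun n hn v hv => by
    obtain ⟨h1, h2⟩ := S.mem_Kp.1 (mem_filter.1 hv).2
    refine mem_filter.2 ⟨mem_univ _, S.mem_Kp.2 ⟨S.K.conj_mem_C hn h1, ?_⟩⟩
    rwa [show n * v * n⁻¹ = MulAut.conj n v from rfl, MulEquiv.orderOf_eq]
  rw [sum_subtype (p := (· ∈ S.Kp)) _ (by simp), hz, S.hn, ← χ.2.cast_charDegree] at h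
  rw [← Int.dvd_natAbs, Int.natAbs_mul, Int.natAbs_natCast, Int.natCast_dvd_natCast]
  refine dvd_of_isIntegral_div χ.2.charDegree_pos.ne' ?_
  rw [Nat.cast_mul, Nat.cast_natAbs]
  rcases abs_choice z with e | e <;> rw [e]
  · exact h
  · rw [Int.cast_neg, mul_neg, neg_div]
    exact h.neg

end CL.NP
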