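/-
Project NP (S4340, S4338): the centralizer of a Sylow subgroup is the Sylow subgroup (job C5, helper76).
-/
import Cfsg.Agent.NP.Defs
import Cfsg.Agent.Grp.CoresPi

set_option autoImplicit false

namespace CL.NP

open Finset CL.Inv.PO CL.Blk CL.Char Cfsg Subgroup
open scoped Classical commutatorElement

universe u

namespace C5x

/-- the average of a character over a group -/
theorem avg {H : Type*} [Group H] [Fintype H] {ψ : H → ℂ} (h : IsCharacter H ψ) :
    ∃ r : ℕ, ∑ g, ψ g = Nat.card H * r ∧ ((∃ g, ψ g ≠ ψ 1) → r < charDegree ψ) := by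
  obtain ⟨r, hr⟩ := h.exists_nat_classInner isCharacter_one
  rw [classInner_one_right] at hr
  have h0 : (Nat.card H : ℂ) ≠ 0 := Nat.cast_ne_zero.2 Nat.card_pos.ne'
  have hs : ∑ g, ψ g = Nat.card H * r := by rw [← hr, mul_inv_cancel_left₀ h0]
  refine ⟨r, hs, fun ⟨g, hg⟩ => ?_⟩
  have h1 : ∑ g, (ψ g).re < ∑ _g : H, (charDegree ψ : ℝ) := by
    refine sum_lt_sum (fun i _ => (Complex.re_le_norm _).trans (h.norm_le i)) ⟨g, mem_univ _, ?_⟩
    refine lt_of_le_of_ne ((Complex.re_le_norm _).trans (h.norm_le g)) fun e => hg ?_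
    have h2 : ‖ψ g‖ = (ψ g).re := le_antisymm (e ▸ h.norm_le g) (Complex.re_le_norm _)
    have h3 : (ψ g).im = 0 := by
      have h4 := Complex.sq_norm (ψ g)
      rw [Complex.normSq_apply, h2] at h4
      have : (ψ g).im * (ψ g).im = 0 := by nlinarith
      exact mul_self_eq_zero.1 this
    rw [← h.cast_charDegree]
    exact Complex.ext (by simpa using e) (by simpa using h3)
  rw [← Complex.re_sum, hs, sum_const, card_univ, ← Nat.card_eq_fintype_card, nsmul_eq_mul] at h1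
  have h2 : ((Nat.card H : ℂ) * r).re = (Nat.card H : ℝ) * r := by
    rw [← Nat.cast_mul, Complex.natCast_re, Nat.cast_mul]
  rw [h2] at h1
  have h3 : (0 : ℝ) < Nat.card H := Nat.cast_pos.2 Nat.card_pos
  exact_mod_cast lt_of_mul_lt_mul_left h1 h3.le

theorem cop {a b q : ℕ} (h : a * b + 1 = q) : Nat.Coprime a q ∧ Nat.Coprime b q := by
  subst h
  simp

variable {G : Type u} [Group G] [Fintype G] {p : ℕ} [hp : Fact p.Prime] (S : St G p)

/-- `C = P × Kp` -/
theorem bij : Function.Bijective (fun q : ZMod p × S.Kp =>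
    (⟨S.x ^ q.1.val * q.2, S.C.mul_mem (S.C.pow_mem S.K.x_mem _) q.2.2.1⟩ : S.C)) := by
  constructor
  · rintro ⟨j, v⟩ ⟨k, w⟩ h
    have e : S.x ^ j.val * v = S.x ^ k.val * w := congrArg Subtype.val h
    have e2 : (w : G) * (v : G)⁻¹ = (S.x ^ k.val)⁻¹ * S.x ^ j.val := by
      rw [mul_inv_eq_iff_eq_mul, mul_assoc, e, inv_mul_cancel_left]
    have h1 : (w : G) * (v : G)⁻¹ = 1 := S.K.H_inf _ (S.K.H.mul_mem w.2.2 (S.K.H.inv_mem v.2.2))
      (e2 ▸ mul_mem (inv_mem (pow_mem (mem_zpowers _) _)) (pow_mem (mem_zpowers _) _))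
    have h2 : k = j := pow_val_inj S.K.hx (inv_mul_eq_one.1 (e2 ▸ h1))
    exact Prod.ext h2.symm (Subtype.ext (mul_inv_eq_one.1 h1).symm)
  · intro c
    obtain ⟨y, k, hy, e⟩ := S.K.exists_decomp c
    exact ⟨(k, ⟨y, y.2, hy⟩), Subtype.ext (congrArg Subtype.val e).symm⟩

theorem self_of (h : S.Kp = ⊥) : S.Self := by
  intro c hc
  obtain ⟨y, j, hy, e⟩ := S.K.exists_decomp ⟨c, hc⟩
  have h2 : (y : G) = 1 := mem_bot.1 (h ▸ (show (y : G) ∈ S.Kp from ⟨y.2, hy⟩))
  rw [show c = S.x ^ j.val * y from congrArg Subtype.val e, h2, mul_one]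
  exact pow_mem (mem_zpowers _) _

theorem bot_of_sum {χ : IrrCharacter G} (hχ : χ ∈ S.B) (h : ∑ j : ZMod p, (χ : G → ℂ) (S.x ^ j.val) = 0) :
    S.Kp = ⊥ := by
  have := S.gh.simple
  have core : pPrimeCore p G = ⊥ := (IsSimpleGroup.eq_bot_or_eq_top_of_normal _ inferInstance).resolve_right fun e =>
    CL.Grp.not_dvd_card_pPrimeCore p G (by rw [e, card_top, ← S.K.hx]; exact orderOf_dvd_natCard S.x)
  refine eq_bot_iff.2 fun v hv => ?_
  rw [← core]
  exact S.D.mem_core_of_sum_eq_zero hχ h (S.mem_Kp.1 hv).1 (S.mem_Kp.1 hv).2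

/-- the main step -/
theorem key (h2 : S.K2) (h4 : S.C4) {φ : IrrCharacter G} (h1 : φ ≠ irrOne G) {b' : ℕ} (hb : b' ∣ S.b)
    (he : b' ∣ S.e) (hd : dg φ = b' * (p - S.a))
    (hs : ∀ v ∈ S.C, ¬ p ∣ orderOf v →
      ∑ j : ZMod p, (φ : G → ℂ) (S.x ^ j.val * v) = (φ : G → ℂ) v + (S.a * b' : ℕ)) : S.Kp = ⊥ := by
  by_contra hne
  have := S.gh.simple
  have hab := S.hab
  have hb2 := S.hb
  have hba := S.hba
  obtain ⟨r, hr, hlt⟩ := avg (φ.2.isCharacter.restrict S.Kp)
  obtain ⟨m, hm, -⟩ := avg (φ.2.isCharacter.restrict S.C)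
  have hker : charKer (φ : G → ℂ) = ⊥ := φ.2.charKer_eq_bot_of_simple fun e => h1 (Subtype.ext e)
  have hr2 : r < dg φ := by
    obtain ⟨v, hv⟩ := ne_bot_iff_exists_ne_one.1 hne
    refine hlt ⟨v, fun e => hv (Subtype.ext ?_)⟩
    have : (v : G) ∈ charKer (φ : G → ℂ) := φ.2.mem_charKer.2 e
    rw [hker] at this
    exact mem_bot.1 this
  have hC : Nat.card S.C = p * Nat.card S.Kp := by
    rw [← Nat.card_congr (Equiv.ofBijective _ (bij S)), Nat.card_prod, Nat.card_zmod]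
  have hsum : ∑ c : S.C, (φ : G → ℂ) c = ∑ v : S.Kp, (φ : G → ℂ) v + Nat.card S.Kp * (S.a * b' : ℕ) := by
    rw [← (bij S).sum_comp (fun c : S.C => (φ : G → ℂ) c), Fintype.sum_prod_type_right]
    simp only
    rw [sum_congr rfl fun (v : S.Kp) _ => hs v (S.mem_Kp.1 v.2).1 (S.mem_Kp.1 v.2).2, sum_add_distrib, sum_const,
      card_univ, ← Nat.card_eq_fintype_card, nsmul_eq_mul]
  have hκ : 0 < Nat.card S.Kp := Nat.card_pos
  have hz := h4 φ (Nat.card S.Kp * r : ℕ) (by
    have : ∑ v : S.Kp, (φ : G → ℂ) v = Nat.card S.Kp * r := by convert hr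
    rw [this]; push_cast; rfl)
  rw [hm, hr, hC] at hsum
  have h2' : ∀ l : ℕ, l.Prime → l ∣ S.e → ¬ l ∣ Nat.card S.Kp := h2
  generalize Nat.card S.Kp = κ at *
  have e1 : p * m = r + S.a * b' := by
    have : κ * (p * m) = κ * (r + S.a * b') := by
      have h : ((κ * (p * m) : ℕ) : ℂ) = ((κ * (r + S.a * b') : ℕ) : ℂ) := by
        push_cast at hsum ⊢
        linear_combination hsum
      exact_mod_cast h
    exact Nat.eq_of_mul_eq_mul_left hκ this
  obtain ⟨A, hA⟩ : ∃ A, p = A + S.a := ⟨p - S.a, by nlinarith [Nat.sub_add_cancel (show S.a ≤ p by nlinarith)]⟩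
  have hA' : p - S.a = A := by omega
  have hApos : 0 < A := by nlinarith
  have hb'pos : 0 < b' := Nat.pos_of_dvd_of_pos hb (by omega)
  rw [hd, hA'] at hr2
  have hm1 : 0 < m := by
    rcases m with _ | m
    · have : 0 < S.a * b' := Nat.mul_pos (by omega) hb'pos
      omega
    · omega
  have hm2 : m < b' := by
    by_contra h
    have : p * b' ≤ p * m := Nat.mul_le_mul_left _ (by omega)
    nlinarith
  rw [hd, St.d1, hA', ← Nat.cast_mul, Int.natCast_dvd_natCast, mul_assoc, mul_comm b' A] at hz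
  have hz2 : b' ∣ (p + S.b) * (κ * r) := Nat.dvd_of_mul_dvd_mul_left hApos hz
  have cp : Nat.Coprime b' p := by
    exact Nat.Coprime.coprime_dvd_left hb (cop hab).2
  have cB : Nat.Coprime b' (p + S.b) := by
    exact Nat.Coprime.coprime_dvd_left hb (Nat.coprime_add_self_right.2 (cop hab).2)
  have hz3 : b' ∣ κ * r := cB.dvd_of_dvd_mul_left hz2
  have hz4 : b' ∣ p * (κ * m) := by
    have : p * (κ * m) = κ * r + b' * (κ * S.a) := by
      calc p * (κ * m) = κ * (p * m) := by ring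
        _ = _ := by rw [e1]; ring
    rw [this]
    exact dvd_add hz3 (dvd_mul_right _ _)
  have hz5 : b' ∣ κ * m := cp.dvd_of_dvd_mul_left hz4
  have hnc : ¬ Nat.Coprime b' κ := fun h => by
    have := Nat.le_of_dvd hm1 (h.dvd_of_dvd_mul_left hz5)
    omega
  obtain ⟨l, hl, hl1, hl2⟩ := Nat.Prime.not_coprime_iff_dvd.1 hnc
  exact h2' l hl (hl1.trans he) hl2

end C5x

variable {G : Type u} [Group G] [Fintype G] {p : ℕ} [Fact p.Prime] (S : St G p)

theorem c5 (hd : S.Deg) (h2 : S.K2) (h4 : S.C4) : S.Self := by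
  apply C5x.self_of
  have hab := S.hab
  have hb2 := S.hb
  have hba := S.hba
  have hte := S.t_mul_e
  obtain ⟨A, hA⟩ : ∃ A, p = A + S.a := ⟨p - S.a, by nlinarith [Nat.sub_add_cancel (show S.a ≤ p by nlinarith)]⟩
  have hA' : p - S.a = A := by omega
  have hA1 : S.a < A := by nlinarith
  have habpos : 0 < S.a * S.b := Nat.mul_pos (by omega) (by omega)
  have ht : 0 < S.t := Nat.pos_of_mul_pos_right (hte ▸ habpos)
  have hte' : S.t ≤ S.a * S.b := Nat.le_of_dvd habpos (Dvd.intro _ hte)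
  have hp1 : ((p : ℂ) - 1) = (S.a * S.b : ℕ) := by
    have := congrArg (Nat.cast : ℕ → ℂ) hab
    push_cast at this ⊢
    linear_combination -this
  have cA : Nat.Coprime S.a A := by
    have : Nat.Coprime S.a (A + S.a) := by rw [← hA]; exact (C5x.cop hab).1
    exact (Nat.coprime_add_self_right).1 this
  have cB : Nat.Coprime S.b (p + S.b) := Nat.coprime_add_self_right.2 (C5x.cop hab).2
  by_cases h3 : 0 < S.m S.d3
  · obtain ⟨χ, hχ, e⟩ := S.m_pos.1 h3
    refine C5x.bot_of_sum S (S.D.mem_of_mem_X hχ) ?_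
    have e' : charDegree (χ : G → ℂ) = S.a * S.b := e
    rw [S.D.sum_X_P hχ, (hd.sg χ hχ).2 (Or.inl e), e', hp1]
    simp
  by_cases h2' : 0 < S.m S.d2
  · obtain ⟨χ, hχ, e⟩ := S.m_pos.1 h2'
    have e' : dg χ = S.b * (p - S.a) := e
    have h1 : χ ≠ irrOne G := by
      rintro rfl
      have : dg (irrOne G) = 1 := charDegree_const_one
      rw [this, hA'] at e'
      nlinarith
    refine C5x.key S h2 h4 h1 dvd_rfl ?_ e' fun v hv hvp => ?_
    · have h5 := (hd.X χ hχ h1).1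
      rw [e', St.d1, St.d3, hA', show A * (p + S.b) * (S.a * S.b) = (S.a * (p + S.b)) * (S.b * A) by ring] at h5
      have h6 : S.t ∣ S.a * (p + S.b) := Nat.dvd_of_mul_dvd_mul_right (Nat.mul_pos (by omega) (by omega)) h5
      have h7 : S.t ∣ S.a := by
        have := Nat.dvd_gcd (Dvd.intro _ hte) h6
        rwa [Nat.gcd_mul_left, cB, mul_one] at this
      obtain ⟨c, hc⟩ := h7
      refine ⟨c, Nat.eq_of_mul_eq_mul_left ht ?_⟩
      rw [hte, hc]; ring
    · rw [S.D.sum_X_coset hχ hv hvp, (hd.sg χ hχ).1 (Or.inr e), hp1]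
      simp
  have m3 : S.m S.d3 = 0 := by omega
  have m2 : S.m S.d2 = 0 := by omega
  have hB : ¬ p + S.b ∣ S.t := fun h => by
    have := Nat.le_of_dvd ht h
    omega
  rcases hd.μ with ⟨hε, e | e, h⟩ | ⟨hε, e | e, h⟩
  · exfalso
    rw [m2, m3] at h
    apply hB
    have h5 : S.t + (p + S.b) * (S.t * S.m S.d1 * A + A) = (p + S.b) * (S.t * S.m S.d4 * S.a) := by
      have := congrArg (S.t * ·) h
      simp only [mul_add, e] at this
      generalize S.m S.d1 = m1 at *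
      generalize S.m S.d4 = m4 at *
      simp only [St.d1, St.d4, hA'] at this
      linarith
    exact (Nat.dvd_add_left (dvd_mul_right _ _)).1 (h5 ▸ dvd_mul_right _ _)
  · have e' : S.t * S.θ = S.b * A := by rw [e, St.d2, hA']
    have h7 : S.t ∣ S.b := by
      have := Nat.dvd_gcd (Dvd.intro _ (hte.trans (mul_comm _ _))) (Dvd.intro _ e')
      rwa [Nat.gcd_mul_left, cA, mul_one] at this
    obtain ⟨c, hc⟩ := h7
    have he : S.e = S.a * c := Nat.eq_of_mul_eq_mul_left ht (by rw [hte]; nth_rewrite 1 [hc]; ring)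
    refine C5x.key S h2 h4 (φ := S.D.μ 1) (fun e => S.D.μ_notMem 1 (e ▸ S.h1)) (b' := c) (Dvd.intro_left _ hc.symm)
      (Dvd.intro_left _ he.symm) ?_ fun v hv hvp => ?_
    · refine Nat.eq_of_mul_eq_mul_left ht ?_
      rw [hA', ← mul_assoc, ← hc]
      exact e'
    · rw [S.D.sum_μ_coset 1 hv hvp, hε, ← he, St.e]
      simp
  · refine C5x.bot_of_sum S (S.D.μ_mem 1) ?_
    have e' : S.θ = S.e := Nat.eq_of_mul_eq_mul_left ht (by rw [e, hte, St.d3])
    have e'' : charDegree (S.D.μ 1 : G → ℂ) = S.K.f := e'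
    rw [S.D.sum_μ_P, hε, e'']
    simp
  · exfalso
    rw [m2, m3] at h
    apply hB
    have h5 : S.t + (p + S.b) * (S.t * S.m S.d1 * A) = (p + S.b) * (S.t * S.m S.d4 * S.a + S.a) := by
      have := congrArg (S.t * ·) h
      simp only [mul_add, e] at this
      generalize S.m S.d1 = m1 at *
      generalize S.m S.d4 = m4 at *
      simp only [St.d1, St.d4, hA'] at this
      linarith
    exact (Nat.dvd_add_left (dvd_mul_right _ _)).1 (h5 ▸ dvd_mul_right _ _)

end CL.NP
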