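/-
Project NP: the divisors congruent to `± 1` of `n (p - 1)`.
-/
import Cfsg.Agent.NP.Defs

set_option autoImplicit false

namespace CL.NP

namespace DAx

theorem key {a b u w p : ℤ} (hp : p = a * b + 1) (hb : 2 ≤ b) (hba : b ≤ a) (hu : 0 ≤ u) (hw : 1 ≤ w)
    (e : (u * p + 1) * (w * p - 1) = (p - a) * (p + b) * (a * b)) : u = 0 ∨ w = 1 ∨ (u + 1 = b ∧ w = a + 1) := by
  have hN : 4 ≤ a * b := by nlinarith
  have e1 : (u + 1) * (w - 1) = (a * b + b - a - u * w) * (a * b) :=
    mul_left_cancel₀ (show p ≠ 0 by omega) (by subst hp; linear_combination e)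
  obtain ⟨h, hh⟩ : ∃ h, h = a * b + b - a - u * w := ⟨_, rfl⟩
  rw [← hh] at e1
  by_cases u0 : u = 0
  · exact Or.inl u0
  by_cases w1 : w = 1
  · exact Or.inr (Or.inl w1)
  refine Or.inr (Or.inr ?_)
  have u1 : 1 ≤ u := by omega
  have w2 : 2 ≤ w := by omega
  have h0 : 0 < h := by
    by_contra! k
    nlinarith [mul_pos (show 0 < u + 1 by omega) (show 0 < w - 1 by omega), mul_nonneg (neg_nonneg.2 k) (show 0 ≤ a * b by omega)]
  have h1 : h = 1 := by
    by_contra k
    have k2 : 2 ≤ h := by omega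
    have f1 : 2 * (w - 1) ≤ h * (a * b) := by rw [← e1]; nlinarith
    have f2 : 2 * (a * b + 2) ≤ h * (a * b + 2) := by nlinarith
    have f3 : a * b + b - a = h * (a * b) + h + u - (w - 1) := by linear_combination e1 - hh
    nlinarith
  rw [h1] at e1 hh
  have f : w - 1 = a + (u + 1 - b) := by linear_combination -hh + e1
  have g : (u + 1 - b) * (a + u + 1) = 0 := by rw [f] at e1; linear_combination e1
  have g2 : u + 1 - b = 0 := (mul_eq_zero.1 g).resolve_right (by omega)
  omega

end DAx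

open DAx

theorem da : DA := by
  rintro p a b d - hab hb hba ⟨c, hc⟩
  have ha : a < p := by nlinarith
  have hM : 0 < d * c := hc ▸ Nat.mul_pos (Nat.mul_pos (by omega) (by omega)) (Nat.mul_pos (by omega) (by omega))
  have d0 : (1 : ℤ) ≤ d := by exact_mod_cast Nat.pos_of_mul_pos_right hM
  have c0 : (1 : ℤ) ≤ c := by exact_mod_cast Nat.pos_of_mul_pos_left hM
  have hp : (p : ℤ) = a * b + 1 := by exact_mod_cast hab.symm
  have p0 : (0 : ℤ) < p := by exact_mod_cast (show 0 < p by omega)
  have hb' : (2 : ℤ) ≤ b := by exact_mod_cast hb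
  have hba' : (b : ℤ) ≤ a := by exact_mod_cast hba
  have n0 : (a : ℤ) * b ≠ 0 := mul_ne_zero (by omega) (by omega)
  zify [ha.le] at hc ⊢
  constructor
  · intro h
    obtain ⟨u, hu⟩ := h.symm.dvd
    obtain ⟨w, hw⟩ : ∃ w : ℤ, c + 1 = p * w :=
      ⟨(p + b - a - 1) * (p - 1) + 1 - c * u, by rw [hp] at *; linear_combination -hc - c * hu⟩
    have u0 : 0 ≤ u := nonneg_of_mul_nonneg_right (by omega) p0
    have w0 : 0 < w := (mul_pos_iff_of_pos_left p0).1 (by omega)
    rcases key hp hb' hba' u0 w0 (by rw [hc]; linear_combination -(w * p - 1) * hu - d * hw) with k | k | ⟨k, k'⟩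
    · left; rw [k] at hu; omega
    · right; left
      rw [k] at hw
      exact mul_right_cancel₀ n0 (by rw [hc]; linear_combination -d * hw - d * hp)
    · right; right; linear_combination hu - hp + p * k
  · intro h
    obtain ⟨w, hw⟩ := h.symm.dvd
    obtain ⟨u, hu⟩ : ∃ u : ℤ, c - 1 = p * u :=
      ⟨c * w - (p + b - a - 1) * (p - 1) - 1, by rw [hp] at *; linear_combination hc + c * hw⟩
    have u0 : 0 ≤ u := nonneg_of_mul_nonneg_right (by omega) p0
    have w0 : 0 < w := (mul_pos_iff_of_pos_left p0).1 (by omega)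
    rcases key hp hb' hba' u0 w0 (by rw [hc]; linear_combination -(w * p - 1) * hu - c * hw) with k | k | ⟨k, k'⟩
    · left; rw [k] at hu; rw [hc, show (c : ℤ) = 1 by omega, mul_one]
    · right; left; rw [k] at hw; omega
    · right; right; rw [k'] at hw; linear_combination hw + hp

end CL.NP
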