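/-
Project NP (S4340, S4338): the degrees in the principal block.
-/
import Cfsg.Agent.NP.Defs

set_option autoImplicit false

namespace CL.NP

open Finset CL.Inv.PO CL.Blk CL.Char Cfsg Subgroup
open scoped Classical commutatorElement

universe u

variable {G : Type u} [Group G] [Fintype G] {p : ℕ} [Fact p.Prime] (S : St G p)

namespace DEGx

theorem exA : ∃ A, 0 < A ∧ A + S.a = p ∧ p - S.a = A := by
  have h1 := S.hab
  have h2 := Nat.mul_le_mul_left S.a S.hb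
  exact ⟨p - S.a, by omega, by omega, rfl⟩

theorem md : (S.d1 : ℤ) ≡ 1 [ZMOD p] ∧ (S.d2 : ℤ) ≡ 1 [ZMOD p] ∧ (S.d3 : ℤ) ≡ -1 [ZMOD p] ∧
    (S.d4 : ℤ) ≡ -1 [ZMOD p] := by
  obtain ⟨A, -, h1, h2⟩ := exA S
  have h3 : (S.a : ℤ) * S.b + 1 = p := by exact_mod_cast S.hab
  have h4 : (A : ℤ) + S.a = p := by exact_mod_cast h1
  simp only [St.d1, St.d2, St.d3, St.d4, h2, Int.modEq_iff_dvd]
  push_cast
  exact ⟨⟨1 - A - S.b, by linear_combination h3 - S.b * h4⟩, ⟨1 - S.b, by linear_combination h3 - S.b * h4⟩,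
    ⟨-1, by linear_combination -h3⟩, ⟨-1 - S.a, by linear_combination -h3⟩⟩

include S in
theorem pm {u : ℤ} (h1 : u ≡ 1 [ZMOD p]) (h2 : u ≡ -1 [ZMOD p]) : False := by
  have := Int.le_of_dvd (by decide) (h2.symm.trans h1).dvd
  have := S.gh.five
  omega

theorem lt : 1 < S.d2 ∧ S.d2 < S.d1 ∧ S.d3 < S.d4 := by
  obtain ⟨A, h0, h1, h2⟩ := exA S
  have h3 := S.hb
  have h4 := S.hba
  have h5 := S.gh.five
  simp only [St.d1, St.d2, St.d3, St.d4, h2]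
  exact ⟨by nlinarith, by nlinarith, by nlinarith⟩

theorem dvd {d : ℕ} (h : d ∣ S.C.index) : S.t * d ∣ S.d1 * S.d3 := by
  rw [S.K.index_C, S.hn] at h
  rw [St.d3, ← S.t_mul_e, mul_comm S.d1, mul_assoc]
  exact Nat.mul_dvd_mul_left _ h

theorem dg1 : dg (irrOne G) = 1 := charDegree_const_one

theorem preX (h : DA) {χ : IrrCharacter G} (hχ : χ ∈ S.D.X) (n : χ ≠ irrOne G) :
    (S.D.s χ = 1 ∧ (dg χ = S.d1 ∨ dg χ = S.d2)) ∨
      (S.D.s χ = -1 ∧ (dg χ = S.d1 * S.d3 ∨ dg χ = S.d3 ∨ dg χ = S.d4)) := by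
  have k := h p S.a S.b (dg χ) Fact.out S.hab S.hb S.hba (Dvd.dvd.trans (Dvd.intro_left _ rfl) (dvd S (S.D.deg_X_dvd hχ)))
  exact (S.D.hs χ hχ).imp (fun e => ⟨e, (k.1 (e ▸ S.D.deg_X_one hχ)).resolve_left
    fun o => n (eq_irrOne_of_perfect S.gh.perf o)⟩) fun e => ⟨e, k.2 (e ▸ S.D.deg_X_one hχ)⟩

theorem preμ (h : DA) : (S.D.ε = -1 ∧ (S.t * S.θ = S.d1 ∨ S.t * S.θ = S.d2)) ∨
    (S.D.ε = 1 ∧ (S.t * S.θ = S.d1 * S.d3 ∨ S.t * S.θ = S.d3 ∨ S.t * S.θ = S.d4)) := by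
  have k := h p S.a S.b (S.t * S.θ) Fact.out S.hab S.hb S.hba (dvd S (S.D.deg_μ_dvd 1))
  have m : ((S.t * S.θ : ℕ) : ℤ) ≡ S.D.ε * -1 [ZMOD p] := by
    refine Int.ModEq.trans ?_ ((md S).2.2.1.mul_left _)
    rw [St.d3, ← S.t_mul_e, Nat.cast_mul, Nat.cast_mul, mul_left_comm]
    exact (S.D.deg_μ_one 1).mul_left _
  refine S.D.hε.symm.imp (fun e => ⟨e, (k.1 (by simpa [e] using m)).resolve_left fun o => S.D.μ_notMem 1 ?_⟩)
    fun e => ⟨e, k.2 (by simpa [e] using m)⟩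
  rw [eq_irrOne_of_perfect S.gh.perf (Nat.eq_one_of_mul_eq_one_left o)]
  exact S.h1

theorem rel : S.D.ε * S.θ = 1 + ∑ χ ∈ S.D.X.erase (irrOne G), S.D.s χ * (dg χ : ℤ) := by
  rw [St.θ, S.D.deg_rel, ← add_sum_erase _ _ S.h1, S.s1, show charDegree _ = 1 from dg1, Nat.cast_one, mul_one]

theorem bd (h : DA) {Y : Finset (IrrCharacter G)} (hY : Y ⊆ S.D.X.erase (irrOne G)) :
    ∑ χ ∈ Y, S.D.s χ * (dg χ : ℤ) ≤ Y.card * S.d1 := by
  rw [← nsmul_eq_mul]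
  refine sum_le_card_nsmul _ _ _ fun χ hχ => ?_
  have := (lt S).2.1
  rcases preX S h (mem_erase.1 (hY hχ)).2 (mem_erase.1 (hY hχ)).1 with ⟨e, k | k⟩ | ⟨e, -⟩ <;> rw [e] <;> omega

theorem cardE : ((S.D.X.erase (irrOne G)).card : ℤ) + 1 = S.e := by
  exact_mod_cast (card_erase_add_one S.h1).trans S.D.card_X_one

theorem t_pos : 0 < S.t := Nat.pos_of_ne_zero fun e => by
  have h1 := S.t_mul_e
  have h2 := S.hab
  have h3 := S.gh.five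
  rw [e, zero_mul] at h1
  omega

theorem nμ (h : DA) (e : S.D.ε = 1) : S.t * S.θ ≠ S.d1 * S.d3 := fun k => by
  rw [St.d3, ← S.t_mul_e, mul_left_comm, Nat.mul_right_inj (t_pos S).ne'] at k
  have h1 := rel S
  have h2 := bd S h subset_rfl
  have h3 := cardE S
  have h4 := lt S
  have h5 : (1 : ℤ) < S.d1 := by omega
  rw [e, k, Nat.cast_mul, ← h3] at h1
  nlinarith

theorem nX (h : DA) {χ : IrrCharacter G} (hχ : χ ∈ S.D.X) (n : χ ≠ irrOne G) (e : S.D.s χ = -1) :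
    dg χ ≠ S.d1 * S.d3 := fun k => by
  have h4 := lt S
  have d := dvd S (S.D.deg_X_dvd hχ)
  have t1 : S.t = 1 := Nat.dvd_one.1 (Nat.dvd_of_mul_dvd_mul_right χ.2.charDegree_pos (by rwa [one_mul, ← k] at *))
  have m := mem_erase.2 ⟨n, hχ⟩
  have h1 := rel S
  have h2 := bd S h (erase_subset χ _)
  have h3 := cardE S
  rw [← card_erase_add_one m, Nat.cast_succ] at h3
  rw [← add_sum_erase _ _ m, e, k, St.d3, ← S.t_mul_e, t1, one_mul, Nat.cast_mul, ← h3] at h1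
  have h5 : (1 : ℤ) < S.d1 := by omega
  have h6 : -(S.d1 : ℤ) ≤ S.D.ε * S.θ := by
    rcases preμ S h with ⟨e, k | k⟩ | ⟨e, -⟩ <;> rw [e] <;> (try rw [t1, one_mul] at k) <;> omega
  nlinarith

theorem ite_sum (d : ℕ) (c : ℤ) : ∑ χ ∈ S.D.X.erase (irrOne G), (if dg χ = d then c else 0) =
    (if 1 = d then -c else 0) + S.m d * c := by
  rw [St.m, ← nsmul_eq_mul, ← sum_const, sum_filter, ← add_sum_erase _ _ S.h1, dg1]
  split_ifs <;> ring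

end DEGx

open DEGx in
theorem deg (h : DA) : S.Deg := by
  obtain ⟨m1, m2, m3, m4⟩ := md S
  obtain ⟨l1, l2, l3⟩ := lt S
  have hX : ∀ χ ∈ S.D.X, χ ≠ irrOne G → (S.D.s χ = 1 ∧ (dg χ = S.d1 ∨ dg χ = S.d2)) ∨
      (S.D.s χ = -1 ∧ (dg χ = S.d3 ∨ dg χ = S.d4)) := fun χ hχ n =>
    (preX S h hχ n).imp_right fun k => ⟨k.1, k.2.resolve_left (nX S h hχ n k.1)⟩
  have ne : ∀ {u v : ℕ}, (u : ℤ) ≡ 1 [ZMOD p] → (v : ℤ) ≡ -1 [ZMOD p] → u ≠ v := fun a b e => pm S a (e ▸ b)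
  have n13 := ne m1 m3; have n14 := ne m1 m4; have n23 := ne m2 m3; have n24 := ne m2 m4
  have n03 := ne (u := 1) rfl m3; have n04 := ne (u := 1) rfl m4
  have key : ∀ (f : IrrCharacter G → ℤ) (c : ℤ → ℕ → ℤ), (∀ χ, f χ = c (S.D.s χ) (dg χ)) →
      ∑ χ ∈ S.D.X.erase (irrOne G), f χ = S.m S.d1 * c 1 S.d1 + S.m S.d2 * c 1 S.d2 + S.m S.d3 * c (-1) S.d3 +
        S.m S.d4 * c (-1) S.d4 := fun f c hf => by
    have e1 := ite_sum S S.d1 (c 1 S.d1)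
    have e2 := ite_sum S S.d2 (c 1 S.d2)
    have e3 := ite_sum S S.d3 (c (-1) S.d3)
    have e4 := ite_sum S S.d4 (c (-1) S.d4)
    rw [if_neg (by omega), zero_add] at e1 e2 e3 e4
    rw [← e1, ← e2, ← e3, ← e4, ← sum_add_distrib, ← sum_add_distrib, ← sum_add_distrib]
    refine sum_congr rfl fun χ hχ => ?_
    rcases hX χ (mem_erase.1 hχ).2 (mem_erase.1 hχ).1 with ⟨e, k | k⟩ | ⟨e, k | k⟩ <;> rw [hf, e, k] <;>
      simp [n13, n14, n23, n24, n13.symm, n14.symm, n23.symm, n24.symm, l2.ne, l2.ne', l3.ne, l3.ne']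
  have r := rel S
  rw [key _ (fun a d => a * d) fun _ => rfl] at r
  refine ⟨fun χ hχ n => ⟨dvd S (S.D.deg_X_dvd hχ), hX χ hχ n⟩, fun χ hχ => ⟨fun k => (S.D.hs χ hχ).resolve_right
    fun e => pm S (k.elim (· ▸ m1) (· ▸ m2)) (e ▸ S.D.deg_X_one hχ), fun k => (S.D.hs χ hχ).resolve_left
      fun e => pm S (u := dg χ) (e ▸ S.D.deg_X_one hχ) (k.elim (· ▸ m3) (· ▸ m4))⟩, (preμ S h).imp (fun k => ⟨k.1, k.2, ?_⟩)
        fun k => ⟨k.1, k.2.resolve_left (nμ S h k.1), ?_⟩, ?_⟩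
  · rw [k.1] at r; zify; linarith
  · rw [k.1] at r; zify; linarith
  · have := key (fun _ => 1) (fun _ _ => 1) fun _ => rfl
    have h3 := cardE S
    rw [sum_const, nsmul_one] at this
    zify; linarith

end CL.NP
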