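/-
Project NP (S4340, S4338): the basic facts on a maximal intersection of centralisers.
-/
import Cfsg.Agent.NP.Defs

set_option autoImplicit false

namespace CL.NP

open Cfsg Subgroup MulAction CL.Fgs CL.Grp

universe u

variable {G : Type u} [Group G] [Finite G] {p : ℕ} [Fact p.Prime]

namespace DLx

omit [Finite G] [Fact p.Prime] in
theorem memCQ (g z : G) (Q : Sylow p G) : z ∈ CQ (g • Q) ↔ g⁻¹ * z * g ∈ CQ Q := by
  simp only [CQ, mem_centralizer_iff]
  constructor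
  · intro h a ha
    have h1 := h (g * a * g⁻¹) ((mem_sylow_smul_iff g _ Q).2 (by
      rw [show g⁻¹ * (g * a * g⁻¹) * g = a by group]; exact ha))
    calc a * (g⁻¹ * z * g) = g⁻¹ * (g * a * g⁻¹ * z) * g := by group
      _ = _ := by rw [h1]; group
  · intro h a ha
    have h1 := h (g⁻¹ * a * g) ((mem_sylow_smul_iff g _ Q).1 ha)
    calc a * z = g * (g⁻¹ * a * g * (g⁻¹ * z * g)) * g⁻¹ := by group
      _ = _ := by rw [h1]; group

omit [Finite G] [Fact p.Prime] in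
theorem comm_iff {Q : Sylow p G} {y z : G} (hQ : (Q : Subgroup G) = zpowers y) : z ∈ CQ Q ↔ Commute z y := by
  rw [CQ, centralizer_sylow_eq hQ, mem_centralizer_singleton_iff]; rfl

omit [Finite G] [Fact p.Prime] in
theorem fix_of_cq {Q : Sylow p G} {z : G} (hz : z ∈ CQ Q) : z • Q = Q :=
  (sylow_smul_eq_iff _ _).2 (centralizer_le_normalizer _ hz)

theorem count {Ω : Type*} [MulAction G Ω] [Finite Ω] (H : Subgroup G) (Δ : Set Ω)
    (h : ∀ g ∈ H, g ≠ 1 → ∀ x ∈ Δ, ∀ x' ∈ Δ, g • x ∈ Δ → g • x' ∈ Δ → x = x') :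
    ∃ m, Nat.card H * m ≤ Nat.card Ω ∧ Δ.ncard ≤ m + Nat.card H := by
  let A : Set Ω := {x | ∃ g ∈ H, g ≠ 1 ∧ g • x ∈ Δ}
  refine ⟨(Δ \ A).ncard, ?_, ?_⟩
  · let f : H × (Δ \ A : Set Ω) → Ω := fun a => (a.1 : G) • (a.2 : Ω)
    have hf : Function.Injective f := by
      rintro ⟨a, x⟩ ⟨b, x'⟩ e
      have h1 : (a : G) • (x : Ω) = (b : G) • (x' : Ω) := e
      have h2 : ((b : G)⁻¹ * a) • (x : Ω) = x' := by rw [mul_smul, h1, inv_smul_smul]
      have h3 : (b : G)⁻¹ * a = 1 := by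
        by_contra hne
        exact x.2.2 ⟨_, H.mul_mem (H.inv_mem b.2) a.2, hne, h2 ▸ x'.2.1⟩
      rw [h3, one_smul] at h2
      exact Prod.ext (Subtype.ext (inv_mul_eq_one.1 h3).symm) (Subtype.ext h2)
    have := Nat.card_le_card_of_injective f hf
    rwa [Nat.card_prod, Nat.card_coe_set_eq] at this
  · rw [← Set.ncard_inter_add_ncard_sdiff_eq_ncard Δ A, add_comm]
    refine Nat.add_le_add_left ?_ _
    have : ∀ x : (Δ ∩ A : Set Ω), ∃ g : H, (g : G) ≠ 1 ∧ (g : G) • (x : Ω) ∈ Δ := fun x => by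
      obtain ⟨g, h1, h2⟩ := x.2.2
      exact ⟨⟨g, h1⟩, h2⟩
    choose f hf using this
    have hi : Function.Injective f := fun x x' e =>
      Subtype.ext (h _ (f x).2 (hf x).1 _ x.2.1 _ x'.2.1 (hf x).2 (e ▸ (hf x').2))
    have := Nat.card_le_card_of_injective f hi
    rwa [Nat.card_coe_set_eq] at this

omit [Fact p.Prime] in
theorem ge_of_mod {n : ℕ} (h : n ≡ 1 [MOD p]) (h2 : 1 < n) : ∃ k, 1 ≤ k ∧ n = p * k + 1 := by
  obtain ⟨k, hk⟩ := (Nat.modEq_iff_dvd' h2.le).1 h.symm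
  refine ⟨k, Nat.pos_of_ne_zero ?_, by omega⟩
  rintro rfl
  omega

variable {D : Subgroup G}

omit [Fact p.Prime] in
theorem inf (hD : Mx p D) : ∀ P ∈ Fx p D, ∀ Q ∈ Fx p D, P ≠ Q → CQ P ⊓ CQ Q = D := fun P hP Q hQ hne =>
  (eq_of_le_of_card_ge (le_inf hP hQ) (hD.max P Q hne)).symm

omit [Finite G] [Fact p.Prime] in
theorem smul : ∀ g ∈ normalizer (D : Set G), ∀ Q ∈ Fx p D, g • Q ∈ Fx p D := fun g hg Q hQ z hz =>
  (memCQ g z Q).2 (hQ ((mem_normalizer_iff''.1 hg z).1 hz))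

omit [Finite G] [Fact p.Prime] in
theorem norm_of_mem {Q : Sylow p G} (hQ : Q ∈ Fx p D) {y : G} (hy : y ∈ (Q : Subgroup G)) :
    y ∈ normalizer (D : Set G) :=
  centralizer_le_normalizer _ (mem_centralizer_iff.2 fun _ hd => (mem_centralizer_iff.1 (hQ hd) y hy).symm)

theorem mod1 (h : GH G p) {Q : Sylow p G} (hQ : Q ∈ Fx p D) : (Fx p D).ncard ≡ 1 [MOD p] := by
  obtain ⟨y, hy, e⟩ := exists_sylow_eq_zpowers (h.card Q)
  have := ncard_modEq_inter_fixedBy Fact.out hy (Fx p D) (smul y (norm_of_mem hQ (e ▸ mem_zpowers y)))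
  rwa [fixedBy_sylow_eq_singleton hy e, Set.inter_singleton_of_mem hQ, Set.ncard_singleton] at this

theorem star (h : GH G p) {P Q : Sylow p G} (hP : P ∈ Fx p D) (hQ : Q ∉ Fx p D) {g : G}
    (hg : g ∈ (Q : Subgroup G)) (hn : g ∈ normalizer (D : Set G)) : g = 1 := by
  by_contra hne
  have h1 : orderOf g = p := by
    have := orderOf_dvd_natCard (⟨g, hg⟩ : (Q : Subgroup G))
    rw [h.card, orderOf_mk] at this
    exact ((Nat.dvd_prime Fact.out).1 this).resolve_left fun e => hne (orderOf_eq_one_iff.1 e)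
  have h2 := ncard_modEq_inter_fixedBy Fact.out h1 (Fx p D) (smul g hn)
  rw [fixedBy_sylow_eq_singleton h1 (sylow_eq_zpowers_of_mem (h.card Q) h1 hg),
    Set.inter_singleton_eq_empty.2 hQ, Set.ncard_empty] at h2
  have h3 := (mod1 h hP).symm.trans h2
  exact (Fact.out : p.Prime).not_dvd_one ((Nat.modEq_zero_iff_dvd).1 h3)

omit [Finite G] [Fact p.Prime] in
theorem two (hD : Mx p D) : ∃ P ∈ Fx p D, ∃ Q ∈ Fx p D, P ≠ Q := by
  obtain ⟨P, Q, h1, h2⟩ := hD.ex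
  exact ⟨P, h2.le.trans inf_le_left, Q, h2.le.trans inf_le_right, h1⟩

theorem out (h : GH G p) (hD : Mx p D) : ∃ Q : Sylow p G, Q ∉ Fx p D := by
  by_contra hc
  push Not at hc
  have := h.simple
  have := faithfulSMul_sylow h.ne
  exact hD.ne ((eq_bot_iff_forall _).2 fun d hd =>
    eq_of_smul_eq_smul (α := Sylow p G) fun Q => by rw [fix_of_cq (hc Q hd), one_smul])

theorem card (h : GH G p) (hD : Mx p D) : (Fx p D).ncard = p + 1 := by
  obtain ⟨P, hP, Q, hQ, hne⟩ := two hD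
  obtain ⟨R, hR⟩ := out h hD
  obtain ⟨k, hk, e⟩ := ge_of_mod (mod1 h hP) ((Set.one_lt_ncard (Set.toFinite _)).2 ⟨P, hP, Q, hQ, hne⟩)
  obtain ⟨m, h1, h2⟩ := count (R : Subgroup G) (Fx p D) fun g hg hg1 x hx x' hx' h1 h2 => by
    by_contra hxx
    refine hg1 (star h hP hR hg (mem_normalizer_iff''.2 fun z => ?_))
    have e1 := inf hD x hx x' hx' hxx
    have e2 := inf hD _ h1 _ h2 fun e => hxx (smul_left_cancel g e)
    have e3 : z ∈ CQ (g • x) ⊓ CQ (g • x') ↔ g⁻¹ * z * g ∈ CQ x ⊓ CQ x' := by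
      rw [mem_inf, mem_inf, memCQ, memCQ]
    rwa [e1, e2] at e3
  rw [h.card] at h1 h2
  have h3 : m < p := by
    have := h1.trans_lt h.lt
    rw [pow_two] at this
    exact Nat.lt_of_mul_lt_mul_left this
  have h4 : k = 1 := by
    by_contra hk1
    have : p * 2 ≤ p * k := Nat.mul_le_mul_left _ (by omega)
    omega
  rw [e, h4, mul_one]

theorem cop (h : GH G p) (hD : Mx p D) : ¬ p ∣ Nat.card D := fun hd => by
  obtain ⟨P, hP, Q, hQ, hne⟩ := two hD
  obtain ⟨u, hu, hup⟩ := exists_mem_prime_order (H := D) (Fact.out : p.Prime) hd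
  have key : ∀ R ∈ Fx p D, (R : Subgroup G) = zpowers u := fun R hR =>
    sylow_eq_zpowers_of_mem (h.card R) hup (mem_sylow_of_mem_normalizer (k := 1) (by rw [hup, pow_one])
      (centralizer_le_normalizer _ (hR hu)))
  exact hne (Sylow.ext ((key P hP).trans (key Q hQ).symm))

theorem compl (h : GH G p) (hD : Mx p D) : (Fx p D)ᶜ.ncard ≤ p * (p - 2) := by
  have h1 := Set.ncard_add_ncard_compl (Fx p D)
  rw [card h hD] at h1
  have h5 := h.five
  obtain ⟨k, -, e⟩ := ge_of_mod (card_sylow_modEq_one p G) (by omega)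
  have h2 := h.lt
  rw [e, pow_two] at h2
  have h3 : k < p := Nat.lt_of_mul_lt_mul_left (a := p) (by omega)
  have h4 : p * k ≤ p * (p - 2 + 1) := Nat.mul_le_mul_left _ (by omega)
  rw [mul_add, mul_one] at h4
  omega

theorem semi (h : GH G p) (h0 : K0 G p) (hD : Mx p D) :
    ∀ z ∈ normalizer (D : Set G), ¬ p ∣ orderOf z → ∀ Q ∈ Fx p D, z ∈ CQ Q → z ∈ D := by
  intro z hz hzp Q hQ hzQ
  obtain ⟨R, hR, hne⟩ : ∃ R ∈ Fx p D, R ≠ Q := by
    obtain ⟨A, hA, B, hB, hne⟩ := two hD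
    by_cases e : A = Q
    · exact ⟨B, hB, fun e' => hne (e.trans e'.symm)⟩
    · exact ⟨A, hA, e⟩
  obtain ⟨y, hy, e⟩ := exists_sylow_eq_zpowers (h.card Q)
  have hfix : ∀ g : G, g • Q = Q → g • R ≠ Q := fun g hg e' => hne (smul_left_cancel g (e'.trans hg.symm))
  let f : ↥(Q : Subgroup G) → (Fx p D \ {Q} : Set (Sylow p G)) := fun g =>
    ⟨(g : G) • R, smul _ (norm_of_mem hQ g.2) R hR, hfix g ((sylow_smul_eq_iff _ _).2 (le_normalizer g.2))⟩
  have hf : Function.Injective f := fun a b e' => by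
    have h1 : (a : G) • R = (b : G) • R := congrArg Subtype.val e'
    have h2 : ((b : G)⁻¹ * a) • R = R := by rw [mul_smul, h1, inv_smul_smul]
    have h3 := eq_one_of_mem_zpowers_of_smul_eq Fact.out hy (e ▸ mul_mem (inv_mem b.2) a.2) (x := R)
      (fun e'' => hne (by
        have : R ∈ fixedBy (Sylow p G) y := e''
        rwa [fixedBy_sylow_eq_singleton hy e] at this)) h2
    exact Subtype.ext (inv_mul_eq_one.1 h3).symm
  have hb := hf.bijective_of_nat_card_le (by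
    rw [Nat.card_coe_set_eq, Set.ncard_sdiff_singleton_of_mem hQ, card h hD, h.card]; rfl)
  obtain ⟨g, hg⟩ := hb.2 ⟨z • R, smul z hz R hR, hfix z (fix_of_cq hzQ)⟩
  have h1 : (g : G) • R = z • R := congrArg Subtype.val hg
  have hgQ : (g : G) ∈ CQ Q := by
    obtain ⟨k, hk⟩ : (g : G) ∈ zpowers y := e ▸ g.2
    rw [comm_iff e, ← hk]
    exact (Commute.refl y).zpow_left k
  have hw : (g : G)⁻¹ * z ∈ CQ Q := mul_mem (inv_mem hgQ) hzQ
  have hwD : (g : G)⁻¹ * z ∈ D := by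
    rw [← inf hD Q hQ R hR hne.symm]
    exact ⟨hw, h0 Q R _ hw hne.symm (by rw [mul_smul, ← h1, inv_smul_smul])⟩
  have hc : Commute (g : G) z := mem_centralizer_iff.1 hzQ g g.2
  have h2 : (g : G)⁻¹ ^ (orderOf z * Nat.card D) = 1 := by
    have h3 : ((g : G)⁻¹ * z) ^ (orderOf z * Nat.card D) = 1 := by
      have := congrArg Subtype.val (pow_card_eq_one' (x := (⟨_, hwD⟩ : D)))
      rw [mul_comm, pow_mul]
      simp only [SubgroupClass.coe_pow, OneMemClass.coe_one] at this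
      rw [this, one_pow]
    rwa [hc.inv_left.mul_pow, pow_mul z, pow_orderOf_eq_one, one_pow, mul_one] at h3
  have h3 : orderOf (g : G)⁻¹ ∣ p := by
    have := orderOf_dvd_natCard g⁻¹
    rwa [h.card, ← orderOf_coe] at this
  have h4 : orderOf (g : G)⁻¹ = 1 := by
    refine ((Nat.dvd_prime Fact.out).1 h3).resolve_right fun e' => ?_
    have := orderOf_dvd_of_pow_eq_one h2
    rw [e'] at this
    exact ((Nat.Prime.dvd_mul Fact.out).1 this).elim hzp (cop h hD)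
  rwa [orderOf_eq_one_iff.1 h4, one_mul] at hwD

end DLx

theorem k0 (h : GH G p) : K0 G p := by
  intro P Q y hy hne hQ
  by_contra hc
  obtain ⟨a, ha, ea⟩ := exists_sylow_eq_zpowers (h.card P)
  obtain ⟨b, hb, eb⟩ := exists_sylow_eq_zpowers (h.card Q)
  obtain ⟨k, hk, e⟩ := DLx.ge_of_mod (ncard_fixedBy_modEq_one ha ea ((DLx.comm_iff ea).1 hy))
    ((Set.one_lt_ncard (Set.toFinite _)).2 ⟨P, DLx.fix_of_cq hy, Q, hQ, hne⟩)
  have h1 := mul_ncard_fixedBy_le hb eb hQ fun h' => hc ((DLx.comm_iff eb).2 h')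
  have h2 := h.lt
  rw [e, Nat.add_sub_cancel] at h1
  rw [pow_two] at h2
  have h3 : p * (p * 1) ≤ p * (p * k) := Nat.mul_le_mul_left _ (Nat.mul_le_mul_left _ hk)
  rw [mul_one] at h3
  omega

theorem dl (h : GH G p) (h0 : K0 G p) {D : Subgroup G} (hD : Mx p D) : Dl p D :=
  ⟨hD, DLx.cop h hD, DLx.card h hD, DLx.inf hD, DLx.out h hD, DLx.compl h hD, DLx.smul, DLx.semi h h0 hD⟩

end CL.NP
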