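/-
Project NP (S4340, S4338): the family of order `p (p + 1) (p + 2)`.
-/
import Cfsg.Agent.NP.Defs
import Cfsg.Agent.Inv.ElemCentPSL
import Cfsg.Agent.S0727
import Cfsg.Agent.Char.PiSection
import Cfsg.Agent.Fgs.ClassBasic

set_option autoImplicit false

namespace CL.NP

open Finset CL.Inv.PO CL.Blk CL.Char Cfsg Subgroup
open scoped Classical commutatorElement

universe u

namespace F1x

open CL.Fgs CL.Inv.SE

variable {G : Type u} [Group G] {p : ℕ}

theorem cop (p : ℕ) : (p + 1).Coprime (p * (p + 2)) :=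
  Nat.Coprime.mul_right (by simp) ((Nat.coprime_self_add_right (m := p + 1) (n := 1)).2 (by simp))

theorem ordc {a b : G} (h : IsConj a b) : orderOf a = orderOf b := by
  obtain ⟨c, hc⟩ := h
  exact SemiconjBy.orderOf_eq (c : G) hc

theorem invol [Finite G] (hp : Odd p) (hG : Nat.card G = (p + 1) * (p * (p + 2))) {U : Set G}
    (hU : U.ncard = p * (p + 2)) (h1 : ∀ g l, l.Prime → l ∣ p + 1 → l ∣ orderOf g → g ∈ U)
    (h2 : ∀ g l, l.Prime → l ∣ p * (p + 2) → l ∣ orderOf g → g ∉ U) {s : G} (hs : orderOf s = 2) :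
    Nat.card cent(s) = p + 1 ∧ ∀ c ∈ cent(s), c ^ 2 = 1 := by
  have e2 : 2 ∣ p + 1 := hp.add_one.two_dvd
  have c1 : (Nat.card cent(s)).Coprime (p * (p + 2)) := Nat.coprime_of_dvd fun l hl d1 d2 => by
    have := Fact.mk hl
    obtain ⟨⟨c, hc⟩, ho⟩ := exists_prime_orderOf_dvd_card' l d1
    rw [orderOf_mk] at ho
    have h3 := (mem_cent.1 hc).orderOf_mul_eq_mul_orderOf_of_coprime (by
      rw [ho, hs]; exact ((cop p).symm.coprime_dvd_left d2).coprime_dvd_right e2)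
    rw [ho, hs] at h3
    exact h2 _ l hl d2 (h3 ▸ dvd_mul_right _ _) (h1 _ 2 Nat.prime_two e2 (h3 ▸ dvd_mul_left _ _))
  have d : Nat.card cent(s) ∣ p + 1 := c1.dvd_of_dvd_mul_right (hG ▸ card_subgroup_dvd_card _)
  have sub : {y | IsConj s y} ⊆ U := fun y hy => h1 y 2 Nat.prime_two e2 (hs ▸ (ordc hy).dvd)
  have m := card_cent_mul_cs s
  have l1 := Set.ncard_le_ncard sub
  have l2 := Nat.le_of_dvd p.succ_pos d
  have p0 := hp.pos
  rw [ncard_isConj, hU] at l1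
  rw [hG] at m
  have e : Nat.card cent(s) = p + 1 := le_antisymm l2 (Nat.le_of_mul_le_mul_right
    (m ▸ Nat.mul_le_mul_left _ l1) (by positivity : 0 < p * (p + 2)))
  have eU : {y | IsConj s y} = U := Set.eq_of_subset_of_ncard_le sub (by
    rw [ncard_isConj, hU]
    rw [e] at m
    exact (Nat.eq_of_mul_eq_mul_left p.succ_pos m).ge)
  refine ⟨e, fun c hc => ?_⟩
  by_cases c0 : c = 1
  · rw [c0, one_pow]
  have h3 : c ∈ U := h1 c _ (Nat.minFac_prime (mt orderOf_eq_one_iff.1 c0))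
    ((Nat.minFac_dvd _).trans ((orderOf_dvd_natCard _ hc).trans d)) (Nat.minFac_dvd _)
  rw [← eU] at h3
  rw [← hs, ordc h3, pow_orderOf_eq_one]

theorem grp [Finite G] [IsSimpleGroup G] (hp : Odd p) (h5 : 5 ≤ p) (hG : Nat.card G = (p + 1) * (p * (p + 2)))
    (h : ∀ s : G, orderOf s = 2 → Nat.card cent(s) = p + 1 ∧ ∀ c ∈ cent(s), c ^ 2 = 1) :
    (∃ k : ℕ, p + 1 = 2 ^ k) ∧ IsL 2 (p + 1) G := by
  have := Fact.mk Nat.prime_two
  have hC : ElemCentHyp G := fun s hs => ⟨⟨⟨fun a b => Subtype.ext (by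
    have h1 := (h s hs).2 _ a.2
    have h2 := (h s hs).2 _ b.2
    have h3 := (h s hs).2 _ (a * b).2
    rw [sq, mul_eq_one_iff_eq_inv] at h1 h2 h3
    rw [h3, Subgroup.coe_mul, mul_inv_rev, ← h1, ← h2, Subgroup.coe_mul])⟩⟩, (h s hs).2⟩
  obtain ⟨T⟩ : Nonempty (Sylow 2 G) := inferInstance
  obtain ⟨t, ht, t1⟩ := (T : Subgroup G).bot_or_exists_ne_one.resolve_left fun e =>
    T.not_dvd_index (by rw [e, index_bot, hG]; exact hp.add_one.two_dvd.mul_right _)
  obtain ⟨o, eT⟩ := hC.centralizer_eq T ht t1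
  obtain ⟨cT, sT⟩ := h t o
  rw [eT] at cT sT
  obtain ⟨F, _, _, hF, e⟩ := hC.psl @Cfsg.Agent.S0727.result T (fun hc => by
    obtain ⟨g, hg⟩ := IsCyclic.exists_ofOrder_eq_natCard (α := (T : Subgroup G))
    have := Nat.le_of_dvd two_pos (orderOf_dvd_of_pow_eq_one (sT g g.2))
    rw [orderOf_coe, hg, cT] at this
    omega) fun hn => by
    rcases hn.eq_bot_or_eq_top with e | e
    · rw [e, card_bot] at cT
      omega
    · rw [e, card_top, hG] at cT
      have := Nat.eq_of_mul_eq_mul_left p.succ_pos (cT.trans (mul_one _).symm)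
      nlinarith
  exact ⟨cT ▸ T.isPGroup'.exists_card_eq, F, _, _, hF.trans cT, e⟩

theorem count [Fintype G] {χ : G → ℂ} (hχ : IsIrrCharacter G χ) (h1 : χ 1 = (p + 1 : ℕ))
    (h : ∀ g, g ≠ 1 → χ g = 0 ∨ χ g = 1 ∨ χ g = -1) : {g | χ g = 0}.ncard = p * (p + 2) := by
  have h0 : (Nat.card G : ℂ) ≠ 0 := Nat.cast_ne_zero.2 Nat.card_pos.ne'
  have h2 := hχ.classInner_self
  rw [classInner, inv_mul_eq_one₀ h0] at h2
  have h3 : ∀ g, χ g * (starRingEnd ℂ) (χ g) + (if χ g = 0 then 1 else 0) =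
      1 + if g = 1 then ((p * (p + 2) : ℕ) : ℂ) else 0 := fun g => by
    by_cases e : g = 1
    · rw [e, h1, if_neg (Nat.cast_ne_zero.2 p.succ_ne_zero), if_pos rfl, map_natCast]
      push_cast
      ring
    · rcases h g e with k | k | k <;> simp [k, e]
  have h4 := sum_congr rfl fun g (_ : g ∈ univ) => h3 g
  rw [sum_add_distrib, sum_add_distrib, ← h2, sum_boole, sum_ite_eq' univ, if_pos (mem_univ _), sum_const, card_univ,
    nsmul_one, Nat.card_eq_fintype_card, add_right_inj, Nat.cast_inj] at h4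
  rw [← h4, ← Set.ncard_coe_finset, coe_filter_univ]

end F1x

variable {G : Type u} [Group G] [Fintype G] {p : ℕ} [Fact p.Prime] (S : St G p)

open F1x in
theorem f1 (h : S.F1) : (∃ k : ℕ, p + 1 = 2 ^ k) ∧ IsL 2 (p + 1) G := by
  have hp : p.Prime := Fact.out
  have h5 := S.gh.five
  have odd := hp.odd_of_ne_two (by omega)
  have := S.gh.simple
  obtain ⟨χ, h0, hX, hs, hd⟩ := h.X
  have hG : Nat.card G = (p + 1) * (p * (p + 2)) := by rw [h.card]; ring
  have d1 := χ.2.isCharacter.charDegree_eq_iff.1 hd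
  have d2 := (S.D.μ 1).2.isCharacter.charDegree_eq_iff.1 h.θ
  have h1 : ∀ (g : G) l, l.Prime → l ∣ p + 1 → l ∣ orderOf g → (χ : G → ℂ) g = 0 := fun g l hl a b =>
    irr_eq_zero_of_defect_zero hl χ.2 d1 hG (fun c => hl.one_lt.ne' (Nat.eq_one_of_dvd_coprimes (cop p) a c)) b
  have h2 : ∀ (g : G) l, l.Prime → l ∣ p * (p + 2) → l ∣ orderOf g → (χ : G → ℂ) g = 1 ∨ (χ : G → ℂ) g = -1 :=
    fun g l hl a b => by
    by_cases c : p ∣ orderOf g
    · exact .inl (by rw [S.D.X_sing_one (by rw [hX]; simp) c, hs, Int.cast_one])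
    have a1 : ¬ l ∣ p := fun k => c ((Nat.prime_dvd_prime_iff_eq hl hp).1 k ▸ b)
    have z := irr_eq_zero_of_defect_zero hl (S.D.μ 1).2 d2 (k := p * (p + 1)) (by rw [h.card]; ring)
      (fun k => hl.one_lt.ne' (Nat.eq_one_of_dvd_coprimes (cop p) ((hl.dvd_mul.1 k).resolve_left a1) a)) b
    have r := S.D.reg_rel 1 c
    rw [z, hX, sum_pair h0.symm, S.s1, hs] at r
    refine .inr (eq_neg_of_add_eq_zero_right ?_)
    simpa [irrOne] using r.symm
  refine grp odd h5 hG fun s => invol odd hG (count χ.2 d1 fun g hg => ?_) h1 fun g l hl a b c => ?_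
  · have hl := Nat.minFac_prime (mt orderOf_eq_one_iff.1 hg)
    have b := Nat.minFac_dvd (orderOf g)
    exact (hl.dvd_mul.1 (hG ▸ b.trans (orderOf_dvd_natCard g))).imp (h1 g _ hl · b) (h2 g _ hl · b)
  · rcases h2 g l hl a b with e | e <;> simp [show (χ : G → ℂ) g = 0 from c] at e

end CL.NP
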