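/-
Project NP, job F2A: in family (ii), products of two characters of degree `p - 1` have no exceptional constituent.
-/
import Cfsg.Agent.NP.Defs
import Cfsg.Agent.Char.PiSection

set_option autoImplicit false

namespace CL.NP

open Finset CL.Inv.PO CL.Blk CL.Char Cfsg Subgroup
open scoped Classical commutatorElement

universe u

variable {G : Type u} [Group G] [Fintype G] {p : ℕ} [hp : Fact p.Prime]

namespace F2A

theorem inner_pi {x : G} {C : Subgroup G} (K : Ctx p x C) (hC : C ≤ zpowers x) {φ : G → ℂ}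
    (hφ : IsClassFunction G φ) (c : ℂ) (h : ∀ n ∈ Nz x, n ∉ zpowers x → φ n = c) :
    (K.f * p : ℂ) * classInner φ (indN (1 : Nz x →* ℂˣ)) = ∑ j : ZMod p, φ (x ^ j.val) + c * (K.f * p - p) := by
  have h1 : ∑ n : Nz x, (φ n - c) = ∑ j : ZMod p, (φ (x ^ j.val) - c) := by
    rw [← K.sum_subgroupOf (L := Nz x) le_normalizer fun g => φ g - c,
      ← sum_subtype (univ.filter (· ∈ (zpowers x).subgroupOf (Nz x))) (by simp) fun n : Nz x => φ n - c]
    refine (sum_subset (subset_univ _) fun n _ hn => ?_).symm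
    rw [h n n.2 fun e => hn (mem_filter.2 ⟨mem_univ _, mem_subgroupOf.2 e⟩), sub_self]
  have h2 : (Nat.card (Nz x) : ℂ) = K.f * p := by rw [K.card_N_self hC, Nat.cast_mul]
  rw [sum_sub_distrib, sum_sub_distrib, sum_const, sum_const, card_univ, card_univ, ZMod.card,
    ← Nat.card_eq_fintype_card, nsmul_eq_mul, nsmul_eq_mul, h2] at h1
  rw [frobenius_reciprocity' _ hφ, classInner_def, ← h2, mul_inv_cancel_left₀ (natCard_subgroup_ne_zero _), h2]
  simp only [MonoidHom.one_apply, Units.val_one, map_one, mul_one]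
  linear_combination h1

end F2A

open F2A

theorem f2a (S : St G p) (h : S.F2) : S.Orth := by
  intro ψ hψ ψ' hψ' dψ dψ' k
  obtain ⟨χ, Ψ, χ1, χΨ, oΨ, hX, sχ, dχ, -, hΨ⟩ := h.X
  have hC : S.C ≤ zpowers S.x := h.self
  have b3 := h.three
  have hf : S.K.f = S.b := h.e
  have hpb : (p : ℂ) = S.b ^ 2 + S.b + 1 := by exact_mod_cast congrArg (Nat.cast : ℕ → ℂ) h.hp
  have bp : (S.b * p : ℂ) ≠ 0 := mul_ne_zero (Nat.cast_ne_zero.2 (by omega)) (Nat.cast_ne_zero.2 hp.out.ne_zero)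
  have χX : χ ∈ S.D.X := hX ▸ mem_insert_of_mem (mem_insert_self _ _)
  have ΨX : ∀ η ∈ Ψ, η ∈ S.D.X := fun η e => hX ▸ mem_insert_of_mem (mem_insert_of_mem e)
  have inΨ : ∀ η ∈ S.D.X, dg η = S.b * (S.b + 1) → η ∈ Ψ := fun η e d => by
    rw [hX, mem_insert, mem_insert] at e
    rcases e with rfl | rfl | e
    · rw [dg, coe_irrOne, charDegree_const_one] at d
      nlinarith
    · rw [dχ] at d
      nlinarith [Nat.mul_le_mul_left (S.b * S.b) b3]
    · exact e
  have sumX : ∀ F : IrrCharacter G → ℂ, ∑ η ∈ S.D.X, S.D.s η * F η = F (irrOne G) + F χ - ∑ η ∈ Ψ, F η := fun F => by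
    rw [hX, sum_insert (by simp [χ1.symm, oΨ]), sum_insert χΨ, S.s1, sχ,
      sum_congr rfl fun η e => by rw [(hΨ η e).1], ← mul_sum]
    push_cast; ring
  have vΨ : ∀ η ∈ Ψ, ∀ n ∈ Nz S.x, n ∉ zpowers S.x → (η : G → ℂ) n = 0 := fun η e n hn hn' => by
    obtain ⟨γ, hγ, e1, e2, -⟩ := S.K.exists_fixed_part hC η.2.isCharacter
    have h0 : γ = 0 := hγ.eq_zero_of_one_eq_zero ((mul_eq_zero.1 (e1.trans (by
      rw [S.D.sum_X_P (ΨX η e), (hΨ η e).1, show charDegree (η : G → ℂ) = _ from (hΨ η e).2, hpb]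
      push_cast; ring))).resolve_left (Nat.cast_ne_zero.2 hp.out.ne_zero))
    rw [← e2 ⟨n, hn⟩ hn', h0, Pi.zero_apply]
  have ob : ∀ n ∈ Nz S.x, n ∉ zpowers S.x → orderOf n ∣ S.b := fun n hn hn' =>
    hf ▸ orderOf_dvd_of_pow_eq_one (S.K.pow_f_eq_one hC hn hn')
  have vχ : ∀ n ∈ Nz S.x, n ∉ zpowers S.x → (χ : G → ℂ) n = 0 := fun n hn hn' => by
    obtain ⟨l, hl, ho⟩ := Nat.exists_prime_and_dvd (n := orderOf n) fun e => hn' (orderOf_eq_one_iff.1 e ▸ one_mem _)
    have lb := ho.trans (ob n hn hn')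
    refine irr_eq_zero_of_defect_zero hl χ.2 (d := S.b ^ 3) (k := p * (S.b + 1) ^ 2)
      (by rw [← χ.2.cast_charDegree]; exact congrArg _ dχ) (by rw [h.card]; ring) (fun e => hl.not_dvd_one ?_) ho
    rcases (Nat.Prime.dvd_mul hl).1 e with e | e
    · rw [h.hp] at e
      exact (Nat.dvd_add_right (dvd_add (lb.pow two_ne_zero) lb)).1 e
    · exact (Nat.dvd_add_right lb).1 (hl.dvd_of_dvd_pow e)
  have vμ : ∀ l, ∀ n ∈ Nz S.x, n ∉ zpowers S.x → (S.D.μ l : G → ℂ) n = 1 := fun l n hn hn' => by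
    have h1 := S.D.reg_rel l (g := n) fun e => by
      have := Nat.le_of_dvd (by omega) (e.trans (ob n hn hn'))
      have := h.hp
      nlinarith
    rw [sumX fun η => (η : G → ℂ) n, h.ε, vχ n hn hn', sum_eq_zero fun η e => vΨ η e n hn hn'] at h1
    simpa using h1
  have iχ : classInner (χ : G → ℂ) (indN (1 : Nz S.x →* ℂˣ)) = 1 := by
    have := inner_pi S.K hC χ.2.isClassFunction 0 vχ
    rw [S.D.sum_X_P χX, sχ, show charDegree (χ : G → ℂ) = _ from dχ, hf] at this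
    refine mul_left_cancel₀ bp (this.trans ?_)
    rw [hpb]; push_cast; ring
  have iμ : ∀ l, classInner (S.D.μ l : G → ℂ) (indN (1 : Nz S.x →* ℂˣ)) = 1 := fun l => by
    have := inner_pi S.K hC (S.D.μ l).2.isClassFunction 1 (vμ l)
    rw [S.D.sum_μ_P, h.ε, S.D.deg_μ l 1, show charDegree (S.D.μ 1 : G → ℂ) = _ from h.θ, hf] at this
    refine mul_left_cancel₀ bp (this.trans ?_)
    rw [hpb]; push_cast; ring
  have hρ := isCharacter_sub_sum (isCharacter_indN (1 : Nz S.x →* ℂˣ)) (insert (irrOne G) (insert χ S.D.Y))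
    fun η e => by
      rw [mem_insert, mem_insert, S.D.mem_Y] at e
      rcases e with rfl | rfl | ⟨l, rfl⟩
      · rw [inner_indN_one, if_pos rfl]; exact one_ne_zero
      · rw [← conj_classInner, iχ, map_one]; exact one_ne_zero
      · rw [← conj_classInner, iμ, map_one]; exact one_ne_zero
  have ψΨ := inΨ ψ hψ dψ
  have ψΨ' := inΨ ψ' hψ' dψ'
  set φ : G → ℂ := fun g => (ψ : G → ℂ) g * (starRingEnd ℂ) ((ψ' : G → ℂ) g) with hφd
  have hφ : IsCharacter G φ := ψ.2.isCharacter.mul ψ'.2.isCharacter.conj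
  have sφ : ∀ g, p ∣ orderOf g → φ g = (irrOne G : G → ℂ) g := fun g hg => by
    simp [hφd, S.D.X_sing_one hψ hg, S.D.X_sing_one hψ' hg, (hΨ ψ ψΨ).1, (hΨ ψ' ψΨ').1]
  have iφ : classInner φ (indN (1 : Nz S.x →* ℂˣ)) = S.b + 1 := by
    have := inner_pi S.K hC hφ.isClassFunction 0 fun n hn hn' => by rw [hφd]; simp [vΨ ψ ψΨ n hn hn']
    rw [sum_zmod_units, sum_congr rfl fun j _ => sφ _ (S.K.sing_pow_val j), hf] at this
    refine mul_left_cancel₀ bp (this.trans ?_)
    simp only [hφd, ZMod.val_zero, pow_zero, ← ψ.2.cast_charDegree, ← ψ'.2.cast_charDegree, map_natCast,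
      show charDegree (ψ : G → ℂ) = _ from dψ, show charDegree (ψ' : G → ℂ) = _ from dψ', coe_irrOne, sum_const,
      card_univ, ZMod.card_units, nsmul_eq_mul, Nat.cast_sub hp.out.one_le]
    rw [hpb]; push_cast; ring
  choose m hm using fun η : IrrCharacter G => hφ.exists_nat_classInner η.2.isCharacter
  have iA : ∀ l, classInner φ (S.D.μ l : G → ℂ) = m (irrOne G) + m χ - (∑ η ∈ Ψ, m η : ℕ) - 1 := fun l => by
    have := S.D.inner_A_eq φ l
    rw [S.K.inner_A_congr sφ, S.K.inner_one_A, h.ε, sumX fun η => classInner φ (η : G → ℂ)] at this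
    simp only [hm] at this ⊢
    push_cast at this ⊢
    linear_combination -this
  obtain ⟨r, hr⟩ := hφ.exists_nat_classInner hρ
  rw [classInner_sub_right, classInner_sum_right, iφ, sum_insert (by
      rw [mem_insert]; exact fun e => e.elim χ1.symm fun e => S.D.notMem_X_of_mem_Y e S.h1),
    sum_insert fun e => S.D.notMem_X_of_mem_Y e χX, sum_congr rfl (g := fun _ => (m (S.D.μ k) : ℂ)) fun η e => by
      obtain ⟨l, rfl⟩ := S.D.mem_Y.1 e
      rw [← hm, iA, iA], sum_const, S.D.card_Y, show (S.K.E (irrOne S.C)).index = _ from h.t, hm, hm] at hr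
  have h1 := iA k
  rw [hm] at h1 ⊢
  have h2 : S.b + 1 = r + m (S.D.μ k) + ∑ η ∈ Ψ, m η + 1 + (S.b + 1) * m (S.D.μ k) := by
    refine Nat.cast_injective (R := ℂ) ?_
    rw [nsmul_eq_mul] at hr
    push_cast at h1 hr ⊢
    linear_combination hr - h1
  rcases Nat.eq_zero_or_pos (m (S.D.μ k)) with e | e
  · rw [e, Nat.cast_zero]
  · have := Nat.mul_le_mul_left (S.b + 1) e
    omega

end CL.NP
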