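/-
Project NP: family (ii) with orthogonality forces `b = 3`.
-/
import Cfsg.Agent.NP.Defs
import Cfsg.Agent.Char.PiSection

set_option autoImplicit false

namespace CL.NP

open Finset CL.Inv.PO CL.Blk CL.Char Cfsg Subgroup
open scoped Classical commutatorElement ComplexConjugate

universe u

namespace F2B

theorem key {G : Type*} [Fintype G] (o : G) (T Φ E : G → ℂ) (b : ℝ) (hb : 4 ≤ b) (n : ℕ) (N : ℝ)
    (hN : N = (b ^ 2 + b + 1) * b ^ 3 * (b + 1) ^ 2)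
    (h1 : T o = (b + 1) ^ 3 ∧ Φ o = (b - 2) * (b * (b + 1)) ∧ E o = 0)
    (h2 : ∀ g, g ≠ o → (T g = -1 ∧ Φ g = -(b - 2) ∧ E g = b ^ 2 + b + 1) ∨
      (E g = 0 ∧ ∃ m, T g = (b + 1) * m ∧ (m = 0 ∨ Φ g = 1 - m)))
    (s1 : ∑ g, T g * conj (T g) * conj (T g) = N * n) (s2 : ∑ g, Φ g * conj (Φ g) * conj (T g) = 0)
    (s3 : ∑ g, T g * conj (T g) = N * (b + 1)) (s4 : ∑ g, conj (T g) = 0) (s5 : ∑ g, E g = N * (b + 1)) :
    False := by
  let H : G → ℂ := fun g => ((b : ℂ) ^ 2 + b + 1) * (T g * conj (T g) * conj (T g) -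
    (b + 1) ^ 2 * (Φ g * conj (Φ g) * conj (T g)) - 2 * (b + 1) * (T g * conj (T g)) + (b + 1) ^ 2 * conj (T g)) -
    ((b + 1) ^ 2 * (b - 2) ^ 2 - (b + 2) ^ 2) * E g
  have hs : ∑ g, H g = (((b ^ 2 + b + 1) * (N * n - 2 * (b + 1) * (N * (b + 1))) -
      ((b + 1) ^ 2 * (b - 2) ^ 2 - (b + 2) ^ 2) * (N * (b + 1)) : ℝ) : ℂ) := by
    simp only [H, sum_sub_distrib, sum_add_distrib, ← mul_sum, s1, s2, s3, s4, s5]
    push_cast
    ring
  have ho : H o = (((b ^ 2 + b + 1) * ((b + 1) ^ 9 - (b + 1) ^ 7 * (b - 2) ^ 2 * b ^ 2 - 2 * (b + 1) ^ 7 +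
      (b + 1) ^ 5) : ℝ) : ℂ) := by
    simp only [H, h1.1, h1.2.1, h1.2.2, map_mul, map_pow, map_add, map_sub, map_one, Complex.conj_ofReal,
      map_ofNat]
    push_cast
    ring
  have hg : ∀ g, g ≠ o → (H g).re ≤ 0 := by
    intro g hgo
    rcases h2 g hgo with ⟨e1, e2, e3⟩ | ⟨e1, m, e2, rfl | e3⟩
    · have : H g = 0 := by
        simp only [H, e1, e2, e3, map_neg, map_sub, map_one, Complex.conj_ofReal, map_ofNat]
        ring
      rw [this]
      exact le_rfl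
    · have : H g = 0 := by
        simp only [H, e1, e2, mul_zero, map_zero]
        ring
      rw [this]
      exact le_rfl
    · have : H g = (((b ^ 2 + b + 1) * (b + 1) ^ 3 : ℝ) : ℂ) * (conj m * (conj m - m)) := by
        simp only [H, e1, e2, e3, map_mul, map_add, map_sub, map_one, Complex.conj_ofReal]
        push_cast
        ring
      rw [this, Complex.re_ofReal_mul]
      have h3 : (conj m * (conj m - m)).re = -(2 * m.im ^ 2) := by
        simp only [Complex.mul_re, Complex.sub_re, Complex.sub_im, Complex.conj_re, Complex.conj_im]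
        ring
      rw [h3]
      have : 0 ≤ (b ^ 2 + b + 1) * (b + 1) ^ 3 := by positivity
      have : 0 ≤ 2 * m.im ^ 2 := by positivity
      nlinarith
  have hle : (∑ g, H g).re ≤ (H o).re := by
    rw [Complex.re_sum, ← Finset.add_sum_erase _ _ (mem_univ o)]
    have := Finset.sum_nonpos (s := univ.erase o) (f := fun g => (H g).re) fun g hg' => hg g (ne_of_mem_erase hg')
    linarith
  rw [hs, ho, Complex.ofReal_re, Complex.ofReal_re, hN] at hle
  obtain ⟨c, rfl⟩ : ∃ c, b = 4 + c := ⟨b - 4, by ring⟩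
  have hc : 0 ≤ c := by linarith
  have hn : (0 : ℝ) ≤ n := n.cast_nonneg
  have k1 : 0 ≤ ((4 + c) ^ 2 + (4 + c) + 1) * ((((4 + c) ^ 2 + (4 + c) + 1) * (4 + c) ^ 3 * (4 + c + 1) ^ 2) * n) := by
    positivity
  have k2 : 0 < ((4 + c) ^ 2 + (4 + c) + 1) * (4 + c + 1) ^ 3 * (8064 + 44448 * c + 59112 * c ^ 2 + 37694 * c ^ 3 +
      13792 * c ^ 4 + 3070 * c ^ 5 + 413 * c ^ 6 + 31 * c ^ 7 + c ^ 8) := by
    positivity
  linarith

end F2B

variable {G : Type u} [Group G] [Fintype G] {p : ℕ} [Fact p.Prime] (S : St G p)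

theorem f2b (h : S.F2) (ho : S.Orth) : S.b = 3 := by
  by_contra hb3
  have hb : 4 ≤ S.b := by have := h.three; omega
  obtain ⟨χ, Ψ, hχ1, hχΨ, h1Ψ, hX, sχ, dχ, cΨ, hΨ⟩ := h.X
  have hp := (Fact.out : p.Prime)
  have hN : (Nat.card G : ℂ) ≠ 0 := Nat.cast_ne_zero.2 Nat.card_pos.ne'
  have hsum : ∀ φ ψ : G → ℂ, ∑ g, φ g * conj (ψ g) = Nat.card G * classInner φ ψ := fun φ ψ => by
    rw [classInner_def, mul_inv_cancel_left₀ hN]
  have hχX : χ ∈ S.D.X := by simp [hX]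
  have hΨX : ∀ ψ ∈ Ψ, ψ ∈ S.D.X := fun ψ hψ => by simp [hX, hψ]
  have ht : (S.K.E (irrOne S.C)).index = S.b + 1 := h.t
  have hpc : (p : ℂ) = (S.b : ℂ) ^ 2 + S.b + 1 := by exact_mod_cast h.hp
  have cΨ' : (Ψ.card : ℂ) = S.b - 2 := by
    rw [← cΨ]; push_cast; ring
  set T : G → ℂ := ∑ μ ∈ S.D.Y, (μ : G → ℂ) with hT
  set Φ : G → ℂ := ∑ ψ ∈ Ψ, (ψ : G → ℂ) with hΦ
  have Tc : IsCharacter G T := isCharacter_sum _ _ fun μ _ => μ.2.isCharacter
  have Treg : ∀ g, ¬ p ∣ orderOf g → T g = (S.b + 1) * (S.D.μ 1 : G → ℂ) g := fun g hg => by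
    rw [hT, Finset.sum_apply, S.D.sum_Y_reg 1 hg, ht]; push_cast; ring
  have Tsing : ∀ g, p ∣ orderOf g → T g = -1 := fun g hg => by
    rw [hT, Finset.sum_apply, S.D.sum_Y_sing hg, h.ε]; simp
  have Φsing : ∀ g, p ∣ orderOf g → Φ g = -(S.b - 2) := fun g hg => by
    rw [hΦ, Finset.sum_apply, sum_congr rfl fun ψ hψ => (S.D.X_sing_one (hΨX ψ hψ) hg).trans (by rw [(hΨ ψ hψ).1])]
    simp [cΨ']
  have rel : ∀ g, ¬ p ∣ orderOf g → (S.D.μ 1 : G → ℂ) g = 1 + (χ : G → ℂ) g - Φ g := fun g hg => by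
    have := S.D.reg_rel 1 hg
    rw [hX, sum_insert (by simp [hχ1.symm, h1Ψ]), sum_insert hχΨ, S.s1, sχ, h.ε,
      sum_congr rfl fun ψ hψ => by rw [(hΨ ψ hψ).1]] at this
    simp only [Int.cast_one, one_mul, irrOne_apply, Int.cast_neg, neg_mul, sum_neg_distrib] at this
    rw [this, hΦ, Finset.sum_apply]
    ring
  have r1 : ¬ p ∣ orderOf (1 : G) := by simpa using hp.ne_one
  have μ1 : (S.D.μ 1 : G → ℂ) 1 = ((S.b + 1) ^ 2 : ℕ) := by rw [← (S.D.μ 1).2.cast_charDegree, ← h.θ]; rfl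
  have χ1 : (χ : G → ℂ) 1 = (S.b ^ 3 : ℕ) := by rw [← χ.2.cast_charDegree, ← dχ]
  have inXY : ∀ ψ ∈ S.D.X, classInner (ψ : G → ℂ) T = 0 := fun ψ hψ => by
    rw [hT, classInner_sum_right]
    refine sum_eq_zero fun μ hμ => ?_
    rw [classInner_irr, if_neg]
    rintro rfl
    exact S.D.notMem_X_of_mem_Y hμ hψ
  obtain ⟨n, hn⟩ := (Tc.mul Tc.conj).exists_nat_classInner Tc
  refine F2B.key 1 T Φ (fun g => (S.b + 1) * (1 + (χ : G → ℂ) g - Φ g) - T g) S.b (by exact_mod_cast hb) n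
    (Nat.card G) ?_ ⟨?_, ?_, ?_⟩ ?_ ?_ ?_ ?_ ?_ ?_
  · rw [h.card]
    have : (p : ℝ) = (S.b : ℝ) ^ 2 + S.b + 1 := by exact_mod_cast h.hp
    push_cast
    rw [this]
  · rw [Treg 1 r1, μ1]; push_cast; ring
  · rw [hΦ, Finset.sum_apply, sum_congr rfl fun ψ hψ => (ψ.2.cast_charDegree.symm.trans
      (congrArg Nat.cast (hΨ ψ hψ).2))]
    simp [cΨ']
  · simp only [Treg 1 r1, rel 1 r1, sub_self]
  · intro g hg1
    by_cases hg : p ∣ orderOf g
    · refine Or.inl ⟨Tsing g hg, by simpa using Φsing g hg, ?_⟩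
      simp only [Tsing g hg, Φsing g hg, S.D.X_sing_one hχX hg, sχ]
      push_cast
      ring
    · refine Or.inr ⟨by simp only [Treg g hg, rel g hg, sub_self], (S.D.μ 1 : G → ℂ) g,
        by simpa using Treg g hg, ?_⟩
      by_cases hm : (S.D.μ 1 : G → ℂ) g = 0
      · exact Or.inl hm
      right
      obtain ⟨l, hl, hlg⟩ := Nat.exists_prime_and_dvd (n := orderOf g) (by simpa using hg1)
      have hlp : ¬ l ∣ p := fun e => hg (((Nat.prime_dvd_prime_iff_eq hl hp).1 e) ▸ hlg)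
      have hlb : l ∣ S.b := by
        by_contra hlb
        refine hm (irr_eq_zero_of_defect_zero hl (S.D.μ 1).2 μ1 (k := p * S.b ^ 3) (by rw [h.card]; ring) ?_ hlg)
        intro e
        rcases (Nat.Prime.dvd_mul hl).1 e with e | e
        exacts [hlp e, hlb (hl.dvd_of_dvd_pow e)]
      have hχ0 : (χ : G → ℂ) g = 0 := by
        refine irr_eq_zero_of_defect_zero hl χ.2 χ1 (k := p * (S.b + 1) ^ 2) (by rw [h.card]; ring) ?_ hlg
        intro e
        rcases (Nat.Prime.dvd_mul hl).1 e with e | e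
        · exact hlp e
        · exact hl.one_lt.ne' (Nat.dvd_one.1 ((Nat.dvd_add_right hlb).1 (hl.dvd_of_dvd_pow e)))
      rw [rel g hg, hχ0]
      ring
  · rw [Complex.ofReal_natCast, ← hn, ← hsum]
    rfl
  · rw [hsum (fun g => Φ g * conj (Φ g)) T]
    have e : (fun g => Φ g * conj (Φ g)) =
        ∑ ψ ∈ Ψ, ∑ ψ' ∈ Ψ, fun g => (ψ : G → ℂ) g * conj ((ψ' : G → ℂ) g) := by
      ext g
      simp only [hΦ, Finset.sum_apply, map_sum, sum_mul_sum]
    rw [e, classInner_sum_left, sum_eq_zero, mul_zero]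
    intro ψ hψ
    rw [classInner_sum_left]
    refine sum_eq_zero fun ψ' hψ' => ?_
    rw [hT, classInner_sum_right]
    refine sum_eq_zero fun μ hμ => ?_
    obtain ⟨k, rfl⟩ := S.D.mem_Y.1 hμ
    exact ho ψ (hΨX ψ hψ) ψ' (hΨX ψ' hψ') (hΨ ψ hψ).2 (hΨ ψ' hψ').2 k
  · rw [hsum, hT, classInner_sum_left]
    have e : ∀ μ ∈ S.D.Y, classInner (μ : G → ℂ) (∑ ν ∈ S.D.Y, (ν : G → ℂ)) = 1 := fun μ hμ => by
      simp only [classInner_sum_right, classInner_irr, sum_ite_eq, if_pos hμ]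
    rw [sum_congr rfl e, sum_const, S.D.card_Y, ht]
    simp
  · have := hsum (irrOne G : G → ℂ) T
    rw [inXY _ S.h1] at this
    simpa using this
  · have z : ∀ ψ : IrrCharacter G, ψ ≠ irrOne G → ∑ g, (ψ : G → ℂ) g = 0 := fun ψ hψ => by
      have := hsum (ψ : G → ℂ) (irrOne G : G → ℂ)
      rw [classInner_irr, if_neg hψ] at this
      simpa using this
    have zT : ∑ g, T g = 0 := by
      simp only [hT, Finset.sum_apply]
      rw [sum_comm]
      exact sum_eq_zero fun μ hμ => z μ fun e => S.D.notMem_X_of_mem_Y hμ (e ▸ S.h1)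
    have zΦ : ∑ g, Φ g = 0 := by
      simp only [hΦ, Finset.sum_apply]
      rw [sum_comm]
      exact sum_eq_zero fun ψ hψ => z ψ fun e => h1Ψ (e ▸ hψ)
    simp only [sum_sub_distrib, sum_add_distrib, ← mul_sum, zT, zΦ, z χ hχ1, sum_const, card_univ]
    simp [mul_comm]

end CL.NP
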