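/-
Project NP (S4340, S4338): the Sylow numbers of the groups in the list.
-/
import Cfsg.Agent.NP.Defs
import Cfsg.Agent.Fgs.SylHall
import Cfsg.Agent.Cls.SL2Tori

set_option autoImplicit false

namespace CL.NP

open Cfsg Subgroup

universe u

namespace FINx

theorem res {p r m x y : ℕ} (hr : r < p) (h : m + p * x = r + p * y) : ∃ j, m = r + p * j := by
  have := congrArg (· % p) h
  simp only [Nat.add_mul_mod_self_left] at this
  rw [Nat.mod_eq_of_lt hr] at this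
  exact ⟨m / p, by rw [← this, Nat.mod_add_div]⟩

theorem one {p n : ℕ} (hp : 1 < p) (h : n ≡ 1 [MOD p]) : ∃ a, n = 1 + p * a :=
  ⟨n / p, by rw [← Nat.mod_eq_of_lt hp, ← h, Nat.mod_add_div]⟩

theorem split {p r y a : ℕ} (hr : r < p) (h : 1 + p * a ∣ r + p * y) :
    ∃ j, (1 + p * a) * (r + p * j) = r + p * y := by
  obtain ⟨m, hm⟩ := h
  obtain ⟨j, rfl⟩ := res (m := m) (x := a * m) hr (by rw [hm]; ring)
  exact ⟨j, hm.symm⟩

theorem big {p r a j : ℕ} (ha : a ≠ 0) (hj : j ≠ 0) : (1 + p * a) * (r + p) ≤ (1 + p * a) * (r + p * j) ∧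
    (1 + p) * (r + p) ≤ (1 + p * a) * (r + p) :=
  ⟨Nat.mul_le_mul_left _ (by have := Nat.le_mul_of_pos_right p (Nat.pos_of_ne_zero hj); omega),
    Nat.mul_le_mul_right _ (by have := Nat.le_mul_of_pos_right p (Nat.pos_of_ne_zero ha); omega)⟩

variable {G : Type u} [Group G] [Finite G] {p : ℕ} [Fact p.Prime]

theorem dv (hp : p ∣ Nat.card G) {M : ℕ} (h : Nat.card G ∣ p * M) : Nat.card (Sylow p G) ∣ M := by
  obtain ⟨P⟩ : Nonempty (Sylow p G) := inferInstance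
  refine Nat.dvd_of_mul_dvd_mul_left (Fact.out : p.Prime).pos (dvd_trans ?_ h)
  rw [← (P : Subgroup G).card_mul_index]
  exact mul_dvd_mul (P.dvd_card_of_dvd_card hp) P.card_dvd_index

omit [Finite G] in
theorem l2 {q : ℕ} (h : IsL 2 q G) : Nat.card G ∣ q * (q ^ 2 - 1) := by
  obtain ⟨F, _, _, rfl, ⟨e⟩⟩ := h
  rw [Nat.card_congr e.toEquiv, ← CL.SL2.card_psl_mul]
  exact dvd_mul_right _ _

omit [Finite G] in
theorem l3 (h : IsL 3 3 G) : Nat.card G ∣ 13 * 432 := by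
  obtain ⟨F, _, _, hF, ⟨e⟩⟩ := h
  have h1 := CL.SLn.card_SL_mul (ι := Fin 3) (F := F)
  rw [CL.SLn.card_GL, hF, Fintype.card_fin, Fin.prod_univ_three] at h1
  have h2 : Nat.card (Matrix.SpecialLinearGroup (Fin 3) F) = 13 * 432 := by
    norm_num at h1; omega
  rw [Nat.card_congr e.toEquiv, ← h2, ← CL.SLn.card_PSL_mul]
  exact dvd_mul_left _ _

theorem cls (hp : p ∣ Nat.card G) (h : Lst G p) : Nat.card (Sylow p G) = 1 ∨ Nat.card (Sylow p G) = 1 + p ∨
    (p = 13 ∧ (Nat.card (Sylow p G) = 27 ∨ Nat.card (Sylow p G) = 144)) ∨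
    (3 < p ∧ (∃ k : ℕ, p = 2 ^ k + 1) ∧ 2 * Nat.card (Sylow p G) = 2 + (p - 3) * p) ∨
    (3 < p ∧ (∃ k : ℕ, p + 1 = 2 ^ k) ∧ 2 * Nat.card (Sylow p G) = 2 + (p + 3) * p) := by
  have p1 := (Fact.out : p.Prime).one_lt
  have md := card_sylow_modEq_one p G
  obtain ⟨a, ha⟩ := one p1 md
  by_cases a0 : a = 0
  · exact Or.inl (by rw [ha, a0, mul_zero, add_zero])
  rcases h with h | ⟨rfl, h⟩ | ⟨p3, k, h⟩ | ⟨p3, k, h⟩
  · have d := dv hp (l2 h)
    obtain ⟨s, rfl⟩ : ∃ s, p = s + 1 := ⟨p - 1, by omega⟩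
    rw [ha, show (s + 1) ^ 2 - 1 = s + (s + 1) * s from Nat.sub_eq_of_eq_add (by ring)] at d
    obtain ⟨j, hj⟩ := split (by omega) d
    by_cases j0 : j = 0
    · subst j0
      have : (s + 1) * s * a = (s + 1) * s * 1 := by linarith
      rw [Nat.eq_of_mul_eq_mul_left (Nat.mul_pos (by omega) (by omega)) this, mul_one] at ha
      exact Or.inr (Or.inl ha)
    · have := big (p := s + 1) (r := s) a0 j0
      nlinarith
  · have d := dv hp (l3 h)
    have key : ∀ n < 433, n ∣ 432 → n % 13 = 1 → n = 1 ∨ n = 27 ∨ n = 144 := by decide +kernel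
    rcases key _ (Nat.lt_succ_of_le (Nat.le_of_dvd (by decide) d)) d md with e | e
    exacts [Or.inl e, Or.inr (Or.inr (Or.inl ⟨rfl, e⟩))]
  · have d0 := l2 h
    obtain ⟨s, rfl⟩ : ∃ s, p = s + 3 := ⟨p - 3, by omega⟩
    rw [show s + 3 - 1 = s + 2 from rfl, show (s + 2) ^ 2 - 1 = (s + 3) * (s + 1) from Nat.sub_eq_of_eq_add (by ring),
      show (s + 2) * ((s + 3) * (s + 1)) = (s + 3) * (2 + (s + 3) * s) by ring] at d0
    have d := dv hp d0
    rw [ha] at d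
    obtain ⟨j, hj⟩ := split (by omega) d
    by_cases j0 : j = 0
    · subst j0
      refine Or.inr (Or.inr (Or.inr (Or.inl ⟨p3, k, ?_⟩)))
      rw [ha, Nat.add_sub_cancel]
      linarith
    · have := big (p := s + 3) (r := 2) a0 j0
      nlinarith
  · have d0 := l2 h
    rw [show (p + 1) ^ 2 - 1 = p * (p + 2) from Nat.sub_eq_of_eq_add (by ring),
      show (p + 1) * (p * (p + 2)) = p * (2 + p * (p + 3)) by ring] at d0
    have d := dv hp d0
    rw [ha] at d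
    obtain ⟨j, hj⟩ := split (by omega) d
    by_cases j0 : j = 0
    · subst j0
      refine Or.inr (Or.inr (Or.inr (Or.inr ⟨p3, k, ?_⟩)))
      rw [ha]
      linarith
    · have := (big (p := p) (r := 2) a0 j0).1
      rw [hj, show 2 + p * (p + 3) = (1 + p * 1) * (2 + p) by ring] at this
      have h1 : p * a ≤ p * 1 := by have := Nat.le_of_mul_le_mul_right this (by omega); omega
      have h2 : a = 1 := by have := Nat.le_of_mul_le_mul_left h1 (by omega); omega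
      exact Or.inr (Or.inl (by rw [ha, h2, mul_one]))

end FINx

open FINx

theorem conv {G : Type u} [Group G] [Finite G] {p : ℕ} [Fact p.Prime] (hp : p ∣ Nat.card G) (h : Lst G p) :
    Nat.card (Sylow p G) < p ^ 2 := by
  have p2 := (Fact.out : p.Prime).two_le
  rcases cls hp h with e | e | ⟨rfl, e | e⟩ | ⟨p3, -, e⟩ | ⟨p3, -, e⟩
  · nlinarith
  · nlinarith
  · rw [e]; decide
  · rw [e]; decide
  · have := Nat.mul_le_mul_right p (Nat.sub_le p 3)
    nlinarith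
  · nlinarith

theorem red (hM : Main.{u}) {G : Type u} [Group G] [Finite G] (p : ℕ) [Fact p.Prime]
    (hn : Nat.card (Sylow p G) < p ^ 2) :
    (∃ q k : ℕ, q.Prime ∧ Nat.card (Sylow p G) = q ^ k) ∨
    (p = 13 ∧ Nat.card (Sylow p G) = 144) ∨
    (p ≠ 2 ∧ (¬ ∃ k : ℕ, p + 1 = 2 ^ k) ∧ Nat.card (Sylow p G) = 1 + p) ∨
    (3 < p ∧ (∃ k : ℕ, p = 2 ^ k + 1) ∧ 2 * Nat.card (Sylow p G) = 2 + (p - 3) * p) ∨
    (3 < p ∧ (∃ k : ℕ, p + 1 = 2 ^ k) ∧ 2 * Nat.card (Sylow p G) = 2 + (p + 3) * p) := by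
  refine or_iff_not_imp_left.2 fun h0 => ?_
  have hpp : ∀ q k : ℕ, q.Prime → q ^ k ≠ Nat.card (Sylow p G) := fun q k hq e => h0 ⟨q, k, hq, e.symm⟩
  have n1 : Nat.card (Sylow p G) ≠ 1 := fun e => hpp 2 0 Nat.prime_two e.symm
  have p1 := (Fact.out : p.Prime).one_lt
  obtain ⟨S, _, _, hS, e⟩ := CL.Fgs.exists_simple_card_sylow n1 hpp (fun a b ha hb e => by
    obtain ⟨a, rfl⟩ := one p1 ha
    obtain ⟨b, rfl⟩ := one p1 hb
    by_cases a0 : a = 0
    · exact Or.inr (by simpa [a0] using e)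
    by_cases b0 : b = 0
    · exact Or.inl (by simpa [b0] using e)
    have := big (p := p) (r := 1) a0 b0
    nlinarith) G rfl
  have n2 : Nat.card (Sylow p S) ≠ 1 := e ▸ n1
  have d := CL.Fgs.dvd_card_of_card_sylow_ne_one n2
  have := cls d (hM S (CL.Fgs.not_isMulCommutative_of_card_sylow_ne_one n2) p d (e ▸ hn))
  rw [e] at this
  rcases this with e1 | e1 | ⟨p13, e1 | e1⟩ | e1
  · exact absurd e1 n1
  · refine Or.inr (Or.inl ⟨fun p2 => hpp 3 1 Nat.prime_three (by omega), fun ⟨k, hk⟩ => hpp 2 k Nat.prime_two (by omega), e1⟩)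
  · exact absurd e1.symm (hpp 3 3 Nat.prime_three)
  · exact Or.inl ⟨p13, e1⟩
  · exact Or.inr (Or.inr e1)

end CL.NP
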