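/-
Project NP: the structure of `C(D)` contradicts the action on the remaining Sylow subgroups.
-/
import Cfsg.Agent.NP.Defs

set_option autoImplicit false

namespace CL.NP

open Finset CL.Inv.PO CL.Blk CL.Char Cfsg Subgroup
open scoped Classical commutatorElement

universe u

variable {G : Type u} [Group G] [Finite G] {p : ℕ} [Fact p.Prime]

namespace K1B

open MulAction CL.Fgs

variable {D J : Subgroup G} {γ : Sylow p G} {y : G}

theorem pw (h : GH G p) (hy : p ∣ orderOf y) :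
    ∃ u ∈ zpowers y, ∃ Q : Sylow p G, orderOf u = p ∧ (Q : Subgroup G) = zpowers u := by
  have ho := orderOf_pow_orderOf_div (orderOf_pos y).ne' hy
  obtain ⟨Q, hQ⟩ := (IsPGroup.of_card (n := 1) (G := zpowers (y ^ (orderOf y / p)))
    (by rw [Nat.card_zpowers, ho, pow_one])).exists_le_sylow
  exact ⟨_, pow_mem (mem_zpowers y) _, Q, ho, sylow_eq_zpowers_of_mem (h.card Q) ho (hQ (mem_zpowers _))⟩

theorem l1 (h : GH G p) (hγ : γ ∉ Fx p D) (hy : y ∈ centralizer (D : Set G)) (hf : y ∈ stabilizer G γ) :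
    ¬ p ∣ orderOf y := fun k => by
  obtain ⟨u, hu, Q, ho, hQ⟩ := pw h k
  have : γ ∈ fixedBy (Sylow p G) u := zpowers_le.2 hf hu
  rw [fixedBy_sylow_eq_singleton ho hQ] at this
  obtain rfl : γ = Q := this
  exact hγ (le_centralizer_iff.1 (hQ ▸ zpowers_le.2 (zpowers_le.2 hy hu)))

omit [Finite G] in
theorem l2 (h : GH G p) (ho : Out p D) (hγ : γ ∉ Fx p D) {X : Subgroup G} (h1 : X ≤ centralizer (D : Set G))
    (h2 : X ≤ stabilizer G γ) :
    ∃ z ∈ X, ∃ m, Nat.card X = m * Nat.card (D ⊓ X : Subgroup G) ∧ ∀ k : ℕ, z ^ k ∈ D → m ∣ k := by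
  have h3 : X ≤ normalizer ((γ : Subgroup G) : Set G) := fun x hx => Sylow.smul_eq_iff_mem_normalizer.1 (h2 hx)
  let f : X →* MulAut γ := (γ : Subgroup G).normalizerMonoidHom.comp (inclusion h3)
  have c1 : IsCyclic γ := isCyclic_of_prime_card (h.card γ)
  have c2 : IsCyclic (ZMod (Nat.card γ))ˣ := ZMod.isCyclic_units_prime (by rw [h.card γ]; exact Fact.out)
  have c3 : IsCyclic (MulAut γ) := isCyclic_of_surjective _ (IsCyclic.mulAutMulEquiv γ).symm.surjective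
  have hN : (D.subgroupOf X).Normal := ⟨fun a ha g => by
    have : (g : G) * a * (g : G)⁻¹ = a := mul_inv_eq_iff_eq_mul.2 (h1 g.2 a ha).symm
    exact mem_subgroupOf.2 (this.symm ▸ ha : (g : G) * a * (g : G)⁻¹ ∈ D)⟩
  obtain ⟨⟨_, z, rfl⟩, hz⟩ := IsCyclic.exists_generator (α := f.range)
  have gen : ∀ q : X ⧸ D.subgroupOf X, q ∈ zpowers (z : X ⧸ D.subgroupOf X) := fun q => by
    obtain ⟨x, rfl⟩ := QuotientGroup.mk_surjective q
    obtain ⟨k, hk⟩ := hz ⟨f x, x, rfl⟩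
    have e : f ((z ^ k)⁻¹ * x) = 1 := by
      rw [map_mul, map_inv, map_zpow, inv_mul_eq_one]
      exact congrArg Subtype.val hk
    refine ⟨k, (QuotientGroup.mk_zpow _ _ _).symm.trans (QuotientGroup.eq.2 (ho γ hγ ⟨h1 ((z ^ k)⁻¹ * x).2, ?_⟩))⟩
    have := (normalizerMonoidHom_ker (γ : Subgroup G)).le (show inclusion h3 ((z ^ k)⁻¹ * x) ∈ _ from e)
    exact this
  refine ⟨z, z.2, Nat.card (X ⧸ D.subgroupOf X), ?_, fun k hk => ?_⟩
  · rw [card_eq_card_quotient_mul_card_subgroup (D.subgroupOf X), CL.Grp.card_subgroupOf_eq]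
  · rw [← orderOf_eq_card_of_forall_mem_zpowers gen, orderOf_dvd_iff_pow_eq_one, ← QuotientGroup.mk_pow,
      QuotientGroup.eq_one_iff]
    exact hk

omit [Finite G] in
theorem cn : centralizer (D : Set G) ≤ normalizer (D : Set G) := centralizer_le_normalizer _

omit [Finite G] [Fact p.Prime] in
theorem mv (hD : Dl p D) (hγ : γ ∉ Fx p D) (hy : y ∈ normalizer (D : Set G)) : y • γ ∉ Fx p D := fun k =>
  hγ (inv_smul_smul y γ ▸ hD.smul _ (inv_mem hy) _ k)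

omit [Finite G] [Fact p.Prime] in
theorem orb (hD : Dl p D) (hJ : J ≤ centralizer (D : Set G)) (hγ : γ ∉ Fx p D) : orbit J γ ⊆ (Fx p D)ᶜ := by
  rintro _ ⟨g, rfl⟩
  exact mv hD hγ (centralizer_le_normalizer _ (hJ g.2))

omit [Finite G] [Fact p.Prime] in
theorem l3 (J : Subgroup G) (γ : Sylow p G) :
    Nat.card J = (orbit J γ).ncard * Nat.card (stabilizer G γ ⊓ J : Subgroup G) := by
  rw [← index_stabilizer, ← CL.Grp.card_subgroupOf_eq, mul_comm]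
  exact (card_mul_index (stabilizer J γ)).symm

omit [Finite G] [Fact p.Prime] in
theorem fixD {δ : Sylow p G} (hδ : δ ∈ Fx p D) (hy : y ∈ D) : y • δ = δ :=
  Sylow.smul_eq_iff_mem_normalizer.2 (centralizer_le_normalizer _ (hδ hy))

end K1B

open K1B MulAction CL.Fgs in
theorem k1b (h : GH G p) (h0 : K0 G p) {D : Subgroup G} (hD : Dl p D) (ho : Out p D) (hs : Str p D) : False := by
  obtain ⟨J, hJ, hZ, -, hs⟩ := hs
  have := h.simple
  have := faithfulSMul_sylow h.ne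
  have p5 := h.five
  have key : ∀ γ ∉ Fx p D, ∃ z ∈ J, ¬ p ∣ orderOf z ∧ ∃ m, (∀ k : ℕ, z ^ k ∈ D → m ∣ k) ∧
      Nat.card (stabilizer G γ ⊓ J : Subgroup G) = m * Nat.card (D ⊓ (stabilizer G γ ⊓ J) : Subgroup G) ∧
      D ⊓ (stabilizer G γ ⊓ J) ≤ ZD D ∧ (orbit J γ).ncard ≤ p * (p - 2) := fun γ hγ => by
    obtain ⟨z, hz, m, h1, h2⟩ := l2 h ho hγ (X := stabilizer G γ ⊓ J) (inf_le_right.trans hJ) inf_le_left
    exact ⟨z, hz.2, l1 h hγ (hJ hz.2) hz.1, m, h2, h1, inf_le_inf_left _ (inf_le_right.trans hJ),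
      (Set.ncard_le_ncard (orb hD hJ hγ)).trans hD.compl⟩
  obtain ⟨γ₀, hγ₀⟩ := hD.out
  rcases hs with hs | ⟨hc, hs⟩
  · obtain ⟨z, hz, hp, m, h1, h2, h3, h4⟩ := key γ₀ hγ₀
    have := hs z hz hp m h1
    rw [l3 J γ₀, h2] at this
    have h5 := Nat.mul_le_mul h4 (Nat.mul_le_mul_left m (card_le_of_le h3))
    nlinarith
  obtain ⟨q, hq⟩ : ∃ q, p = q + 2 := ⟨p - 2, by omega⟩
  have hq' : p - 2 = q := by omega
  have k2 : ∀ γ ∉ Fx p D, ZD D ≤ stabilizer G γ ∧ 2 * (orbit J γ).ncard = p * (p + 1) ∧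
      Nat.card (stabilizer G γ ⊓ J : Subgroup G) = 2 * Nat.card (ZD D) := fun γ hγ => by
    obtain ⟨z, hz, hp, m, h1, h2, h3, h4⟩ := key γ hγ
    have m2 := h1 2 (by rw [sq]; exact (hs z hz z hz hp hp).1)
    obtain ⟨i, hi⟩ := card_dvd_of_le h3
    have e := l3 J γ
    rw [hc, h2, hi] at e
    have pos : 0 < Nat.card (D ⊓ (stabilizer G γ ⊓ J) : Subgroup G) := Nat.card_pos
    have e' : p * (p + 1) * i = (orbit J γ).ncard * m := Nat.eq_of_mul_eq_mul_right pos (by linarith)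
    have i0 : i ≠ 0 := by
      rintro rfl
      exact (Nat.card_pos (α := ZD D)).ne' hi
    rw [hq'] at h4
    have m3 := Nat.le_of_dvd two_pos m2
    have i1 : i = 1 := by
      by_contra k
      have : 2 ≤ i := by omega
      nlinarith [Nat.mul_le_mul h4 m3, Nat.mul_le_mul_left (p * (p + 1)) this]
    subst i1
    have m4 : m = 2 := by
      rcases (Nat.dvd_prime Nat.prime_two).1 m2 with rfl | rfl
      · nlinarith
      · rfl
    subst m4
    have e2 := eq_of_le_of_card_ge h3 (by omega)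
    exact ⟨e2.ge.trans (inf_le_right.trans inf_le_left), by omega, by rw [h2, e2]⟩
  have all : ∀ {a b : G}, a ∈ D → b ∈ D → (∀ γ ∉ Fx p D, a • γ = b • γ) → a = b := fun ha hb k =>
    eq_of_smul_eq_smul fun γ : Sylow p G => by
      by_cases hγ : γ ∈ Fx p D
      exacts [(fixD hγ ha).trans (fixD hγ hb).symm, k γ hγ]
  have Z1 : ZD D = ⊥ := le_bot_iff.1 fun z hz => all hz.1 (one_mem _) fun γ hγ =>
    ((k2 γ hγ).1 hz).trans (one_smul _ _).symm
  have JD : ∀ x ∈ J, x ∈ D → x = 1 := fun x hx hx' => Z1.le ⟨hx', hJ hx⟩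
  have tr : ∀ γ ∉ Fx p D, ∀ γ' ∉ Fx p D, ∃ y ∈ J, γ' = y • γ := fun γ hγ γ' hγ' => by
    by_contra k
    have dj : Disjoint (orbit J γ) (orbit J γ') := Set.disjoint_left.2 fun x h1 h2 => by
      obtain ⟨g, hg⟩ : γ' ∈ orbit J γ := by
        rw [← orbit_eq_iff.2 h1, orbit_eq_iff.2 h2]
        exact mem_orbit_self _
      exact k ⟨g, g.2, hg.symm⟩
    have := (Set.ncard_le_ncard (Set.union_subset (orb hD hJ hγ) (orb hD hJ hγ'))).trans hD.compl
    rw [Set.ncard_union_eq dj, hq'] at this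
    have a1 := (k2 γ hγ).2.1
    have a2 := (k2 γ' hγ').2.1
    nlinarith
  have cA : ∀ γ ∉ Fx p D, ∀ d ∈ D, ∃ y ∈ J, ¬ p ∣ orderOf y ∧ d • γ = y • γ := fun γ hγ d hd => by
    obtain ⟨y, hy, e⟩ := tr γ hγ _ (mv hD hγ (le_normalizer hd))
    refine ⟨y, hy, fun k => ?_, e⟩
    have c2 := (k2 γ hγ).2.2
    rw [Z1, card_bot, mul_one, Nat.card_eq_two_iff' 1] at c2
    obtain ⟨⟨v, v1, v2⟩, v3, v4⟩ := c2
    have v5 : v ≠ 1 := fun e => v3 (Subtype.ext e)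
    have e1 : y⁻¹ * v * y ∈ stabilizer G γ := by
      rw [mem_stabilizer_iff, mul_smul, mul_smul, ← e, ← mul_smul v, ← hJ v2 d hd, mul_smul, mem_stabilizer_iff.1 v1, e,
        inv_smul_smul]
    have e2 : y⁻¹ * v * y = v := congrArg Subtype.val (v4 ⟨_, e1, J.mul_mem (J.mul_mem (J.inv_mem hy) v2) hy⟩ fun e =>
      v5 (by simpa [mul_assoc] using congrArg (fun x : ↥(stabilizer G γ ⊓ J) => y * x * y⁻¹) e))
    have e3 : Commute v y := by
      rw [mul_assoc, inv_mul_eq_iff_eq_mul] at e2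
      exact e2
    obtain ⟨u, hu, Q, -, hQ⟩ := pw h k
    refine v5 (JD v v2 (hD.semi v (cn (hJ v2)) (l1 h hγ (hJ v2) v1) Q
      (le_centralizer_iff.1 (hQ ▸ zpowers_le.2 (zpowers_le.2 (hJ hy) hu))) ?_))
    obtain ⟨k, rfl⟩ := hu
    rw [CQ, centralizer_sylow_eq hQ]
    exact mem_centralizer_singleton_iff.2 (e3.zpow_right k)
  refine hD.mx.ne (le_bot_iff.1 fun d₁ h₁ => Z1.le ⟨h₁, mem_centralizer_iff.2 fun d₂ h₂ => ?_⟩)
  refine all (mul_mem h₂ h₁) (mul_mem h₁ h₂) fun γ hγ => ?_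
  obtain ⟨y₁, a₁, b₁, c₁⟩ := cA γ hγ d₁ h₁
  obtain ⟨y₂, a₂, b₂, c₂⟩ := cA γ hγ d₂ h₂
  have cm : y₁ * y₂ = y₂ * y₁ := commutatorElement_eq_one_iff_mul_comm.1
    (JD _ (mul_mem (mul_mem (mul_mem a₁ a₂) (inv_mem a₁)) (inv_mem a₂)) (hs _ a₁ _ a₂ b₁ b₂).2)
  rw [mul_smul, mul_smul, c₁, c₂, ← mul_smul, ← mul_smul, hJ a₁ d₂ h₂, hJ a₂ d₁ h₁, mul_smul, mul_smul, c₁, c₂,
    ← mul_smul, ← mul_smul, cm]

end CL.NP
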