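/-
Project NP (S4340, S4338): no prime divides both `e` and the order of the `p'`-part of `C`.
-/
import Cfsg.Agent.NP.Defs
import Cfsg.Agent.Grp.SylowIn
import Cfsg.Agent.Grp.PGroupBasic
import Mathlib.GroupTheory.Focal

set_option autoImplicit false

namespace CL.NP

open Finset CL.Inv.PO CL.Blk CL.Char Cfsg Subgroup
open scoped Classical commutatorElement

universe u

variable {G : Type u} [Group G] [Fintype G] {p : ℕ} [Fact p.Prime] (S : St G p)

theorem k2 (h0 : K0 G p) (h1 : K1 G p) : S.K2 := by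
  intro l hl le hk
  have := Fact.mk hl
  have mN : ∀ {g : G}, g • S.K.syl = S.K.syl ↔ g ∈ Nz S.x := Sylow.smul_eq_iff_mem_normalizer
  have F : ∀ y ∈ S.Kp, y ≠ 1 → ∀ Q : Sylow p G, y • Q = Q → Q = S.K.syl := fun y hy y1 Q e => by_contra fun ne => by
    have c : y ∈ CQ S.K.syl := S.K.C_eq.le hy.1
    exact y1 ((h1 _ _ (Ne.symm ne)).le ⟨c, h0 _ Q y c (Ne.symm ne) e⟩)
  obtain ⟨⟨y0, hy0⟩, o0⟩ := exists_prime_orderOf_dvd_card' l hk
  rw [← Subgroup.orderOf_coe] at o0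
  have y01 : y0 ≠ 1 := fun e => hl.one_lt.ne' (by rw [← o0]; exact orderOf_eq_one_iff.2 e)
  have p0 : IsPGroup l (zpowers y0) := IsPGroup.of_card (n := 1) (by rw [Nat.card_zpowers, pow_one]; exact o0)
  have hn : ¬ l ∣ Nat.card (Sylow p G) := fun h => by
    have e := p0.card_modEq_card_fixedPoints (Sylow p G)
    rw [show MulAction.fixedPoints (zpowers y0) (Sylow p G) = {S.K.syl} from Set.eq_singleton_iff_unique_mem.2
      ⟨fun g => mN.2 (zpowers_le.2 (S.K.C_le_N hy0.1) g.2), fun Q hQ => F y0 hy0 y01 Q (hQ ⟨y0, mem_zpowers _⟩)⟩,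
      Nat.card_unique (α := ({S.K.syl} : Set (Sylow p G)))] at e
    exact hl.one_lt.ne' (Nat.dvd_one.1 ((e.dvd_iff dvd_rfl).1 h))
  have fx : ∀ T : Subgroup G, IsPGroup l T → ∀ y ∈ S.Kp, y ≠ 1 → y ∈ T → T ≤ Nz S.x := fun T hT y hy y1 yT t ht => by
    obtain ⟨Q, hQ⟩ := hT.nonempty_fixed_point_of_prime_not_dvd_card _ hn
    obtain rfl := F y hy y1 Q (hQ ⟨y, yT⟩)
    exact mN.1 (hQ ⟨t, ht⟩)
  obtain ⟨R, hR⟩ := p0.exists_le_sylow
  have y0R := hR (mem_zpowers y0)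
  have RN := fx R R.2 y0 hy0 y01 y0R
  have nK : (S.Kp.subgroupOf R).Normal := ⟨fun a ha g => S.mem_Kp.2 ⟨S.K.conj_mem_C (RN g.2) ha.1, by
    change ¬ p ∣ orderOf (MulAut.conj (g : G) a)
    rw [MulEquiv.orderOf_eq]
    exact (S.mem_Kp.1 ha).2⟩⟩
  have := R.2.isNilpotent
  obtain ⟨⟨⟨y, yR⟩, hy, yc⟩, y1⟩ := (ne_bot_iff_exists_ne_one).1 (CL.Grp.inf_center_ne_bot (N := S.Kp.subgroupOf R)
    fun e => y01 (congrArg Subtype.val (e.le (show (⟨y0, y0R⟩ : R) ∈ _ from hy0) : (⟨y0, y0R⟩ : R) = 1)))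
  replace y1 : y ≠ 1 := fun e => y1 (Subtype.ext (Subtype.ext e))
  replace yc : ∀ r ∈ (R : Subgroup G), r * y = y * r := fun r hr => congrArg Subtype.val (mem_center_iff.1 yc ⟨r, hr⟩)
  have py : IsPGroup l (zpowers y) := R.2.to_le (zpowers_le.2 yR)
  have RC : (R : Subgroup G) ≤ S.C := by
    rw [← top_inf_eq (R : Subgroup G), ← S.gh.perf, commutator_inf_eq_focalSubgroup, focalSubgroup_def, closure_le]
    rintro _ ⟨m, r, hr, u, rfl⟩
    have r' : u * r * u⁻¹ ∈ (R : Subgroup G) := by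
      simpa [commutatorElement_def, mul_assoc] using mul_mem (inv_mem m) hr
    obtain ⟨T, hT, yT⟩ := CL.Grp.exists_isSylowIn_ge py (H := centralizer {r})
      (zpowers_le.2 (mem_centralizer_singleton_iff.2 (yc r hr).symm))
    obtain ⟨c, hc, k⟩ := hT.exists_conj_le (CL.Grp.IsPGroup.conj_smul py u⁻¹) ((CL.Grp.conj_smul_le_iff _ _ _).2
      fun z hz => mem_centralizer_singleton_iff.2 (by
        have e := commute_of_mem_zpowers' hz (yc _ r').symm
        calc u⁻¹ * z * u⁻¹⁻¹ * r = u⁻¹ * (z * (u * r * u⁻¹)) * u := by group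
          _ = _ := by rw [e]; group))
    have k1 := mN.2 (fx T hT.isPGroup y hy y1 (yT (mem_zpowers y))
      ((CL.Grp.conj_smul_le_iff _ _ _).1 k _ (CL.Grp.conj_mem_conj_smul u⁻¹ (mem_zpowers y))))
    have k2 : u * c⁻¹ ∈ Nz S.x := mN.1 (F y hy y1 _ (by
      conv_rhs => rw [← k1]
      rw [← mul_smul, ← mul_smul]
      congr 1
      group))
    have k3 : ⁅r, u⁆ = ⁅r, u * c⁻¹⁆ := by
      have e := mem_centralizer_singleton_iff.1 hc
      calc ⁅r, u⁆ = r * u * (c * r)⁻¹ * c * u⁻¹ := by rw [commutatorElement_def]; group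
        _ = _ := by rw [e, commutatorElement_def]; group
    rw [k3]
    refine (S.K.a_eq_one_iff ⁅(⟨r, RN hr⟩ : Nz S.x), (⟨_, k2⟩ : Nz S.x)⁆).1 ?_
    rw [map_commutatorElement, commutatorElement_eq_one_iff_mul_comm, mul_comm]
  exact R.not_dvd_index ((le.trans (Dvd.intro _ S.K.index_C.symm)).trans (index_dvd_of_le RC))

end CL.NP
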