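/-
Project NP: groups with `p + 1` self-centralizing Sylow subgroups that generate.
-/
import Cfsg.Agent.NP.Defs
import Cfsg.Agent.S0996
import Cfsg.Agent.Cls.SL2Tori

set_option autoImplicit false

namespace CL.NP

open Finset CL.Inv.PO CL.Blk CL.Char Cfsg Subgroup
open scoped Classical commutatorElement

universe u

namespace KLx

theorem psl_p {F : Type} [Field F] [Fintype F] {p : ℕ} (hp : p.Prime) (h5 : 5 ≤ p) (hF : Fintype.card F = p)
    (z : Matrix.ProjectiveSpecialLinearGroup (Fin 2) F) (hz : ¬ p ∣ orderOf z) :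
    orderOf z * (p * (p - 2)) < Nat.card (Matrix.ProjectiveSpecialLinearGroup (Fin 2) F) := by
  obtain ⟨r, hr, n, hr', hn⟩ := FiniteField.card' F
  obtain rfl : r = p := (Nat.prime_dvd_prime_iff_eq hr' hp).1 (hF ▸ hn ▸ dvd_pow_self r n.ne_zero)
  haveI := Fact.mk hp
  have odd := hp.eq_two_or_odd
  have g : Nat.gcd 2 (Fintype.card F - 1) = 2 := Nat.gcd_eq_left (by omega)
  have c := CL.SL2.card_psl_mul (F := F)
  have o := CL.SL2.psl_orderOf_cases r z
  rw [g, hF] at c o
  have b : 2 * orderOf z ≤ r + 1 := by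
    rcases o with o | o | o
    · have := Nat.le_of_dvd (by omega) o; omega
    · have := Nat.le_of_dvd (by omega) o; omega
    · exact (hz (o ▸ dvd_rfl)).elim
  obtain ⟨k, rfl⟩ : ∃ k, r = k + 2 := ⟨r - 2, by omega⟩
  have e : (k + 2) ^ 2 - 1 = (k + 1) * (k + 3) := Nat.sub_eq_of_eq_add (by ring)
  rw [e] at c
  rw [Nat.add_sub_cancel]
  have : 2 * orderOf z * ((k + 2) * k) ≤ (k + 2 + 1) * ((k + 2) * k) := Nat.mul_le_mul_right _ b
  nlinarith

theorem psl_two {F : Type} [Field F] [Fintype F] {p m : ℕ} (hp : p.Prime) (h5 : 5 ≤ p) (hF : Fintype.card F = 2 ^ m)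
    (hm : p = 2 ^ m + 1) (z : Matrix.ProjectiveSpecialLinearGroup (Fin 2) F) (hz : ¬ p ∣ orderOf z) :
    orderOf z * (p * (p - 2)) < Nat.card (Matrix.ProjectiveSpecialLinearGroup (Fin 2) F) := by
  obtain ⟨r, hr, n, hr', hn⟩ := FiniteField.card' F
  obtain rfl : r = 2 := (Nat.prime_dvd_prime_iff_eq hr' Nat.prime_two).1
    (hr'.dvd_of_dvd_pow (hF ▸ hn ▸ dvd_pow_self r n.ne_zero))
  have odd := hp.eq_two_or_odd
  have hq : Fintype.card F = p - 1 := by omega
  have g : Nat.gcd 2 (Fintype.card F - 1) = 1 := (Nat.Prime.coprime_iff_not_dvd Nat.prime_two).2 (by omega)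
  have c := CL.SL2.card_psl_mul (F := F)
  have o := CL.SL2.psl_orderOf_cases 2 z
  rw [g, hq] at c o
  have b : orderOf z ≤ p - 2 := by
    rcases o with o | o | o
    · rw [Nat.div_one, show p - 1 + 1 = p by omega] at o
      rcases (Nat.dvd_prime hp).1 o with o | o
      · omega
      · exact (hz (o ▸ dvd_rfl)).elim
    · have := Nat.le_of_dvd (by omega) o; omega
    · omega
  obtain ⟨k, rfl⟩ : ∃ k, p = k + 2 := ⟨p - 2, by omega⟩
  have e : (k + 2 - 1) ^ 2 - 1 = (k + 2) * k := by
    rw [show k + 2 - 1 = k + 1 from rfl]; exact Nat.sub_eq_of_eq_add (by ring)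
  rw [e, mul_one, show k + 2 - 1 = k + 1 from rfl] at c
  rw [Nat.add_sub_cancel] at b ⊢
  rw [c]
  exact Nat.mul_lt_mul_of_pos_right (by omega) (Nat.mul_pos (by omega) (by omega))

variable {H : Type u} [Group H] [Finite H] {p : ℕ} [hp : Fact p.Prime] {x : H}

theorem gen (ho : orderOf x = p) {y : H} (hy : y ∈ zpowers x) (h1 : y ≠ 1) : x ∈ zpowers y := by
  have le : zpowers y ≤ zpowers x := zpowers_le.2 hy
  have d := card_dvd_of_le le
  rw [Nat.card_zpowers, Nat.card_zpowers, ho] at d
  rcases (Nat.dvd_prime hp.out).1 d with e | e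
  · exact (h1 (orderOf_eq_one_iff.1 e)).elim
  · rw [eq_of_le_of_card_ge le (by rw [Nat.card_zpowers, Nat.card_zpowers, ho, e])]
    exact mem_zpowers x

theorem cent (ho : orderOf x = p) (hC : centralizer ({x} : Set H) = zpowers x) {y v : H} (hy : y ∈ zpowers x)
    (h1 : y ≠ 1) (hv : y * v = v * y) : v ∈ zpowers x := by
  obtain ⟨k, hk⟩ := mem_zpowers_iff.1 (gen ho hy h1)
  rw [← hC, mem_centralizer_singleton_iff, ← hk]
  exact (Commute.zpow_left hv k).eq.symm

theorem syl (ho : orderOf x = p) (hC : centralizer ({x} : Set H) = zpowers x) :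
    ∃ T : Sylow p H, (T : Subgroup H) = zpowers x := by
  obtain ⟨T, hT⟩ := (IsPGroup.of_card (n := 1) (G := zpowers x) (by rw [Nat.card_zpowers, ho, pow_one])).exists_le_sylow
  have x1 : x ≠ 1 := fun e => hp.out.one_lt.ne' (by rw [← ho, e, orderOf_one])
  haveI : Nontrivial T := ⟨⟨x, hT (mem_zpowers x)⟩, 1, fun e => x1 (congrArg Subtype.val e)⟩
  haveI := T.isPGroup'.center_nontrivial
  obtain ⟨c, hc⟩ := exists_ne (1 : center T)
  have c1 : ((c : T) : H) ≠ 1 := fun e => hc (Subtype.ext (Subtype.ext e))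
  have cc : ∀ t ∈ (T : Subgroup H), ((c : T) : H) * t = t * ((c : T) : H) := fun t ht =>
    (congrArg Subtype.val (mem_center_iff.1 c.2 ⟨t, ht⟩)).symm
  refine ⟨T, le_antisymm (fun t ht => cent ho hC ?_ c1 (cc t ht)) hT⟩
  rw [← hC, mem_centralizer_singleton_iff]
  exact cc x (hT (mem_zpowers x))

end KLx

open KLx

theorem kl : KL.{u} := by
  intro H _ _ p hp x h5 ho hC hn hx
  by_cases hperf : commutator H = ⊤
  · refine .inl fun z hz => ?_
    rcases Cfsg.Agent.S0996.result hperf p x ho hC (by rw [hn]; nlinarith) with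
      ⟨F, _, _, hF, -, ⟨e⟩⟩ | ⟨m, F, _, _, hF, hm, -, ⟨e⟩⟩
    · rw [Nat.card_congr e.toEquiv, ← e.orderOf_eq] at *
      exact psl_p hp.out h5 hF _ hz
    · rw [Nat.card_congr e.toEquiv, ← e.orderOf_eq] at *
      exact psl_two hp.out h5 hF hm _ hz
  right
  have top : ∀ g : H, Abelianization.of g ∈ zpowers (Abelianization.of x) := fun g => by
    have : normalClosure ({x} : Set H) ≤ (zpowers (Abelianization.of x)).comap Abelianization.of :=
      normalClosure_le_normal (Set.singleton_subset_iff.2 (mem_zpowers _))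
    exact this (hx.ge (mem_top g))
  have mem : ∀ g : H, Abelianization.of g = 1 ↔ g ∈ commutator H := fun g => by
    rw [← Abelianization.ker_of, MonoidHom.mem_ker]
  have xV : Abelianization.of x ≠ 1 := fun e => hperf (eq_top_iff.2 fun g _ => (mem g).1 (by
    have := top g
    rwa [e, zpowers_one_eq_bot, mem_bot] at this))
  have ox : orderOf (Abelianization.of x) = p := orderOf_eq_prime (by rw [← map_pow, ← ho, pow_orderOf_eq_one, map_one]) xV
  have dis : ∀ y ∈ zpowers x, y ∈ commutator H → y = 1 := fun y hy hv => by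
    by_contra h1
    exact xV ((mem x).2 (zpowers_le.2 hv (gen ho hy h1)))
  have cA : (commutator H).index = p := by
    rw [← ox, ← Nat.card_zpowers, show zpowers (Abelianization.of x) = ⊤ from eq_top_iff.2 fun a _ => by
      induction a using QuotientGroup.induction_on with | H g => exact top g, card_top]
    rfl
  obtain ⟨T, hT⟩ := syl ho hC
  have hN : normalizer ((T : Subgroup H) : Set H) = zpowers x := by
    refine le_antisymm (fun g hg => ?_) (hT ▸ le_normalizer)
    obtain ⟨k, hk⟩ := mem_zpowers_iff.1 (top g)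
    have xk : x ^ k ∈ zpowers x := zpow_mem_zpowers x k
    have v1 : (x ^ k)⁻¹ * g ∈ commutator H := (mem _).1 (by rw [map_mul, map_inv, map_zpow, hk, inv_mul_cancel])
    have v2 : (x ^ k)⁻¹ * g ∈ normalizer ((T : Subgroup H) : Set H) :=
      mul_mem (inv_mem (le_normalizer (hT.ge xk))) hg
    set v := (x ^ k)⁻¹ * g with hv
    have v3 : v * x * v⁻¹ * x⁻¹ = 1 := dis _
      (mul_mem (hT.le ((mem_normalizer_iff.1 v2 x).1 (hT.ge (mem_zpowers x)))) (inv_mem (mem_zpowers x)))
      (commutator_mem_commutator (mem_top v) (mem_top x))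
    have v4 : v ∈ zpowers x := by
      rw [← hC, mem_centralizer_singleton_iff]
      rw [mul_inv_eq_one, mul_inv_eq_iff_eq_mul] at v3
      exact v3
    have := mul_mem xk v4
    rwa [hv, mul_inv_cancel_left] at this
  have cH : Nat.card H = p * (p + 1) := by
    have e : Nat.card (Sylow p H) = (normalizer ((T : Subgroup H) : Set H)).index := T.card_eq_index_normalizer
    rw [← hn, e, hN, ← ho, ← Nat.card_zpowers, card_mul_index]
  have cV : Nat.card (commutator H) = p + 1 := by
    have := (commutator H).card_mul_index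
    rw [cA, cH, mul_comm] at this
    exact Nat.eq_of_mul_eq_mul_left hp.out.pos this
  have inV : ∀ z : H, ¬ p ∣ orderOf z → z ∈ commutator H := fun z hz => by
    by_contra h
    have d := orderOf_dvd_of_mem_zpowers (top z)
    rw [ox] at d
    rcases (Nat.dvd_prime hp.out).1 d with e | e
    · exact h ((mem z).1 (orderOf_eq_one_iff.1 e))
    · exact hz (e ▸ orderOf_map_dvd _ z)
  haveI : Fact (Nat.Prime 2) := ⟨Nat.prime_two⟩
  obtain ⟨v, hv⟩ := exists_prime_orderOf_dvd_card' (G := commutator H) 2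
    (by have := hp.out.eq_two_or_odd; omega)
  have v1 : (v : H) ≠ 1 := fun e => by
    rw [show v = 1 from Subtype.ext e, orderOf_one] at hv; omega
  have v2 : (v : H) * v = 1 := by
    have := congrArg Subtype.val (pow_orderOf_eq_one v)
    rwa [hv, pow_two] at this
  have sq : ∀ w ∈ commutator H, w * w = 1 := fun w hw => by
    let f : Option (zpowers x) → commutator H := fun o => o.elim 1 fun y =>
      ⟨y * v * (y : H)⁻¹, (inferInstance : (commutator H).Normal).conj_mem _ v.2 _⟩
    have ne : ∀ y : zpowers x, f (some y) ≠ f none := fun y e => v1 (by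
      have e' : (y : H) * v * (y : H)⁻¹ = 1 := congrArg Subtype.val e
      rwa [mul_inv_eq_one, mul_eq_left] at e')
    have inj : Function.Injective f := by
      rintro (_ | a) (_ | b) e
      · rfl
      · exact (ne b e.symm).elim
      · exact (ne a e).elim
      · have e' : (a : H) * v * (a : H)⁻¹ = b * v * (b : H)⁻¹ := congrArg Subtype.val e
        by_contra h
        refine v1 (dis _ (cent ho hC (mul_mem (inv_mem b.2) a.2) (fun e1 => h ?_) ?_) v.2)
        · rw [Subtype.ext (inv_mul_eq_one.1 e1)]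
        · calc (b : H)⁻¹ * a * v = (b : H)⁻¹ * (a * v * (a : H)⁻¹) * a := by group
            _ = v * ((b : H)⁻¹ * a) := by rw [e']; group
    obtain ⟨o, e⟩ := ((Nat.bijective_iff_injective_and_card f).2 ⟨inj, by
      rw [Finite.card_option, Nat.card_zpowers, ho, cV]⟩).2 ⟨w, hw⟩
    have e' := congrArg Subtype.val e
    rcases o with _ | y
    · rw [show w = 1 from e'.symm, one_mul]
    · have e2 : w = y * v * (y : H)⁻¹ := e'.symm
      calc w * w = y * (v * v) * (y : H)⁻¹ := by rw [e2]; group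
        _ = 1 := by rw [v2]; group
  refine ⟨cH, fun z w hz hw => ⟨sq z (inV z hz), ?_⟩⟩
  have a := sq z (inV z hz)
  have b := sq w (inV w hw)
  have c := sq _ (mul_mem (inV z hz) (inV w hw))
  calc z * w = z * (z * w * (z * w)) * w := by rw [c, mul_one]
    _ = (z * z) * (w * z) * (w * w) := by group
    _ = w * z := by rw [a, b, one_mul, mul_one]

end CL.NP
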