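/-
Project NP (S4340, S4338): from the arithmetic to the two families.
-/
import Cfsg.Agent.NP.Defs

set_option autoImplicit false
set_option linter.unusedSectionVars false

namespace CL.NP

open Finset CL.Inv.PO CL.Blk CL.Char Cfsg Subgroup
open scoped Classical commutatorElement

universe u

variable {G : Type u} [Group G] [Fintype G] {p : ℕ} [Fact p.Prime] (S : St G p)

namespace NUM

theorem ne_one {χ : IrrCharacter G} {d : ℕ} (h : dg χ = d) (hd : 2 ≤ d) : χ ≠ irrOne G := fun e => by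
  have : dg (irrOne G) = 1 := CL.Blk.charDegree_const_one
  rw [e, this] at h
  omega

theorem hA : p - S.a + S.a = p := by
  have h1 := S.hab
  have h2 := S.hb
  have : S.a * 2 ≤ S.a * S.b := Nat.mul_le_mul_left _ h2
  omega

theorem A_pos : 0 < p - S.a := by
  have h1 := S.hab
  have h2 := S.hb
  have : S.a * 2 ≤ S.a * S.b := Nat.mul_le_mul_left _ h2
  omega

theorem two_le_d2 : 2 ≤ S.d2 := by
  have h1 := A_pos S
  have h2 := S.hb
  unfold St.d2
  nlinarith

theorem two_le_d3 : 2 ≤ S.d3 := by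
  have h1 := S.hba
  have h2 := S.hb
  unfold St.d3
  nlinarith

theorem two_le_d4 : 2 ≤ S.d4 := by
  have h1 := S.hba
  have h2 := S.hb
  unfold St.d4
  nlinarith

theorem ari (hd : S.Deg) (h1 : S.m S.d1 = 0) (h1' : S.t * S.θ ≠ S.d1) (h3 : S.t * S.θ ≠ S.d3)
    (hm : 0 < S.m S.d3 → Even S.t) (hk : S.Kill) (hc : 2 ∣ S.e → 2 ∣ S.d1) :
    AriH p S.a S.b (p - S.a) (p + S.b) S.e S.t S.θ (S.m S.d2) (S.m S.d3) (S.m S.d4) where
  hp := Fact.out
  hab := S.hab
  hb := S.hb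
  hba := S.hba
  hA := hA S
  hB := rfl
  hte := S.t_mul_e
  hm := by have := hd.cnt; omega
  hj := by
    rcases hd.μ with ⟨-, h, h'⟩ | ⟨-, h, h'⟩
    · rw [h1, zero_mul, add_zero] at h'
      exact Or.inl ⟨h.resolve_left h1', h'⟩
    · rw [h1, zero_mul, add_zero] at h'
      exact Or.inr ⟨h.resolve_left h3, h'⟩
  h2 := fun h => by
    obtain ⟨χ, hχ, e⟩ := S.m_pos.1 h
    have h4 := (hd.X χ hχ (ne_one e (two_le_d2 S))).1
    rw [e, show S.d1 * S.d3 = S.a * (p + S.b) * S.d2 by unfold St.d1 St.d2 St.d3; ring] at h4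
    exact Nat.dvd_of_mul_dvd_mul_right (by have := two_le_d2 S; omega) h4
  h3 := fun h => by
    refine ⟨hm h, ?_⟩
    obtain ⟨χ, hχ, e⟩ := S.m_pos.1 h
    have h4 := (hd.X χ hχ (ne_one e (two_le_d3 S))).1
    rw [e] at h4
    exact Nat.dvd_of_mul_dvd_mul_right (by have := two_le_d3 S; omega) h4
  h4 := fun h => by
    obtain ⟨χ, hχ, e⟩ := S.m_pos.1 h
    have h4 := (hd.X χ hχ (ne_one e (two_le_d4 S))).1
    rw [e, show S.d1 * S.d3 = S.b * (p - S.a) * S.d4 by unfold St.d1 St.d4 St.d3; ring] at h4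
    exact Nat.dvd_of_mul_dvd_mul_right (by have := two_le_d4 S; omega) h4
  kill := fun k hk1 hk2 c2 c4 c => hk k hk1 hk2 (fun h => by omega) c2 c4 c
  cyc := hc

theorem eps (hd : S.Deg) (h1' : S.t * S.θ ≠ S.d1) (h2 : S.t * S.θ ≠ S.d2) : S.D.ε = 1 := by
  rcases hd.μ with ⟨-, h, -⟩ | ⟨h, -, -⟩
  · exact absurd (h.resolve_left h1') h2
  · exact h

end NUM

open NUM in
theorem num (a0 : Ari0) (a3 : Ari3) (hs : S.Self) (hd : S.Deg) (h1 : S.m S.d1 = 0) (h1' : S.t * S.θ ≠ S.d1)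
    (h3 : S.t * S.θ ≠ S.d3) (hm : 0 < S.m S.d3 → Even S.t) (hk : S.Kill) (hc : 2 ∣ S.e → 2 ∣ S.d1) :
    S.F1 ∨ S.F2 := by
  have H := ari S hd h1 h1' h3 hm hk hc
  have hab := S.hab
  have hba := S.hba
  have hb2 := S.hb
  have hX : S.D.X.card = S.e := S.D.card_X_one
  rcases Nat.eq_zero_or_pos (S.m S.d3) with h0 | h0
  · left
    rw [h0] at H
    obtain ⟨hb, ht, he, hθ, m2, -⟩ := a0 _ _ _ _ _ _ _ _ _ _ H
    rw [hb] at hab hba
    have hA' : p - S.a = S.a + 1 := by omega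
    have d2 : S.d2 = p + 1 := by unfold St.d2; rw [hb, hA']; omega
    have hθ' : S.θ = p + 2 := by
      rw [ht, hb] at hθ
      exact Nat.eq_of_mul_eq_mul_left (by omega) hθ
    obtain ⟨χ, hχ, e⟩ := S.m_pos.1 (m2 ▸ one_pos : 0 < S.m S.d2)
    have hne := ne_one e (two_le_d2 S)
    refine ⟨hs, ?_, he, eps S hd h1' ?_, hθ', χ, hne, ?_, (hd.sg χ hχ).1 (Or.inr e), e.trans d2⟩
    · rw [S.card_G hs, he]
      unfold St.d1
      rw [hb, hA', show p + 1 = 2 * (S.a + 1) by omega]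
      ring
    · rw [ht, hθ', d2]
      nlinarith
    · refine (Finset.eq_of_subset_of_card_le ?_ ?_).symm
      · intro ψ hψ
        rcases mem_insert.1 hψ with rfl | hψ
        · exact S.h1
        · rw [mem_singleton.1 hψ]; exact hχ
      · rw [hX, he, card_pair hne.symm]
  · right
    obtain ⟨ha, ht, he, hb, hθ, m2, m3, -⟩ := a3 _ _ _ _ _ _ _ _ _ _ _ H h0
    have hp : p = S.b ^ 2 + S.b + 1 := hab.symm.trans (by rw [ha]; ring)
    have hA' : p - S.a = S.b ^ 2 := by omega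
    have hB' : p + S.b = (S.b + 1) ^ 2 := by
      have : (S.b + 1) ^ 2 = S.b ^ 2 + S.b + 1 + S.b := by ring
      omega
    have d1 : S.d1 = S.b ^ 2 * (S.b + 1) ^ 2 := by unfold St.d1; rw [hA', hB']
    have d2 : S.d2 = S.b ^ 3 := by unfold St.d2; rw [hA']; ring
    have d3 : S.d3 = S.b * (S.b + 1) := by unfold St.d3; rw [ha]; ring
    have hθ' : S.θ = (S.b + 1) ^ 2 := by
      rw [ht, hB'] at hθ
      exact Nat.eq_of_mul_eq_mul_left (by omega) hθ
    obtain ⟨χ, hχ, e⟩ := S.m_pos.1 (m2 ▸ one_pos : 0 < S.m S.d2)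
    have hne := ne_one e (two_le_d2 S)
    have d23 : S.d2 ≠ S.d3 := by
      rw [d2, d3]
      have : S.b * (S.b + 1) < S.b ^ 3 := by nlinarith [Nat.mul_le_mul hb (Nat.mul_le_mul (le_refl S.b) (le_refl S.b))]
      omega
    have n1 : χ ∉ S.D.X.filter fun χ => dg χ = S.d3 := fun h => d23 (e.symm.trans (mem_filter.1 h).2)
    have n2 : irrOne G ∉ S.D.X.filter fun χ => dg χ = S.d3 := fun h =>
      ne_one (mem_filter.1 h).2 (two_le_d3 S) rfl
    refine ⟨hs, hb, hp, ?_, S.hn.trans d1, he, ht.trans ha, eps S hd h1' ?_, hθ', χ,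
      S.D.X.filter fun χ => dg χ = S.d3, hne, n1, n2, ?_, (hd.sg χ hχ).1 (Or.inr e), e.trans d2, m3,
      fun ψ hψ => ⟨(hd.sg ψ (mem_filter.1 hψ).1).2 (Or.inl (mem_filter.1 hψ).2), (mem_filter.1 hψ).2.trans d3⟩⟩
    · rw [S.card_G hs, he, d1]; ring
    · rw [ht, ha, hθ', d2]
      have : S.b ^ 3 < (S.b + 1) ^ 3 := Nat.pow_lt_pow_left (by omega) (by norm_num)
      intro h
      have h' : (S.b + 1) ^ 3 = S.b ^ 3 := by rw [← h]; ring
      omega
    · refine (Finset.eq_of_subset_of_card_le ?_ ?_).symm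
      · intro ψ hψ
        rcases mem_insert.1 hψ with rfl | hψ
        · exact S.h1
        rcases mem_insert.1 hψ with rfl | hψ
        · exact hχ
        · exact (mem_filter.1 hψ).1
      · rw [hX, he, card_insert_of_notMem, card_insert_of_notMem n1]
        · have : S.m S.d3 = (S.D.X.filter fun χ => dg χ = S.d3).card := rfl
          omega
        · rw [mem_insert, not_or]
          exact ⟨hne.symm, n2⟩

end CL.NP
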