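/-
Project NP: outside the fixed set of a maximal intersection.
-/
import Cfsg.Agent.NP.Defs

set_option autoImplicit false

namespace CL.NP

open Finset CL.Inv.PO CL.Blk CL.Char Cfsg Subgroup
open scoped Classical commutatorElement

universe u

variable {G : Type u} [Group G] [Finite G] {p : ℕ} [Fact p.Prime]

namespace OUT

omit [Finite G] [Fact p.Prime] in
theorem conj_CQ {Q : Sylow p G} {z : G} (g : G) (hz : z ∈ CQ Q) : g * z * g⁻¹ ∈ CQ (g • Q) := by
  rintro _ ⟨x, hx, rfl⟩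
  change g * x * g⁻¹ * _ = _ * (g * x * g⁻¹)
  rw [conj_mul, conj_mul, hz x hx]

omit [Finite G] [Fact p.Prime] in
theorem smul_Fx {M : Subgroup G} {g : G} (hg : g ∈ normalizer (M : Set G)) {Q : Sylow p G} (hQ : Q ∈ Fx p M) :
    g • Q ∈ Fx p M := fun m hm => by
  simpa [mul_assoc] using conj_CQ g (hQ ((mem_normalizer_iff''.1 hg m).1 hm))

omit [Finite G] in
theorem ord (h : GH G p) {P : Sylow p G} {y : G} (hy : y ∈ P) (h1 : y ≠ 1) : orderOf y = p :=
  (((Fact.out : p.Prime).eq_one_or_self_of_dvd _ (h.card P ▸ orderOf_dvd_natCard (P : Subgroup G) hy)).resolve_left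
    fun e => h1 (orderOf_eq_one_iff.1 e))

theorem dvd (h : GH G p) (P : Sylow p G) {s : Set (Sylow p G)} (hs : ∀ g ∈ (P : Subgroup G), ∀ Q ∈ s, g • Q ∈ s)
    (hP : P ∉ s) : p ∣ s.ncard := by
  refine (h.card P).symm.dvd.trans (CL.Fgs.card_dvd_ncard_of_semiregular (P : Subgroup G) s hs fun g hg Q hQ e => ?_)
  by_contra h1
  have h2 := CL.Fgs.fixedBy_sylow_eq_singleton (ord h hg h1)
    (CL.Fgs.sylow_eq_zpowers_of_mem (h.card P) (ord h hg h1) hg)
  exact hP ((show Q = P from h2.le e) ▸ hQ)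

end OUT

open OUT

theorem out (h : GH G p) (h0 : K0 G p) {D : Subgroup G} (hD : Dl p D) : Out p D := by
  by_contra hn
  simp only [Out, not_forall] at hn
  obtain ⟨γ, ⟨hγ, hM⟩, mx⟩ := Set.exists_max_image {Q : Sylow p G | Q ∉ Fx p D ∧ ¬ centralizer (D : Set G) ⊓ CQ Q ≤ D}
    (fun Q => Nat.card (centralizer (D : Set G) ⊓ CQ Q : Subgroup G)) (Set.toFinite _) (let ⟨Q, a, b⟩ := hn; ⟨Q, a, b⟩)
  generalize eM : centralizer (D : Set G) ⊓ CQ γ = M at hM mx
  have M1 : M ≤ centralizer (D : Set G) := eM ▸ inf_le_left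
  have M2 : γ ∈ Fx p M := eM ▸ (inf_le_right : _ ≤ CQ γ)
  obtain ⟨z, hz, zD⟩ := SetLike.not_le_iff_exists.1 hM
  have np : ¬ p ∣ orderOf z := fun k => by
    obtain ⟨u, hu⟩ := exists_prime_orderOf_dvd_card' (G := zpowers z) p (by rwa [Nat.card_zpowers])
    rw [← Subgroup.orderOf_coe] at hu
    have uM : (u : G) ∈ M := zpowers_le.2 hz u.2
    have h1 : IsPGroup p (zpowers (u : G)) := IsPGroup.of_card (n := 1) (by rw [Nat.card_zpowers, hu, pow_one])
    have h2 : (u : G) ∈ γ := ((h1.inf_normalizer_sylow γ).le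
      ⟨mem_zpowers _, centralizer_le_normalizer _ (M2 uM)⟩).2
    exact hγ (le_centralizer_iff.1 ((CL.Fgs.sylow_eq_zpowers_of_mem (h.card γ) hu h2).le.trans
      (zpowers_le.2 (M1 uM))))
  have dj : ∀ Q ∈ Fx p M, Q ∉ Fx p D := fun Q hQ k =>
    zD (hD.semi z (centralizer_le_normalizer _ (M1 hz)) np Q k (hQ hz))
  obtain ⟨P, hP⟩ : (Fx p D).Nonempty := Set.nonempty_of_ncard_ne_zero (by rw [hD.card]; omega)
  have PC : (P : Subgroup G) ≤ centralizer (D : Set G) := le_centralizer_iff.1 hP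
  obtain ⟨d, hd, dγ⟩ : ∃ d ∈ D, d • γ ≠ γ := by
    by_contra k
    push Not at k
    exact hγ fun d hd => h0 P γ d (hP hd) (fun e => hγ (e ▸ hP)) (k d hd)
  have h1 : p ∣ (Fx p M \ {γ}).ncard := dvd h γ (fun g hg Q hQ =>
    ⟨smul_Fx (centralizer_le_normalizer _ (le_centralizer_iff.1 M2 hg)) hQ.1, fun e => hQ.2 (MulAction.injective g
      ((show g • Q = γ from e).trans (Sylow.smul_eq_iff_mem_normalizer.2 (le_normalizer hg)).symm))⟩) fun k => k.2 rfl
  have h2 := Nat.le_of_dvd ((Set.ncard_pos (s := Fx p M \ {γ}) (Set.toFinite _)).2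
    ⟨d • γ, smul_Fx (centralizer_le_normalizer _ (le_centralizer_iff.1 M1 hd)) M2, dγ⟩) h1
  have h3 := Set.ncard_sdiff_singleton_add_one M2 (Set.toFinite _)
  obtain ⟨g, hg, g1, Q, hQ, hQ'⟩ : ∃ g ∈ P, g ≠ 1 ∧ ∃ Q ∈ Fx p M, g • Q ∈ Fx p M := by
    by_contra k
    push Not at k
    have := Nat.card_le_card_of_injective (fun x : P × Fx p M => (⟨(x.1 : G) • (x.2 : Sylow p G), fun m => dj _ x.2.2 (by
      simpa using hD.smul _ (centralizer_le_normalizer _ (PC (inv_mem x.1.2))) _ m)⟩ : ((Fx p D)ᶜ : Set _))) (by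
      rintro ⟨a, Q⟩ ⟨b, R⟩ e
      have e1 : (a : G) • (Q : Sylow p G) = (b : G) • (R : Sylow p G) := congrArg Subtype.val e
      have e2 : (a : G) = b := by
        by_contra n
        refine k ((b : G)⁻¹ * a) (mul_mem (inv_mem b.2) a.2) (fun q => n (inv_mul_eq_one.1 q).symm) Q Q.2 ?_
        rw [mul_smul, e1, inv_smul_smul]
        exact R.2
      rw [e2] at e1
      exact Prod.ext (Subtype.ext e2) (Subtype.ext (MulAction.injective _ e1)))
    rw [Nat.card_prod, h.card, Nat.card_coe_set_eq, Nat.card_coe_set_eq] at this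
    have := Nat.le_of_mul_le_mul_left (this.trans hD.compl) (Fact.out : p.Prime).pos
    omega
  have eq : ∀ Q ∈ Fx p M, M = centralizer (D : Set G) ⊓ CQ Q := fun Q hQ =>
    eq_of_le_of_card_ge (le_inf M1 hQ) (mx Q ⟨dj Q hQ, fun k => hM ((le_inf M1 hQ).trans k)⟩)
  have gN : g ∈ normalizer (M : Set G) := mem_normalizer_fintype fun m hm => (eq _ hQ').ge
    (Subgroup.mem_inf.2 ⟨mul_mem (mul_mem (PC hg) (M1 hm)) (inv_mem (PC hg)), conj_CQ g (hQ hm)⟩)
  have h4 : p ∣ (Fx p M).ncard := dvd h P (fun a ha Q hQ => smul_Fx (zpowers_le.2 gN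
    ((CL.Fgs.sylow_eq_zpowers_of_mem (h.card P) (ord h hg g1) hg).le ha)) hQ) fun k => dj P k hP
  rw [← h3] at h4
  exact (Fact.out : p.Prime).not_dvd_one ((Nat.dvd_add_right h1).1 h4)

end CL.NP
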