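/-
Project NP (S4340, S4338): the structure of the group generated by the Sylow subgroups centralized by `D`.
-/
import Cfsg.Agent.NP.Defs

set_option autoImplicit false

namespace CL.NP

open Finset CL.Inv.PO CL.Blk CL.Char Cfsg Subgroup
open scoped Classical commutatorElement

universe u

variable {G : Type u} [Group G] [Finite G] {p : ℕ} [Fact p.Prime]

namespace STR

open scoped Pointwise

theorem exists_pow (g : G) : ∃ k, ¬ p ∣ orderOf (g ^ p ^ k) := by
  have hp : p.Prime := Fact.out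
  obtain ⟨k, m, hm, e⟩ := Nat.exists_eq_pow_mul_and_not_dvd (orderOf_pos g).ne' p hp.ne_one
  refine ⟨k, ?_⟩
  rwa [orderOf_pow_of_dvd (pow_ne_zero k hp.ne_zero) ⟨m, e⟩, e, Nat.mul_div_cancel_left _ (pow_pos hp.pos k)]

theorem aux (hL : KL.{u}) (h : GH G p) {D : Subgroup G} (hD : Dl p D) (J : Subgroup G)
    (hC : J ≤ centralizer (D : Set G)) (hZ : ZD D ≤ J) (hQ : ∀ Q ∈ Fx p D, (Q : Subgroup G) ≤ J)
    (hmin : ∀ X : Subgroup G, ZD D ≤ X → (∀ Q ∈ Fx p D, (Q : Subgroup G) ≤ X) → J ≤ X) : Str p D := by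
  have hp : p.Prime := Fact.out
  have hc : ∀ c ∈ D.subgroupOf J, ∀ g : J, c * g = g * c := fun c hc g =>
    Subtype.ext (mem_centralizer_iff.1 (hC g.2) c hc)
  have hn : (D.subgroupOf J).Normal := ⟨fun c h1 g => by rwa [← hc c h1 g, mul_inv_cancel_right]⟩
  have hπ : Function.Surjective (QuotientGroup.mk' (D.subgroupOf J)) := QuotientGroup.mk'_surjective _
  have hk : ∀ g : J, QuotientGroup.mk' (D.subgroupOf J) g = 1 ↔ (g : G) ∈ D := fun g => QuotientGroup.eq_one_iff g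
  have hcard : Nat.card J = Nat.card (J ⧸ D.subgroupOf J) * Nat.card (ZD D) := by
    have e : D.subgroupOf J = (ZD D).subgroupOf J :=
      Subgroup.ext fun g => ⟨fun h1 => ⟨h1, hC g.2⟩, fun h1 => h1.1⟩
    rw [card_eq_card_quotient_mul_card_subgroup (D.subgroupOf J), ← Nat.card_congr (subgroupOfEquivOfLe hZ).toEquiv,
      ← e]
  generalize QuotientGroup.mk' (D.subgroupOf J) = π at hπ hk
  have key : ∀ a b : J, (a : G) ^ p = 1 → (b : G) ^ p = 1 → π a = π b → a = b := fun a b ha hb e => by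
    have h1 : ((a⁻¹ * b : J) : G) ∈ D := (hk _).1 (by rw [map_mul, map_inv, e, inv_mul_cancel])
    have h2 : Commute (a : G) (a⁻¹ * b : J) := (congrArg Subtype.val (hc _ h1 a)).symm
    have h3 := h2.mul_pow p
    rw [ha, one_mul, show (a : G) * (a⁻¹ * b : J) = b by simp, hb] at h3
    rcases (Nat.dvd_prime hp).1 (orderOf_dvd_of_pow_eq_one h3.symm) with h4 | h4
    · exact inv_mul_eq_one.1 (Subtype.ext (orderOf_eq_one_iff.1 h4))
    · exact absurd (h4 ▸ D.orderOf_dvd_natCard h1) hD.cop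
  have hpw : ∀ Q : Sylow p G, ∀ a ∈ (Q : Subgroup G), a ^ p = 1 := fun Q a ha =>
    orderOf_dvd_iff_pow_eq_one.1 (h.card Q ▸ (Q : Subgroup G).orderOf_dvd_natCard ha)
  let f : Fx p D → Sylow p (J ⧸ D.subgroupOf J) := fun Q => (Q.1.subtype (hQ Q.1 Q.2)).mapSurjective hπ
  have hf : ∀ Q : Fx p D, (f Q : Subgroup (J ⧸ D.subgroupOf J)) = ((Q.1 : Subgroup G).subgroupOf J).map π :=
    fun _ => rfl
  obtain ⟨P, hP⟩ : (Fx p D).Nonempty := Set.nonempty_of_ncard_ne_zero (by rw [hD.card]; omega)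
  have hbij : Function.Bijective f := by
    constructor
    · intro Q Q' e
      refine Subtype.ext (Sylow.ext (eq_of_le_of_card_ge (fun a ha => ?_) (by
        rw [show Nat.card (Q'.1 : Subgroup G) = p from h.card _, show Nat.card (Q.1 : Subgroup G) = p from h.card _])))
      obtain ⟨b, hb, e1⟩ : π ⟨a, hQ _ Q.2 ha⟩ ∈ ((Q'.1 : Subgroup G).subgroupOf J).map π := by
        rw [← hf, ← e, hf]; exact mem_map_of_mem _ ha
      have := key _ _ (hpw _ _ hb) (hpw _ _ ha) e1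
      rw [this] at hb
      exact hb
    · intro R
      obtain ⟨R', rfl⟩ := Sylow.mapSurjective_surjective hπ p R
      obtain ⟨Q, e⟩ := R'.exists_comap_subtype_eq
      have h1 : Nat.card R' = p := by
        rw [CL.Fgs.card_sylow_eq_card_sylow R' (P.subtype (hQ P hP))]
        exact (Nat.card_congr (subgroupOfEquivOfLe (hQ P hP)).toEquiv).trans (h.card P)
      obtain ⟨y, hy, e1⟩ := CL.Fgs.exists_sylow_eq_zpowers h1
      have h2 : (y : G) ∈ Q := by
        have : y ∈ (Q : Subgroup G).comap J.subtype := by rw [e, e1]; exact mem_zpowers y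
        exact this
      have h3 : Q ∈ Fx p D := by
        change D ≤ centralizer _
        rw [CL.Fgs.sylow_eq_zpowers_of_mem (h.card Q) (by rw [Subgroup.orderOf_coe, hy]) h2]
        exact le_centralizer_iff.1 (zpowers_le.2 (hC y.2))
      exact ⟨⟨Q, h3⟩, congrArg (Sylow.mapSurjective hπ) (Sylow.ext e)⟩
  obtain ⟨y, hy, e⟩ := CL.Fgs.exists_sylow_eq_zpowers (h.card P)
  have hyP : y ∈ (P : Subgroup G) := e ▸ mem_zpowers y
  have hyp : y ^ p = 1 := hpw P y hyP
  obtain ⟨y', rfl⟩ : ∃ y' : J, (y' : G) = y := ⟨⟨y, hQ P hP hyP⟩, rfl⟩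
  have hfP : (f ⟨P, hP⟩ : Subgroup (J ⧸ D.subgroupOf J)) = zpowers (π y') := by
    rw [hf, ← MonoidHom.map_zpowers, ← comap_map_eq_self_of_injective J.subtype_injective (zpowers y'),
      MonoidHom.map_zpowers]
    exact congrArg (fun X : Subgroup G => (X.subgroupOf J).map π) e
  have hx : orderOf (π y') = p := orderOf_eq_prime (by
    rw [← map_pow, show y' ^ p = 1 from Subtype.ext hyp, map_one]) fun h1 => by
      have := key y' 1 hyp (one_pow p) (by rw [h1, map_one])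
      rw [this, OneMemClass.coe_one, orderOf_one] at hy
      exact hp.ne_one hy.symm
  have hcen : centralizer ({π y'} : Set (J ⧸ D.subgroupOf J)) = zpowers (π y') := by
    refine le_antisymm (fun a ha => ?_) (zpowers_le.2 (mem_centralizer_singleton_iff.2 rfl))
    obtain ⟨g, rfl⟩ := hπ a
    have h1 := mem_centralizer_singleton_iff.1 ha
    have h2 := key (g * y' * g⁻¹) y' (by
      rw [Subgroup.coe_mul, Subgroup.coe_mul, Subgroup.coe_inv, conj_pow, hyp, mul_one, mul_inv_cancel]) hyp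
      (by rw [map_mul, map_mul, map_inv, h1, mul_inv_cancel_right])
    have h3 : (g : G) ∈ CQ P := by
      rw [CQ, CL.Fgs.centralizer_sylow_eq e]
      exact mem_centralizer_singleton_iff.2 (congrArg Subtype.val (mul_inv_eq_iff_eq_mul.1 h2))
    obtain ⟨k, hk'⟩ := exists_pow (p := p) (g : G)
    have h4 := hD.semi _ (centralizer_le_normalizer _ (pow_mem (hC g.2) _)) hk' P hP (pow_mem h3 _)
    have h5 : π g ^ p ^ k = 1 := by rw [← map_pow]; exact (hk _).2 h4
    have h6 : IsPGroup p (zpowers (π g)) := by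
      obtain ⟨n, -, e1⟩ := (Nat.dvd_prime_pow hp).1 (orderOf_dvd_of_pow_eq_one h5)
      exact IsPGroup.of_card (by rw [Nat.card_zpowers, e1])
    have h7 : π g ∈ zpowers (π g) ⊓ normalizer (f ⟨P, hP⟩ : Set (J ⧸ D.subgroupOf J)) := by
      refine mem_inf.2 ⟨mem_zpowers _, centralizer_le_normalizer _ ?_⟩
      exact CL.Fgs.centralizer_sylow_eq hfP ▸ ha
    rw [h6.inf_normalizer_sylow, hfP] at h7
    exact h7.2
  have hsyl : Nat.card (Sylow p (J ⧸ D.subgroupOf J)) = p + 1 := by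
    rw [← Nat.card_eq_of_bijective f hbij, Nat.card_coe_set_eq, hD.card]
  have hnc : normalClosure ({π y'} : Set (J ⧸ D.subgroupOf J)) = ⊤ := by
    have h1 := hmin (((normalClosure ({π y'} : Set (J ⧸ D.subgroupOf J))).comap π).map J.subtype)
      (fun z hz => ⟨⟨z, hZ hz⟩, by
        rw [SetLike.mem_coe, mem_comap, (hk ⟨z, hZ hz⟩).2 hz.1]; exact one_mem _, rfl⟩) fun Q hQ' a ha => by
      refine ⟨⟨a, hQ Q hQ' ha⟩, ?_, rfl⟩
      obtain ⟨t, ht⟩ := MulAction.exists_smul_eq (J ⧸ D.subgroupOf J) (f ⟨P, hP⟩) (f ⟨Q, hQ'⟩)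
      have h2 : (f ⟨Q, hQ'⟩ : Subgroup (J ⧸ D.subgroupOf J)) ≤ normalClosure {π y'} := by
        rw [← ht, Sylow.coe_subgroup_smul, hfP, ← Normal.conj_smul_eq_self t (normalClosure {π y'}),
          pointwise_smul_le_pointwise_smul_iff]
        exact zpowers_le.2 (subset_normalClosure rfl)
      exact h2 (mem_map_of_mem π ha)
    rw [eq_top_iff]
    intro a _
    obtain ⟨g, rfl⟩ := hπ a
    obtain ⟨g', h2, h3⟩ := h1 g.2
    rwa [← (Subtype.ext h3 : g' = g)]
  have hord : ∀ z : J, ¬ p ∣ orderOf (z : G) → ¬ p ∣ orderOf (π z) := fun z hz h1 =>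
    hz (by rw [Subgroup.orderOf_coe]; exact h1.trans (orderOf_map_dvd π z))
  refine ⟨J, hC, hZ, hQ, (hL _ p (π y') h.five hx hcen hsyl hnc).imp (fun h1 z hz h2 m hm => ?_)
    fun h1 => ⟨by rw [hcard, h1.1], fun z hz w hw h2 h3 => ?_⟩⟩
  · have h3 := Nat.le_of_dvd (orderOf_pos _) (hm (orderOf (π ⟨z, hz⟩)) ((hk (⟨z, hz⟩ ^ _)).1 (by
      rw [map_pow, pow_orderOf_eq_one])))
    rw [hcard]
    exact Nat.mul_lt_mul_of_lt_of_le ((Nat.mul_le_mul_right _ h3).trans_lt (h1 _ (hord ⟨z, hz⟩ h2))) le_rfl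
      Nat.card_pos
  · obtain ⟨h4, h5⟩ := h1.2 _ _ (hord ⟨z, hz⟩ h2) (hord ⟨w, hw⟩ h3)
    exact ⟨(hk (⟨z, hz⟩ * ⟨z, hz⟩)).1 (by rw [map_mul, h4]), (hk ⁅(⟨z, hz⟩ : J), ⟨w, hw⟩⁆).1 (by
      rw [map_commutatorElement, commutatorElement_eq_one_iff_mul_comm.2 h5])⟩

end STR

theorem str (hL : KL.{u}) (h : GH G p) (h0 : K0 G p) {D : Subgroup G} (hD : Dl p D) : Str p D :=
  have _ := h0
  STR.aux hL h hD (ZD D ⊔ ⨆ Q ∈ Fx p D, (Q : Subgroup G))
    (sup_le inf_le_right (iSup₂_le fun _ hQ => le_centralizer_iff.1 hQ)) le_sup_left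
    (fun Q hQ => le_sup_of_le_right (le_iSup₂ (f := fun Q (_ : Q ∈ Fx p D) => (Q : Subgroup G)) Q hQ))
    fun _ h1 h2 => sup_le h1 (iSup₂_le h2)

end CL.NP
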