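/-
Project NP, job T1A: no non-exceptional character has degree `|G : N|`.
-/
import Cfsg.Agent.NP.Defs

set_option autoImplicit false

namespace CL.NP

open Finset CL.Inv.PO CL.Blk CL.Char Cfsg Subgroup
open scoped Classical commutatorElement

universe u

namespace T1Ax

variable {G : Type*} [Group G] [Fintype G] {p : ℕ} [hp : Fact p.Prime] {x : G} {C : Subgroup G}

/-- a linear character trivial on `P` is determined by its value on a generator of `N / P` -/
theorem ext_gen (K : Ctx p x C) (hC : C ≤ zpowers x) {g : Nz x} (hg : orderOf (K.a g) = K.f) {ψ ψ' : Nz x →* ℂˣ}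
    (h : TrivP ψ) (h' : TrivP ψ') (e : ψ g = ψ' g) : ψ = ψ' := by
  have h1 : zpowers (K.a g) = K.a.range :=
    eq_of_le_of_card_ge (zpowers_le.2 ⟨g, rfl⟩) (by rw [Nat.card_zpowers, hg]; rfl)
  refine MonoidHom.ext fun n => ?_
  obtain ⟨k, hk⟩ : K.a n ∈ zpowers (K.a g) := h1 ▸ ⟨n, rfl⟩
  have h2 : (((g ^ k)⁻¹ * n : Nz x) : G) ∈ zpowers x :=
    hC ((K.a_eq_one_iff _).1 (by rw [map_mul, map_inv, map_zpow, ← hk, inv_mul_cancel]))
  have h3 := h _ h2
  have h4 := h' _ h2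
  rw [map_mul, map_inv, inv_mul_eq_one, map_zpow] at h3 h4
  rw [← h3, ← h4, e]

theorem indN_inv (K : Ctx p x C) (hC : C ≤ zpowers x) (hp2 : p ≠ 2) {s : Nz x} (h1 : K.a s ≠ 1)
    (h2 : (s : G) * s = 1) {ψ : Nz x →* ℂˣ} (h : TrivP ψ) :
    indN ψ s = ψ s * indN (1 : Nz x →* ℂˣ) s := by
  have neg : ∀ r : Nz x, K.a r ≠ 1 → (r : G) * r = 1 → K.a r = -1 := fun r k1 k2 => by
    have k3 : K.a r * K.a r = 1 := by rw [← map_mul, show r * r = 1 from Subtype.ext k2, map_one]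
    have k4 := congrArg Units.val k3
    rw [Units.val_mul, Units.val_one, mul_self_eq_one_iff] at k4
    exact (k4.imp Units.ext Units.ext).resolve_left k1
  refine mul_left_cancel₀ (natCard_subgroup_ne_zero (Nz x)) ?_
  rw [mul_left_comm, card_mul_indFun, card_mul_indFun, mul_sum]
  refine sum_congr rfl fun y _ => ?_
  by_cases hy : y⁻¹ * s * y ∈ Nz x
  · rw [extendByZero_of_mem _ hy, extendByZero_of_mem _ hy, MonoidHom.one_apply, Units.val_one, mul_one]
    have k2 : (y⁻¹ * s * y) * (y⁻¹ * s * y) = 1 := by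
      rw [show (y⁻¹ * s * y) * (y⁻¹ * s * y) = y⁻¹ * (s * s) * y by group, h2]; group
    have k1 : K.a ⟨_, hy⟩ ≠ 1 := fun k => by
      have m : y⁻¹ * s * y ∈ zpowers x := hC ((K.a_eq_one_iff _).1 k)
      have o1 : orderOf (y⁻¹ * s * y) ∣ p := K.card_P ▸ Subgroup.orderOf_dvd_natCard _ m
      have o2 : orderOf (y⁻¹ * s * y) ∣ 2 := orderOf_dvd_of_pow_eq_one (by rw [pow_two, k2])
      have o3 := Nat.eq_one_of_dvd_coprimes ((Nat.coprime_primes hp.out Nat.prime_two).2 hp2) o1 o2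
      have o4 : (s : G) = 1 := by
        have := orderOf_eq_one_iff.1 o3
        rwa [mul_assoc, inv_mul_eq_one, eq_comm, mul_eq_right] at this
      exact h1 (by rw [show s = 1 from Subtype.ext o4, map_one])
    have k3 := h (s⁻¹ * ⟨_, hy⟩) (hC ((K.a_eq_one_iff _).1 (by
      rw [map_mul, map_inv, neg s h1 h2, neg _ k1 k2, inv_mul_cancel])))
    rw [map_mul, map_inv, inv_mul_eq_one] at k3
    rw [k3]
  · rw [extendByZero_of_not_mem _ hy, extendByZero_of_not_mem _ hy, mul_zero]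

omit hp in
theorem indN_one_ne (s : Nz x) : indN (1 : Nz x →* ℂˣ) s ≠ 0 := fun h => by
  have := card_mul_indN_one (x := x) (s : G)
  rw [h, mul_zero, eq_comm, Nat.cast_eq_zero, card_eq_zero, filter_eq_empty_iff] at this
  exact this (mem_univ 1) (by simp)

theorem card_le {α : Type*} (L : Finset α) (F : α → ℂ) (hF : Set.InjOn F L) {c : ℕ} (hc : 0 < c) {σ : ℂ}
    (h : ∀ β ∈ L, F β ^ c = σ) : L.card ≤ c :=
  (card_le_card_of_injOn (t := (Polynomial.nthRoots c σ).toFinset) F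
    (fun β hβ => by simpa [Polynomial.mem_nthRoots hc] using h β hβ) hF).trans
    ((Multiset.toFinset_card_le _).trans (Polynomial.card_nthRoots c σ))

/-- the dimension of the fixed space of `P` on an irreducible character of degree `|G : N|` -/
theorem bound (K : Ctx p x C) (hC : C ≤ zpowers x) (hp2 : p ≠ 2) {χ : IrrCharacter G}
    (hχ : (χ : G → ℂ) 1 = (Nz x).index) {w : ℕ} (hw : ∑ j : ZMod p, (χ : G → ℂ) (x ^ j.val) = p * w) :
    w ≤ K.f ∧ (Even K.f → 2 * w ≤ K.f) := by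
  have hp0 : (p : ℂ) ≠ 0 := Nat.cast_ne_zero.2 hp.out.ne_zero
  obtain ⟨γ, hγ, h1, -, h2, h3⟩ := K.exists_fixed_part hC χ.2.isCharacter
  let L : Finset (IrrCharacter (Nz x)) := univ.filter fun β => classInner γ (β : Nz x → ℂ) ≠ 0
  have hL : ∀ β ∈ L, ∃ ψ : Nz x →* ℂˣ, TrivP ψ ∧ (β : Nz x → ℂ) = (fun n => (ψ n : ℂ)) ∧ indN ψ = χ := by
    intro β hβ
    have hb := (mem_filter.1 hβ).2
    obtain ⟨ψ, hψ, e⟩ := h3 β β.2 hb
    refine ⟨ψ, hψ, e, ?_⟩
    rw [e, h2 ψ hψ, χ.2.isCharacter.classInner_comm (isCharacter_indN ψ)] at hb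
    exact sub_eq_zero.1 (((isCharacter_indN ψ).sub_of_classInner_ne_zero χ.2 hb).eq_zero_of_one_eq_zero
      (by rw [Pi.sub_apply, indN_one, hχ, sub_self]))
  have hc : L.card = w := by
    have k : γ 1 = L.card := by
      rw [hγ.isClassFunction.apply_eq_sum_irr 1, ← sum_filter_of_ne (p := fun β : IrrCharacter (Nz x) =>
        classInner γ (β : Nz x → ℂ) ≠ 0) fun β _ h => left_ne_zero_of_mul h, card_eq_sum_ones, Nat.cast_sum]
      refine sum_congr rfl fun β hβ => ?_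
      obtain ⟨ψ, hψ, e, e'⟩ := hL β hβ
      rw [e, h2 ψ hψ, e', χ.2.classInner_self]
      simp
    rw [hw, k] at h1
    exact_mod_cast mul_left_cancel₀ hp0 h1
  obtain ⟨g, hg⟩ := K.exists_orderOf_a
  have inj : Set.InjOn (fun β : IrrCharacter (Nz x) => (β : Nz x → ℂ) g) L := fun β hβ β' hβ' e => by
    obtain ⟨ψ, hψ, e1, -⟩ := hL β hβ
    obtain ⟨ψ', hψ', e2, -⟩ := hL β' hβ'
    simp only [e1, e2] at e
    exact Subtype.ext (by rw [e1, e2, ext_gen K hC hg hψ hψ' (Units.ext e)])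
  rw [← hc]
  refine ⟨card_le L _ inj K.f_pos (σ := 1) fun β hβ => ?_, fun ⟨c, hc⟩ => ?_⟩
  · obtain ⟨ψ, hψ, e1, -⟩ := hL β hβ
    simp only [e1]
    rw [← Units.val_pow_eq_pow_val, ← map_pow, hψ _ (K.pow_f_mem hC g), Units.val_one]
  · have f0 := K.f_pos
    have a1 : K.a (g ^ c) ≠ 1 := by
      rw [map_pow]; exact pow_ne_one_of_lt_orderOf (by omega) (by omega)
    have a2 : ((g ^ c : Nz x) : G) * (g ^ c : Nz x) = 1 := by
      refine K.eq_one_of_comm hC ?_ (n := (g ^ c : Nz x)) (fun k => a1 ((K.a_eq_one_iff _).2 (K.P_le_C k)))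
        (mul_assoc _ _ _)
      rw [SubgroupClass.coe_pow, ← pow_add, ← hc]
      exact K.pow_f_mem hC g
    have := card_le L _ inj (c := c) (by omega)
      (σ := (χ : G → ℂ) (g ^ c : Nz x) / indN (1 : Nz x →* ℂˣ) (g ^ c : Nz x)) fun β hβ => by
        obtain ⟨ψ, hψ, e1, e2⟩ := hL β hβ
        simp only [e1]
        rw [← Units.val_pow_eq_pow_val, ← map_pow, ← e2, indN_inv K hC hp2 a1 a2 hψ,
          mul_div_cancel_right₀ _ (indN_one_ne _)]
    omega

end T1Ax

variable {G : Type u} [Group G] [Fintype G] {p : ℕ} [Fact p.Prime] (S : St G p)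

theorem t1a (hs : S.Self) (hd : S.Deg) : S.m S.d1 = 0 := by
  by_contra h0
  obtain ⟨χ, hχ, e⟩ := S.m_pos.1 (Nat.pos_of_ne_zero h0)
  have s1 := (hd.sg χ hχ).1 (Or.inl e)
  have h5 := S.gh.five
  have hab := S.hab
  have hb := S.hb
  have h2a : 2 * S.a ≤ S.a * S.b := by rw [mul_comm]; exact Nat.mul_le_mul_left _ hb
  have hap : S.a ≤ p := by omega
  have hw : ∑ j : ZMod p, (χ : G → ℂ) (S.x ^ j.val) = p * (p + S.b - S.a : ℕ) := by
    have k : (p : ℂ) = S.a * S.b + 1 := by exact_mod_cast hab.symm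
    rw [S.D.sum_X_P hχ, s1, show charDegree (χ : G → ℂ) = S.d1 from e, St.d1, Nat.cast_sub (by omega), Nat.cast_mul,
      Nat.cast_sub hap]
    push_cast
    linear_combination k
  obtain ⟨k1, k2⟩ := T1Ax.bound S.K hs (by omega) (χ := χ)
    (by rw [← χ.2.cast_charDegree, show charDegree (χ : G → ℂ) = S.d1 from e, S.hn, St.d1]) hw
  have hte := S.t_mul_e
  change _ ≤ S.e at k1
  change Even S.e → _ ≤ S.e at k2
  have t0 : S.t ≠ 0 := fun h => by rw [h] at hte; omega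
  rcases Nat.even_or_odd S.e with he | he
  · have := k2 he
    have : S.e ≤ S.t * S.e := Nat.le_mul_of_pos_left _ (Nat.pos_of_ne_zero t0)
    omega
  · have po : Odd p := (Fact.out : p.Prime).odd_of_ne_two (by omega)
    have t1 : S.t ≠ 1 := fun h => by
      rw [h, one_mul] at hte
      obtain ⟨u, hu⟩ := he
      obtain ⟨v, hv⟩ := po
      omega
    have : 2 * S.e ≤ S.t * S.e := Nat.mul_le_mul_right _ (by omega)
    omega

end CL.NP
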