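/-
Project NP (S4340, S4338): the exceptional characters do not add up to the degree `|G : N|`.
-/
import Cfsg.Agent.NP.Defs

set_option autoImplicit false

namespace CL.NP

open Finset CL.Inv.PO CL.Blk CL.Char Cfsg Subgroup
open scoped Classical commutatorElement

universe u

variable {G : Type u} [Group G] [Fintype G] {p : ℕ} [hp : Fact p.Prime] (S : St G p)

namespace T1B

theorem lt_A : S.a < p - S.a := by
  have h1 := S.hab
  have h2 := Nat.mul_le_mul_left S.a S.hb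
  omega

theorem eps (hd : S.Deg) (h : S.t * S.θ = S.d1) : S.D.ε = -1 := by
  rcases hd.μ with h1 | ⟨-, h1, -⟩
  · exact h1.1
  exfalso
  have h2 := lt_A S
  have h3 : S.a * (p + S.b) < (p - S.a) * (p + S.b) :=
    Nat.mul_lt_mul_of_pos_right h2 (by have := hp.out.pos; omega)
  have h4 : S.a * S.b ≤ S.a * (p + S.b) := Nat.mul_le_mul_left _ (by omega)
  rw [h] at h1
  unfold St.d1 St.d3 St.d4 at h1
  omega

/-- an induced character containing an exceptional character is the sum of all of them -/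
theorem ind_eq (hs : S.Self) (h : S.t * S.θ = S.d1) {ψ : Nz S.x →* ℂˣ} (hψ : TrivP ψ)
    (h0 : classInner (S.D.μ 1 : G → ℂ) (indN ψ) ≠ 0) : indN ψ = ∑ χ ∈ S.D.Y, (χ : G → ℂ) := by
  have hc := isCharacter_indN ψ
  rw [(S.D.μ 1).2.isCharacter.classInner_comm hc] at h0
  have h1 : ∀ χ ∈ S.D.Y, classInner (indN ψ) χ ≠ 0 := by
    intro χ hχ
    obtain ⟨l, rfl⟩ := S.D.mem_Y.1 hχ
    have h2 := S.D.inner_A_eq (indN ψ) l
    have h3 := S.D.inner_A_eq (indN ψ) 1
    rw [S.K.inner_indN_A hs hψ] at h2 h3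
    have h4 : (S.D.ε : ℂ) * classInner (indN ψ) (S.D.μ l : G → ℂ) =
        S.D.ε * classInner (indN ψ) (S.D.μ 1 : G → ℂ) := by linear_combination h3 - h2
    rwa [mul_left_cancel₀ (left_ne_zero_of_mul_eq_one S.D.ε_mul_self) h4]
  refine sub_eq_zero.1 (char_eq_zero_of_one_eq_zero (isCharacter_sub_sum hc _ h1) ?_)
  rw [Pi.sub_apply, Finset.sum_apply, indN_one, S.D.sum_Y_reg 1 (by simpa using hp.out.one_lt.ne'),
    ← (S.D.μ 1).2.cast_charDegree, S.hn, sub_eq_zero]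
  exact_mod_cast h.symm

theorem odd_case (hs : S.Self) (h : S.t * S.θ = S.d1) (he : Odd S.e) {ψ : Nz S.x →* ℂˣ}
    (hψ : indN ψ = ∑ χ ∈ S.D.Y, (χ : G → ℂ)) : False := by
  haveI : Fact (Nat.Prime 2) := ⟨Nat.prime_two⟩
  have h5 := S.gh.five
  have hpo : Odd p := hp.out.odd_of_ne_two (by omega)
  have ht : 2 ∣ S.t := by
    have h1 := S.t_mul_e
    have h2 := S.hab
    have h3 : Even (S.t * S.e) := by
      obtain ⟨k, hk⟩ := hpo
      exact ⟨k, by omega⟩
    exact ((Nat.even_mul.1 h3).resolve_right (Nat.not_even_iff_odd.2 he)).two_dvd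
  have ht0 : S.t ≠ 0 := index_ne_zero_of_finite
  obtain ⟨U⟩ : Nonempty (Sylow 2 G) := inferInstance
  have hz : ∀ g : (U : Subgroup G), g ≠ 1 → (S.D.μ 1 : G → ℂ) g = 0 := by
    intro g hg
    obtain ⟨k, hk⟩ := IsPGroup.iff_orderOf.1 U.2 g
    rw [← orderOf_coe] at hk
    have hk0 : k ≠ 0 := by
      rintro rfl
      exact hg (Subtype.ext (orderOf_eq_one_iff.1 hk))
    have h1 : indN ψ g = 0 := indFun_eq_zero_of_not_conj_mem _ fun y hy => by
      have h2 := (Nz S.x).orderOf_dvd_natCard hy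
      rw [S.K.card_N_self hs, ← orderOf_eq_of_isConj (isConj_iff.2 ⟨y⁻¹, by rw [inv_inv]⟩), hk] at h2
      exact (he.mul hpo).not_two_dvd_nat ((dvd_pow_self 2 hk0).trans h2)
    rw [hψ, Finset.sum_apply, S.D.sum_Y_reg 1 (fun h2 => by
      rw [hk] at h2
      have := (Nat.prime_dvd_prime_iff_eq hp.out Nat.prime_two).1 (hp.out.dvd_of_dvd_pow h2)
      omega)] at h1
    exact (mul_eq_zero.1 h1).resolve_left (Nat.cast_ne_zero.2 ht0)
  obtain ⟨m, hm⟩ := ((S.D.μ 1).2.isCharacter.restrict (U : Subgroup G)).exists_nat_classInner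
    (isIrrCharacter_one (G := (U : Subgroup G))).isCharacter
  rw [classInner_def, Finset.sum_eq_single (1 : (U : Subgroup G)) (fun g _ hg => by rw [hz g hg, zero_mul]) (by simp),
    inv_mul_eq_iff_eq_mul₀ natCard_ne_zero, map_one, mul_one, OneMemClass.coe_one,
    ← (S.D.μ 1).2.cast_charDegree] at hm
  have h1 : S.θ = Nat.card (U : Subgroup G) * m := by exact_mod_cast hm
  have h2 := (U : Subgroup G).card_mul_index
  rw [S.card_G hs, ← h, h1] at h2
  have h3 : (U : Subgroup G).index = p * S.e * S.t * m :=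
    Nat.eq_of_mul_eq_mul_left (Nat.card_pos (α := (U : Subgroup G))) (by rw [h2]; ring)
  exact U.not_dvd_index (h3 ▸ (ht.mul_left _).mul_right _)

theorem exists_neg (he : Even S.e) : ∃ s : Nz S.x, S.K.a s = -1 ∧ S.K.a s ≠ 1 := by
  obtain ⟨n, hn⟩ := S.K.exists_orderOf_a
  obtain ⟨c, hc⟩ := he
  have hf := S.K.f_pos
  change S.K.f = _ at hc
  have h1 : S.K.a n ^ c ≠ 1 := pow_ne_one_of_lt_orderOf (by omega) (by omega)
  have h2 : S.K.a n ^ c * S.K.a n ^ c = 1 := by rw [← pow_add, ← hc, ← hn, pow_orderOf_eq_one]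
  have h3 := congrArg Units.val h2
  rw [Units.val_mul, Units.val_one, mul_self_eq_one_iff] at h3
  exact ⟨n ^ c, by rw [map_pow]; exact Units.ext (h3.resolve_left fun e => h1 (Units.ext e)),
    by rwa [map_pow]⟩

theorem apply_eq (hs : S.Self) {ψ : Nz S.x →* ℂˣ} (hψ : TrivP ψ) {n m : Nz S.x} (h : S.K.a n = S.K.a m) :
    ψ n = ψ m := by
  have := hψ (n⁻¹ * m) (hs ((S.K.a_eq_one_iff _).1 (by rw [map_mul, map_inv, h, inv_mul_cancel])))
  rwa [map_mul, map_inv, inv_mul_eq_one] at this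

/-- the value of an induced character on an involution of `N` -/
theorem ind_inv (hs : S.Self) {ψ : Nz S.x →* ℂˣ} (hψ : TrivP ψ) {s : Nz S.x} (h1 : S.K.a s = -1)
    (h2 : S.K.a s ≠ 1) : indN ψ s = ψ s * indN (1 : Nz S.x →* ℂˣ) s := by
  have hsP : (s : G) ∉ zpowers S.x := fun h => h2 ((S.K.a_eq_one_iff s).2 (S.K.P_le_C h))
  have hss : (s : G) * s = 1 := S.K.eq_one_of_comm hs
    (hs ((S.K.a_eq_one_iff (s * s)).1 (by rw [map_mul, h1]; simp))) hsP (mul_assoc _ _ _)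
  unfold indN
  rw [indFun_apply, indFun_apply, mul_left_comm, mul_sum univ _ (ψ s : ℂ)]
  refine congrArg _ (sum_congr rfl fun y _ => ?_)
  by_cases hy : y⁻¹ * s * y ∈ Nz S.x
  · rw [extendByZero_of_mem _ hy, extendByZero_of_mem _ hy]
    have h3 : (⟨_, hy⟩ : Nz S.x) * ⟨_, hy⟩ = 1 := Subtype.ext (by
      change y⁻¹ * s * y * (y⁻¹ * s * y) = 1
      rw [show y⁻¹ * s * y * (y⁻¹ * s * y) = y⁻¹ * (s * s) * y by group, hss]; group)
    have h4 := congrArg Units.val (congrArg S.K.a h3)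
    rw [map_mul, map_one, Units.val_mul, Units.val_one, mul_self_eq_one_iff] at h4
    have h5 : S.K.a ⟨_, hy⟩ = S.K.a s := by
      rw [h1]
      refine Units.ext (h4.resolve_left fun e => hsP ?_)
      have h6 := hs ((S.K.a_eq_one_iff _).1 (Units.ext e))
      have h7 := (zpowers S.x).orderOf_dvd_natCard h6
      have h8 : orderOf (y⁻¹ * s * y) ∣ 2 :=
        orderOf_dvd_of_pow_eq_one (by rw [sq]; exact congrArg Subtype.val h3)
      rw [S.K.card_P] at h7
      have h9 : y⁻¹ * s * y = 1 := orderOf_eq_one_iff.1 (Nat.eq_one_of_dvd_coprimes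
        ((Nat.coprime_primes hp.out Nat.prime_two).2 (by have := S.gh.five; omega)) h7 h8)
      rw [show (s : G) = y * (y⁻¹ * s * y) * y⁻¹ by group, h9]
      simp
    rw [apply_eq S hs hψ h5]; simp
  · rw [extendByZero_of_not_mem _ hy, extendByZero_of_not_mem _ hy, mul_zero]

theorem ind_one_ne (s : Nz S.x) : indN (1 : Nz S.x →* ℂˣ) s ≠ 0 := by
  intro h
  have := card_mul_indN_one (x := S.x) (s : G)
  rw [h, mul_zero, eq_comm, Nat.cast_eq_zero, card_eq_zero, filter_eq_empty_iff] at this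
  exact this (mem_univ 1) (by simp)

/-- the norm estimate -/
theorem norm_bound (hs : S.Self) {γ : Nz S.x → ℂ} {w : ℕ} (hw : 0 < w) (hn : classInner γ γ = w) {s : Nz S.x}
    (h2 : S.K.a s ≠ 1) (hP : ∀ n : Nz S.x, (n : G) ∈ zpowers S.x → ‖γ n‖ = w ∧ ‖γ (n * s)‖ = w) :
    2 * w ≤ S.e := by
  set F := univ.filter fun n : Nz S.x => (n : G) ∈ zpowers S.x with hF
  have hc : F.card = p := by
    rw [hF, ← Fintype.card_subtype, ← Nat.card_eq_fintype_card]
    exact (Nat.card_congr (subgroupOfEquivOfLe (H := zpowers S.x) le_normalizer).toEquiv).trans S.K.card_P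
  have hd : Disjoint F (F.map (Equiv.mulRight s).toEmbedding) := by
    refine disjoint_left.2 fun n hn hn' => h2 ?_
    obtain ⟨m, hm, rfl⟩ := mem_map.1 hn'
    refine (S.K.a_eq_one_iff s).2 (S.K.P_le_C ?_)
    have := mul_mem (inv_mem (mem_filter.1 hm).2) (mem_filter.1 hn).2
    simpa using this
  have h3 : ∑ n : Nz S.x, ‖γ n‖ ^ 2 = (S.e * p * w : ℕ) := by
    rw [classInner_def, inv_mul_eq_iff_eq_mul₀ natCard_ne_zero, S.K.card_N_self hs] at hn
    simp only [Complex.mul_conj, Complex.normSq_eq_norm_sq] at hn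
    exact_mod_cast hn
  have h4 : ∑ n ∈ F.disjUnion _ hd, ‖γ n‖ ^ 2 ≤ ∑ n : Nz S.x, ‖γ n‖ ^ 2 :=
    sum_le_sum_of_subset_of_nonneg (subset_univ _) fun _ _ _ => by positivity
  have h6 : ∑ n ∈ F, ‖γ n‖ ^ 2 = p * (w : ℝ) ^ 2 := by
    rw [sum_congr rfl fun n hn => by rw [(hP n (mem_filter.1 hn).2).1], sum_const, hc, nsmul_eq_mul]
  have h7 : ∑ n ∈ F, ‖γ ((Equiv.mulRight s).toEmbedding n)‖ ^ 2 = p * (w : ℝ) ^ 2 := by
    rw [sum_congr rfl (g := fun _ => (w : ℝ) ^ 2) fun n hn => by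
      rw [← (hP n (mem_filter.1 hn).2).2]; rfl, sum_const, hc, nsmul_eq_mul]
  rw [sum_disjUnion, sum_map, h3, h6, h7] at h4
  have h5 : p * w * (2 * w) ≤ p * w * S.e := by
    have : p * w ^ 2 + p * w ^ 2 ≤ S.e * p * w := by exact_mod_cast h4
    nlinarith
  exact Nat.le_of_mul_le_mul_left h5 (Nat.mul_pos hp.out.pos hw)

end T1B

open T1B in
theorem t1b (hs : S.Self) (hd : S.Deg) : S.t * S.θ ≠ S.d1 := by
  intro h
  have hε := eps S hd h
  obtain ⟨γ, hγ, h1, -, h2, h3⟩ := S.K.exists_fixed_part hs (S.D.μ 1).2.isCharacter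
  obtain ⟨w, hw⟩ := hγ.exists_nat_one
  rw [S.D.sum_μ_P, hε, hw] at h1
  have h4 : p * w = S.θ + S.e := by
    have : (p : ℂ) * w = S.θ + S.e := by rw [h1]; simp [St.θ, St.e]
    exact_mod_cast this
  have hw0 : 0 < w := Nat.pos_of_ne_zero fun e => by
    have := S.K.f_pos
    rw [e] at h4
    unfold St.e at h4
    omega
  -- the constituents of `γ`
  have h5 : ∀ β : IrrCharacter (Nz S.x), classInner γ β = 0 ∨ (classInner γ β = 1 ∧
      ∃ ψ : Nz S.x →* ℂˣ, TrivP ψ ∧ (β : Nz S.x → ℂ) = (fun n => (ψ n : ℂ)) ∧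
        indN ψ = ∑ χ ∈ S.D.Y, (χ : G → ℂ)) := by
    intro β
    refine or_iff_not_imp_left.2 fun h0 => ?_
    obtain ⟨ψ, hψ, e⟩ := h3 β β.2 h0
    rw [e, h2 ψ hψ] at h0
    have h6 := ind_eq S hs h hψ h0
    refine ⟨?_, ψ, hψ, e, h6⟩
    rw [e, h2 ψ hψ, h6, classInner_sum_right, sum_congr rfl fun χ _ => classInner_irr _ χ, sum_ite_eq,
      if_pos (S.D.μ_mem_Y 1)]
  obtain ⟨β₀, hβ₀, hb⟩ := exists_irr_constituent hγ (by
    rintro rfl
    exact hw0.ne' (by simpa using hw.symm))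
  obtain ⟨-, ψ₀, hψ₀, -, e₀⟩ := (h5 ⟨β₀, hβ₀⟩).resolve_left hb
  rcases Nat.even_or_odd S.e with he | he
  swap
  · exact odd_case S hs h he e₀
  obtain ⟨s, hs1, hs2⟩ := exists_neg S he
  have h6 : 2 * w ≤ S.e := by
    refine norm_bound S hs (γ := γ) hw0 ?_ hs2 fun n hn => ?_
    · rw [hγ.isClassFunction.classInner_eq_sum, ← hw, hγ.isClassFunction.apply_eq_sum_irr]
      refine sum_congr rfl fun β _ => ?_
      rcases h5 β with h0 | ⟨h0, ψ, -, e, -⟩
      · rw [h0, zero_mul, zero_mul]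
      · rw [h0, e]; simp
    · have h7 : γ n = w := by
        rw [← hw, hγ.isClassFunction.apply_eq_sum_irr, hγ.isClassFunction.apply_eq_sum_irr 1]
        refine sum_congr rfl fun β _ => ?_
        rcases h5 β with h0 | ⟨h0, ψ, hψ, e, -⟩
        · rw [h0, zero_mul, zero_mul]
        · rw [e]; simp [hψ n hn]
      have h8 : γ (n * s) = ψ₀ s * w := by
        rw [← hw, hγ.isClassFunction.apply_eq_sum_irr, hγ.isClassFunction.apply_eq_sum_irr 1, mul_sum]
        refine sum_congr rfl fun β _ => ?_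
        rcases h5 β with h0 | ⟨h0, ψ, hψ, e, e'⟩
        · rw [h0, zero_mul, zero_mul, mul_zero]
        · have h9 : (ψ s : ℂ) = ψ₀ s := mul_right_cancel₀ (ind_one_ne S s) (by
            rw [← ind_inv S hs hψ hs1 hs2, ← ind_inv S hs hψ₀ hs1 hs2, e', e₀])
          rw [e]; simp [hψ n hn, h9, mul_comm]
      rw [h7, h8, norm_mul, norm_monoidHom_apply, one_mul, Complex.norm_natCast]
      exact ⟨rfl, rfl⟩
  have h7 := S.t_mul_e
  have h8 := S.hab
  have h9 := lt_A S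
  obtain ⟨A, hA⟩ : ∃ A, p = S.a + A := ⟨p - S.a, by omega⟩
  have h10 : p * (S.t * w) = p * (A + S.b) := by
    rw [mul_left_comm, h4, mul_add, h, h7, St.d1, show p - S.a = A by omega]
    nlinarith
  have h11 := Nat.eq_of_mul_eq_mul_left hp.out.pos h10
  have h12 := Nat.mul_le_mul_left S.t h6
  nlinarith [S.hb]

end CL.NP
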